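import Cfsg.Agent.Lib.Helper87.CE5
import Cfsg.Agent.Lib.Helper87.PI7
import Cfsg.Agent.Lib.Helper87.Craven7
import Cfsg.Agent.Lib.Helper87.NormCentSat
import Cfsg.Agent.S5097

set_option autoImplicit false

/-! The centralizer of a normal subsystem: invariance. -/

namespace Cfsg.Agent.Lib.Helper87

open Cfsg Cfsg.FusionSystem Cfsg.Agent.Lib.Helper15.FusCE

variable {Ω : Type*} [Group Ω] {S T : Subgroup Ω} {F : FusionSystem S} {E : FusionSystem T}

theorem congr_mem_residual' {C : Subgroup Ω} {G : FusionSystem S} {𝒞 : FusionSystem C} {p : ℕ}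
    {P Q : Subgroup Ω} {f : Ω → Ω} (h : Iso G P Q f)
    (H : ∀ w ∈ 𝒞.autGroup P, MulAut.congr h.toMulEquiv w ∈ 𝒞.autGroup Q) {β : MulAut P}
    (hβ : β ∈ (pResidual p (𝒞.autGroup P)).map (𝒞.autGroup P).subtype) :
    MulAut.congr h.toMulEquiv β ∈ (pResidual p (𝒞.autGroup Q)).map (𝒞.autGroup Q).subtype := by
  rw [Cfsg.Agent.Lib.Helper2.map_pResidual_subtype] at hβ ⊢
  induction hβ using Subgroup.closure_induction with
  | mem x hx =>
    refine Subgroup.subset_closure ⟨H x hx.1, ?_⟩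
    have : orderOf (MulAut.congr h.toMulEquiv x) = orderOf x :=
      orderOf_injective (MulAut.congr h.toMulEquiv).toMonoidHom
        (MulAut.congr h.toMulEquiv).injective x
    rw [this]
    exact hx.2
  | one => rw [map_one]; exact Subgroup.one_mem _
  | mul a b _ _ iha ihb => rw [map_mul]; exact Subgroup.mul_mem _ iha ihb
  | inv a _ iha => rw [map_inv]; exact Subgroup.inv_mem _ iha

/-- A saturated subsystem of `p`-power index in `𝒞` is invariant under the automorphisms of `Y` in a larger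
system that normalize `𝒞`. -/
theorem invF_of_pPowerIndex' {C Y : Subgroup Ω} [Finite Y] {p : ℕ} [Fact p.Prime]
    (hY : IsPGroup p Y) {G : FusionSystem S} {𝒞 : FusionSystem C} {D : FusionSystem Y}
    (hDs : D.IsSaturated p) (hDi : D.HasPPowerIndexIn 𝒞 p)
    (H : ∀ (a : Ω → Ω), Iso G Y Y a → ∀ (U X : Subgroup Ω) (hiso : Iso G U X a), U ≤ Y →
      ∀ w ∈ 𝒞.autGroup U, MulAut.congr hiso.toMulEquiv w ∈ 𝒞.autGroup X) : InvF D G := by
  refine alperin_induction hY hDs (fun P f => ∀ a : Ω → Ω, Iso G Y Y a → ∀ X : Subgroup Ω,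
    (∀ y, y ∈ X ↔ ∃ x ∈ P, a x = y) → ∃ χ, Mor D X χ ∧ ∀ x ∈ P, χ (a x) = a (f x)) ?_ ?_ ?_ ?_ ?_
  · intro P f g h e a ha X hX
    obtain ⟨χ, hχ, e'⟩ := h a ha X hX
    exact ⟨χ, hχ, fun x hx => by rw [e' x hx, e x hx]⟩
  · intro P R f hf h hR a ha X hX
    obtain ⟨χ, hχ, e'⟩ := h a ha (img P a) ((ha.mor.mono hf.le).mem_img)
    refine ⟨χ, hχ.mono (fun y hy => ?_), fun x hx => e' x (hR hx)⟩
    obtain ⟨x, hx, rfl⟩ := (hX y).1 hy
    exact ((ha.mor.mono hf.le).mem_img _).2 ⟨x, hR hx, rfl⟩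
  · intro P Q f g hf hg h h' hPQ a ha X hX
    obtain ⟨χ, hχ, e⟩ := h a ha X hX
    obtain ⟨χ', hχ', e'⟩ := h' a ha (img Q a) ((ha.mor.mono hg.le).mem_img)
    refine ⟨χ' ∘ χ, hχ.comp hχ' (fun y hy => ?_), fun x hx => ?_⟩
    · obtain ⟨x, hx, rfl⟩ := (hX y).1 hy
      rw [e x hx]
      exact ((ha.mor.mono hg.le).mem_img _).2 ⟨f x, hPQ x hx, rfl⟩
    · show χ' (χ (a x)) = a (g (f x))
      rw [e x hx, e' _ (hPQ x hx)]
  · intro P Q f g hf hg hgf h a ha X hX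
    obtain ⟨χ, hχ, e⟩ := h a ha (img P a) ((ha.mor.mono hf.le).mem_img)
    have hiso : Iso D (img P a) X χ := by
      refine ⟨hχ, fun y => ?_⟩
      rw [hX y]
      constructor
      · rintro ⟨q, hq, rfl⟩
        obtain ⟨x, hx, rfl⟩ := hf.surj hq
        exact ⟨a x, ((ha.mor.mono hf.le).mem_img _).2 ⟨x, hx, rfl⟩, e x hx⟩
      · rintro ⟨z, hz, rfl⟩
        obtain ⟨x, hx, rfl⟩ := ((ha.mor.mono hf.le).mem_img _).1 hz
        exact ⟨f x, hf.map_mem hx, (e x hx).symm⟩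
    obtain ⟨χ', hχ', hχχ, -⟩ := hiso.symm
    refine ⟨χ', hχ'.mor, fun q hq => ?_⟩
    obtain ⟨x, hx, rfl⟩ := hf.surj hq
    rw [← e x hx, hχχ _ (((ha.mor.mono hf.le).mem_img _).2 ⟨x, hx, rfl⟩), hgf x hx]
  · intro U hU
    left
    intro α hα a ha X hX
    obtain ⟨w, hw, t, ht, e⟩ := aut_eq_residual_mul_conj
      (fullyNormalized_fullyAutomized hY hDs hU) hα
    have htT : t ∈ Y := (normalizerIn_le Y U) ht
    have htU : ∀ x ∈ U, t * x * t⁻¹ ∈ U := fun x hx =>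
      (Subgroup.mem_normalizer_iff.1 (Subgroup.mem_inf.1 ht).2 x).1 hx
    have hiso : Iso G U X a := ⟨ha.mor.mono hU.1, hX⟩
    have hXT : X ≤ Y := by
      intro y hy
      obtain ⟨x, hx, rfl⟩ := (hX y).1 hy
      exact ha.map_mem (hU.1 hx)
    have h1 : MulAut.congr hiso.toMulEquiv (w : MulAut U) ∈ D.autGroup X :=
      hDi.2.2 X hXT (congr_mem_residual' hiso (H a ha U X hiso hU.1)
        (residual_map_mono p (autGroup_mono hDi.1 U) ⟨w, hw, rfl⟩))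
    have h2 := (mem_autGroup_iff D hXT _).1 h1
    have h3 : Mor D X (fun y => a t * y * (a t)⁻¹) := mor_conj D hXT (ha.map_mem htT)
    have h4 : ∀ x ∈ U, a t * a x * (a t)⁻¹ = a (t * x * t⁻¹) := fun x hx =>
      (ha.mor.map_conj htT (hU.1 hx)).symm
    refine ⟨_, h3.comp h2 (fun y hy => ?_), fun x hx => ?_⟩
    · obtain ⟨x, hx, rfl⟩ := (hX y).1 hy
      rw [h4 x hx]
      exact hiso.map_mem (htU x hx)
    · show autFun _ (a t * a x * (a t)⁻¹) = _
      rw [h4 x hx, hiso.congr_apply _ (htU x hx), autFun_apply α hx, e ⟨x, hx⟩]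

/-- Automorphisms of a strongly closed subgroup `Y ≤ C_S(T)` normalize `C_F(T)`. -/
theorem congr_mem_centralizer [Finite S] {p : ℕ} (hFs : F.IsSaturated p) {Y : Subgroup Ω}
    (hT : F.StronglyClosed T) (hY : F.StronglyClosed Y) (hYC : Y ≤ centralizerIn S T)
    {𝒞 : FusionSystem (centralizerIn S T)} (h𝒞 : F.IsCentralizerSystem T 𝒞)
    {a : Ω → Ω} (ha : Iso F Y Y a) {U X : Subgroup Ω} (hiso : Iso F U X a) (hU : U ≤ Y)
    {w : MulAut U} (hw : w ∈ 𝒞.autGroup U) :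
    MulAut.congr hiso.toMulEquiv w ∈ 𝒞.autGroup X := by
  have hUC : U ≤ centralizerIn S T := hU.trans hYC
  have hXY : X ≤ Y := by
    intro y hy
    obtain ⟨x, hx, rfl⟩ := hiso.surj hy
    exact ha.map_mem (hU hx)
  have hXC : X ≤ centralizerIn S T := hXY.trans hYC
  rw [mem_autGroup_iff 𝒞 hXC, mor_centralizerSystem_iff h𝒞]
  refine ⟨hXC, fun y hy => hXC (autFun_mem _ hy), ?_⟩
  obtain ⟨-, -, w', hw', hw'U, hw'T⟩ :=
    (mor_centralizerSystem_iff h𝒞 U _).1 ((mem_autGroup_iff 𝒞 hUC w).1 hw)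
  have hrec := receptive_of_stronglyClosed hFs hY
  obtain ⟨b, hb, hbY, hbC⟩ := receptive_extend_centralizer hrec ha
  have hTC : T ≤ centralizerIn S Y := by
    intro t ht
    refine (mem_centralizerIn_iff _ _ _).2 ⟨hT.1 ht, fun v hv => ?_⟩
    exact (((mem_centralizerIn_iff _ _ _).1 (hYC hv)).2 t ht).symm
  have hYD : Y ≤ Y ⊔ centralizerIn S Y := le_sup_left
  have hCD : centralizerIn S Y ≤ Y ⊔ centralizerIn S Y := le_sup_right
  have : Finite ↥(Y ⊔ centralizerIn S Y) := finite_of_le hb.le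
  have hbiso : Iso F (Y ⊔ centralizerIn S Y) (Y ⊔ centralizerIn S Y) b :=
    hb.iso_self (hb.map_sup_mem (fun x hx => by rw [hbY x hx]; exact hYD (ha.map_mem hx))
      (fun c hc => hCD (hbC c hc)))
  obtain ⟨bi, hbi, hbib, hbbi⟩ := hbiso.symm
  have hle : X ⊔ T ≤ Y ⊔ centralizerIn S Y := sup_le (hXY.trans hYD) (hTC.trans hCD)
  have hm1 : Mor F (X ⊔ T) bi := hbi.mor.mono hle
  have hbiX : ∀ u ∈ U, bi (a u) = u := fun u hu => by
    rw [← hbY u (hU hu), hbib u (hYD (hU hu))]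
  have hm1' : ∀ x ∈ X ⊔ T, bi x ∈ U ⊔ T :=
    hm1.map_sup_mem (fun x hx => by
      obtain ⟨u, hu, rfl⟩ := hiso.surj hx
      rw [hbiX u hu]
      exact le_sup_left (a := U) hu)
      (fun t ht => le_sup_right (a := U)
        (StronglyClosed.map_mem hT hbi.mor (hCD (hTC ht)) ht))
  have hm2' : ∀ x ∈ U ⊔ T, w' x ∈ Y ⊔ centralizerIn S Y :=
    hw'.map_sup_mem (fun x hx => by rw [hw'U x hx]; exact hYD (hU (autFun_mem w hx)))
      (fun t ht => by rw [hw'T t ht]; exact hCD (hTC ht))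
  refine ⟨b ∘ (w' ∘ bi), (hm1.comp hw' hm1').comp hb (fun x hx => hm2' _ (hm1' x hx)),
    fun x hx => ?_, fun t ht => ?_⟩
  · obtain ⟨u, hu, rfl⟩ := hiso.surj hx
    show b (w' (bi (a u))) = _
    rw [hbiX u hu, hw'U u hu, hbY _ (hU (autFun_mem w hu)), hiso.congr_apply w hu]
  · show b (w' (bi t)) = t
    rw [hw'T _ (StronglyClosed.map_mem hT hbi.mor (hCD (hTC ht)) ht), hbbi t (hCD (hTC ht))]

theorem hyperfocal_centralizer_le_CSE [Finite S] {p : ℕ} [Fact p.Prime] (hS : IsPGroup p S)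
    (hE : E.IsNormalIn F p) {𝒞 : FusionSystem (centralizerIn S T)}
    (h𝒞 : F.IsCentralizerSystem T 𝒞) : 𝒞.hyperfocalSubgroup p ≤ CSE E F := by
  unfold hyperfocalSubgroup
  rw [Subgroup.closure_le]
  rintro y ⟨P, α, x, hP, -, rfl⟩
  have hm := (mem_autGroup_iff 𝒞 hP (α : MulAut P)).1 α.2
  obtain ⟨hPC, -, f', hf', hf'P, hf'T⟩ := (mor_centralizerSystem_iff h𝒞 P _).1 hm
  have hle : T ⊔ Subgroup.zpowers (x : Ω) ≤ P ⊔ T :=
    sup_le le_sup_right ((Subgroup.zpowers_le).2 (le_sup_left (a := P) x.2))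
  obtain ⟨hY, hext⟩ := focal_ext hS hE (hPC x.2) (hf'.mono hle) hf'T
  have h1 : (x : Ω)⁻¹ * f' x ∈ CSE E F := le_CSE ⟨hY, hext⟩ (Subgroup.mem_zpowers _)
  rwa [hf'P x x.2, autFun_coe] at h1

end Cfsg.Agent.Lib.Helper87
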