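import Cfsg.Agent.Lib.Helper87.CE6

set_option autoImplicit false

/-! The centralizer of a normal subsystem: the Frattini condition and existence. -/

namespace Cfsg.Agent.Lib.Helper87

open Cfsg Cfsg.FusionSystem Cfsg.Agent.Lib.Helper15.FusCE

variable {Ω : Type*} [Group Ω] {S T : Subgroup Ω} {F : FusionSystem S} {E : FusionSystem T}

theorem le_centralizerIn_of_le_CSE (hTS : T ≤ S) {P : Subgroup Ω} (hP : P ≤ CSE E F) :
    T ≤ centralizerIn S P := by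
  intro t ht
  refine (mem_centralizerIn_iff _ _ _).2 ⟨hTS ht, fun v hv => ?_⟩
  exact (((mem_centralizerIn_iff _ _ _).1 (CSE_le E F (hP hv))).2 t ht).symm

theorem frat_step1 [Finite S] {p : ℕ} [Fact p.Prime] (hS : IsPGroup p S) (hE : E.IsNormalIn F p)
    {𝒞 : FusionSystem (centralizerIn S T)} (h𝒞 : F.IsCentralizerSystem T 𝒞)
    {D : FusionSystem (CSE E F)} (hfr : FratF D 𝒞) {P : Subgroup Ω} (hP : P ≤ CSE E F)
    {f : Ω → Ω} (hf : Mor F (P ⊔ T) f) :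
    ∃ a f₀, Iso F (CSE E F) (CSE E F) a ∧ Mor D P f₀ ∧ ∀ x ∈ P, f x = a (f₀ x) := by
  obtain ⟨-, hFs, -, hT, -, -, -⟩ := (isNormalIn_iff E F p).1 hE
  have hYC := CSE_le E F
  have : Finite T := finite_of_le hT.1
  have hPD : P ≤ P ⊔ T := le_sup_left
  have hTD : T ≤ P ⊔ T := le_sup_right
  have ha₀ : Iso F T T f :=
    (hf.mono hTD).iso_self (fun x hx => StronglyClosed.map_mem hT hf (hTD hx) hx)
  have hrecT := receptive_of_stronglyClosed hFs hT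
  obtain ⟨b, hb, hbT, hbC⟩ := receptive_extend_centralizer hrecT ha₀
  have hT' : T ≤ T ⊔ centralizerIn S T := le_sup_left
  have hC' : centralizerIn S T ≤ T ⊔ centralizerIn S T := le_sup_right
  have : Finite ↥(T ⊔ centralizerIn S T) := finite_of_le hb.le
  have hbiso : Iso F (T ⊔ centralizerIn S T) (T ⊔ centralizerIn S T) b :=
    hb.iso_self (hb.map_sup_mem (fun x hx => by rw [hbT x hx]; exact hT' (ha₀.map_mem hx))
      (fun c hc => hC' (hbC c hc)))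
  obtain ⟨bi, hbi, hbib, hbbi⟩ := hbiso.symm
  have hYD : CSE E F ≤ T ⊔ centralizerIn S T := hYC.trans hC'
  have : Finite ↥(CSE E F) := finite_of_le (hYD.trans hb.le)
  have hbY : Iso F (CSE E F) (CSE E F) b :=
    (hb.mono hYD).iso_self (fun y hy => (CSE_iff hS hE _ b hb y (hYD hy)).1 hy)
  have hbiY : ∀ y ∈ CSE E F, bi y ∈ CSE E F :=
    fun y hy => (CSE_iff hS hE _ bi hbi.mor y (hYD hy)).1 hy
  have hfY : ∀ x ∈ P, f x ∈ CSE E F := fun x hx => (CSE_iff hS hE _ f hf x (hPD hx)).1 (hP hx)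
  have hfD : ∀ x ∈ P ⊔ T, f x ∈ T ⊔ centralizerIn S T :=
    hf.map_sup_mem (fun x hx => hYD (hfY x hx)) (fun t ht => hT' (ha₀.map_mem ht))
  have hg : Mor F (P ⊔ T) (bi ∘ f) := hf.comp hbi.mor hfD
  have hgT : ∀ t ∈ T, (bi ∘ f) t = t := fun t ht => by
    show bi (f t) = t
    rw [← hbT t ht, hbib t (hT' ht)]
  have hg𝒞 : Mor 𝒞 P (bi ∘ f) := (mor_centralizerSystem_iff h𝒞 P _).2
    ⟨hP.trans hYC, fun x hx => hYC (hbiY _ (hfY x hx)), ⟨bi ∘ f, hg, fun _ _ => rfl, hgT⟩⟩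
  obtain ⟨c, f₀, hc, hf₀, e⟩ := hfr P _ hP hg𝒞
  have hcF : Iso F (CSE E F) (CSE E F) c :=
    ⟨((mor_centralizerSystem_iff h𝒞 _ c).1 hc.mor).2.2.mor, hc.2⟩
  refine ⟨b ∘ c, f₀, hcF.trans hbY, hf₀, fun x hx => ?_⟩
  show f x = b (c (f₀ x))
  rw [← e x hx]
  show f x = b (bi (f x))
  rw [hbbi _ (hfD x (hPD hx))]

theorem fratF_CSE [Finite S] {p : ℕ} [Fact p.Prime] (hS : IsPGroup p S) (hE : E.IsNormalIn F p)
    {𝒞 : FusionSystem (centralizerIn S T)} (h𝒞 : F.IsCentralizerSystem T 𝒞)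
    {D : FusionSystem (CSE E F)} (hfr : FratF D 𝒞) (hinv : InvF D F) : FratF D F := by
  obtain ⟨-, hFs, -, hT, -, -, -⟩ := (isNormalIn_iff E F p).1 hE
  intro P f hP hf
  have hisoQ := hf.iso_img
  have hQY : img P f ≤ CSE E F := by
    intro y hy
    obtain ⟨x, hx, rfl⟩ := hisoQ.surj hy
    exact (CSE_iff hS hE _ f hf x hx).1 (hP hx)
  have hYS : CSE E F ≤ S := (CSE_le E F).trans (centralizerIn_le S T)
  have hQS : img P f ≤ S := hQY.trans hYS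
  obtain ⟨Q', hQQ', hQ'n⟩ := exists_fullyNormalized_conj F hQS
  obtain ⟨ρ, hρ, hρQ, -⟩ := exists_mor_normalizer_of_fullyNormalized hS hFs hQ'n hQQ'
  have hQ'rec := fullyNormalized_receptive hS hFs hQ'n
  have hTQ : img P f ⊔ T ≤ normalizerIn S (img P f) :=
    sup_le (le_normalizerIn hQS)
      ((le_centralizerIn_of_le_CSE hT.1 hQY).trans (centralizerIn_le_normalizerIn S _))
  obtain ⟨a₁, φ₁, ha₁, hφ₁, e₁⟩ := frat_step1 hS hE h𝒞 hfr hQY (hρ.mono hTQ)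
  have hiso2 : Iso F P Q' (ρ ∘ f) := hisoQ.trans ⟨hρ.mono (le_normalizerIn hQS), hρQ⟩
  obtain ⟨k, hk, hkP, -⟩ := receptive_extend_centralizer hQ'rec hiso2
  obtain ⟨a₂, φ₂, ha₂, hφ₂, e₂⟩ := frat_step1 hS hE h𝒞 hfr hP
    (hk.mono (sup_le_sup_left (le_centralizerIn_of_le_CSE hT.1 hP) P))
  obtain ⟨a₁i, ha₁i, h11, -⟩ := ha₁.symm
  have hc : Iso F (CSE E F) (CSE E F) (a₁i ∘ a₂) := ha₂.trans ha₁i
  have hkey : ∀ x ∈ P, φ₁ (f x) = (a₁i ∘ a₂) (φ₂ x) := by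
    intro x hx
    show _ = a₁i (a₂ (φ₂ x))
    rw [← e₂ x hx, hkP x hx]
    show _ = a₁i (ρ (f x))
    rw [e₁ _ (hisoQ.map_mem hx), h11 _ (hφ₁.mem (hisoQ.map_mem hx))]
  have hφ₁iso := hφ₁.iso_img
  obtain ⟨ψ, hψ, hψφ, -⟩ := hφ₁iso.symm
  obtain ⟨ci, hci, hcic, hcci⟩ := hc.symm
  have hle : img (img P f) φ₁ ≤ CSE E F := hψ.mor.le
  obtain ⟨χ, hχ, hχc⟩ := hinv _ ψ hψ.mor ci hci (img (img (img P f) φ₁) ci)
    ((hci.mor.mono hle).mem_img)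
  have hφ₂ci : ∀ x ∈ P, φ₂ x = ci (φ₁ (f x)) := fun x hx => by
    rw [hkey x hx, hcic _ (hφ₂.mem hx)]
  refine ⟨a₁i ∘ a₂, χ ∘ φ₂, hc, hφ₂.comp hχ (fun x hx => ?_), fun x hx => ?_⟩
  · rw [hφ₂ci x hx]
    exact ((hci.mor.mono hle).mem_img _).2 ⟨_, hφ₁iso.map_mem (hisoQ.map_mem hx), rfl⟩
  · show f x = (a₁i ∘ a₂) (χ (φ₂ x))
    rw [hφ₂ci x hx, hχc _ (hφ₁iso.map_mem (hisoQ.map_mem hx)), hψφ _ (hisoQ.map_mem hx),
      hcci _ (hQY (hisoQ.map_mem hx))]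

theorem fullyCentralized_of_stronglyClosed [Finite S] (hT : F.StronglyClosed T) :
    F.IsFullyCentralized T := by
  refine ⟨hT.1, fun Q hQ => ?_⟩
  obtain ⟨f, hf⟩ := (isConj_iff F T Q).1 hQ
  have hQT : Q ≤ T := by
    intro y hy
    obtain ⟨x, hx, rfl⟩ := hf.surj hy
    exact StronglyClosed.map_mem hT hf.mor hx hx
  have : Finite T := finite_of_le hT.1
  have : Q = T := Subgroup.eq_of_le_of_card_ge hQT hf.card_eq.le
  rw [this]

/-- **The centralizer of a normal subsystem**: a normal subsystem of `F` over `C_S(E)` inside `C_F(T)`. -/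
theorem exists_centralizer_normal [Finite S] {p : ℕ} [Fact p.Prime] (hS : IsPGroup p S)
    (hE : E.IsNormalIn F p) :
    ∃ D : FusionSystem (CSE E F), D.IsNormalIn F p ∧
      ∀ P : Subgroup Ω, D.Hom P ⊆ F.centralizerHom T P := by
  obtain ⟨-, hFs, -, hT, -, -, -⟩ := (isNormalIn_iff E F p).1 hE
  obtain ⟨𝒞, h𝒞⟩ := Cfsg.Agent.S5097.result F T hT.1
  have h𝒞s := centralizerSystem_saturated hS hFs (fullyCentralized_of_stronglyClosed hT) h𝒞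
  have hCS : centralizerIn S T ≤ S := centralizerIn_le S T
  have hCfin : Finite (centralizerIn S T) := finite_of_le hCS
  have hCp : IsPGroup p (centralizerIn S T) := hS.to_le hCS
  have hYsc := CSE_stronglyClosed hS hE
  obtain ⟨D₀, hD₀s, hD₀i⟩ := exists_pPowerIndex (p := p) _ (centralizerIn S T) hCfin rfl hCp 𝒞 h𝒞s
    (CSE E F) (CSE_le E F) (hyperfocal_centralizer_le_CSE hS hE h𝒞)
  have hYfin : Finite (CSE E F) := finite_of_le hYsc.1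
  have hYp : IsPGroup p (CSE E F) := hS.to_le hYsc.1
  have h𝒞F : 𝒞.IsSubsystemOf F := by
    intro P φ hφ
    rw [h𝒞 P] at hφ
    exact hφ.1
  have hsub : D₀.IsSubsystemOf F := fun P φ hφ => h𝒞F P (hD₀i.1 P hφ)
  have hinv : InvF D₀ F := invF_of_pPowerIndex' hYp hD₀s hD₀i
    (fun a ha U X hiso hU w hw => congr_mem_centralizer hFs hT hYsc (CSE_le E F) h𝒞 ha hiso hU hw)
  have hYsc𝒞 : 𝒞.StronglyClosed (CSE E F) := by
    rw [stronglyClosed_iff]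
    exact ⟨CSE_le E F, fun R f hf x hx hxY =>
      StronglyClosed.map_mem hYsc (hf.of_subsystem h𝒞F) hx hxY⟩
  have hfr𝒞 : FratF D₀ 𝒞 :=
    fratF_of_pPowerIndex hCp h𝒞s hD₀i hYsc𝒞 (invF_of_pPowerIndex hYp hD₀s hD₀i)
  have hfrat : FratF D₀ F := fratF_CSE hS hE h𝒞 hfr𝒞 hinv
  have hres := isPPrimeResidual_residualSystem hYp hD₀s
  refine ⟨residualSystem D₀ p,
    residual_normal_of_weaklyNormal hS hD₀s hsub hYsc hinv hfrat hFs hres, fun P φ hφ => ?_⟩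
  have h1 : φ ∈ 𝒞.Hom P := hD₀i.1 P (hres.2.1.1 P hφ)
  rwa [h𝒞 P] at h1

end Cfsg.Agent.Lib.Helper87
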