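import Cfsg.Agent.Lib.Helper87.CE8
import Cfsg.Agent.Lib.Helper87.LeastNormal
import Cfsg.Agent.Lib.Helper87.Craven4
import Cfsg.Agent.Lib.Helper87.HypAct

set_option autoImplicit false

/-! Extension of the maps of a normal subsystem `D` (over `T`) of `F` to `P Q`, `Q` normal in `F`, acting
trivially on `Q` modulo `T`. -/

namespace Cfsg.Agent.Lib.Helper87

open Cfsg Cfsg.FusionSystem Cfsg.Agent.Lib.Helper15.FusCE

/-- Coprime action modulo a normal subgroup. -/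
theorem mod_of_coprime {G : Type*} [Group G] {p : ℕ} [Fact p.Prime] (hG : IsPGroup p G)
    (γ : MulAut G) (hγ : (orderOf γ).Coprime p) (N : Subgroup G)
    (hN : ∀ g : G, ∀ n ∈ N, g⁻¹ * n * g ∈ N) (c : G)
    (h : ∀ k : ℕ, (c⁻¹ * γ c)⁻¹ * (γ ^ k) (c⁻¹ * γ c) ∈ N) : c⁻¹ * γ c ∈ N := by
  set z := c⁻¹ * γ c with hz
  have hc : γ c = c * z := by rw [hz]; group
  have h1 : ∀ k : ℕ, (c * z ^ k)⁻¹ * (γ ^ k) c ∈ N := by
    intro k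
    induction k with
    | zero => simp
    | succ k ih =>
      have h2 : (γ ^ (k + 1)) c = (γ ^ k) c * (γ ^ k) z := by
        rw [pow_succ, MulAut.mul_apply, hc, map_mul]
      have h3 : (c * z ^ (k + 1))⁻¹ * ((γ ^ k) c * (γ ^ k) z) =
          (z⁻¹ * ((c * z ^ k)⁻¹ * (γ ^ k) c) * z) * (z⁻¹ * (γ ^ k) z) := by
        rw [pow_succ]
        group
      rw [h2, h3]
      exact N.mul_mem (hN z _ ih) (h k)
  have h4 := h1 (orderOf γ)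
  rw [pow_orderOf_eq_one, MulAut.one_apply] at h4
  have h5 : z ^ orderOf γ ∈ N := by
    have h6 : z ^ orderOf γ = ((c * z ^ orderOf γ)⁻¹ * c)⁻¹ := by group
    rw [h6]
    exact N.inv_mem h4
  obtain ⟨a, ha⟩ := hG z
  have hcop : Nat.Coprime (orderOf γ) (orderOf z) :=
    Nat.Coprime.coprime_dvd_right (orderOf_dvd_of_pow_eq_one ha) (Nat.Coprime.pow_right a hγ)
  obtain ⟨m, hm⟩ := exists_pow_eq_self_of_coprime hcop
  rw [← hm]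
  exact N.pow_mem h5 m

variable {Ω : Type*} [Group Ω] {S T : Subgroup Ω} {F : FusionSystem S} {D : FusionSystem T}

/-- `f` on `P` extends to `P ⊔ Q` carrying `Q` onto `Q` and acting trivially on `Q` modulo `T`. -/
def ExtT (F : FusionSystem S) (T Q P : Subgroup Ω) (f : Ω → Ω) : Prop :=
  ∃ f', Mor F (P ⊔ Q) f' ∧ (∀ x ∈ P, f' x = f x) ∧ (∀ y, y ∈ Q ↔ ∃ x ∈ Q, f' x = y) ∧
    ∀ q ∈ Q, q⁻¹ * f' q ∈ T

theorem ExtT.congr {Q P : Subgroup Ω} {f g : Ω → Ω} (h : ExtT F T Q P f)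
    (e : ∀ x ∈ P, f x = g x) : ExtT F T Q P g := by
  obtain ⟨f', h1, h2, h3⟩ := h
  exact ⟨f', h1, fun x hx => (h2 x hx).trans (e x hx), h3⟩

theorem ExtT.mono {Q P R : Subgroup Ω} {f : Ω → Ω} (h : ExtT F T Q P f)
    (hR : R ≤ P) : ExtT F T Q R f := by
  obtain ⟨f', h1, h2, h3⟩ := h
  exact ⟨f', h1.mono (sup_le_sup_right hR Q), fun x hx => h2 x (hR hx), h3⟩

theorem ExtT.comp {Q P R : Subgroup Ω} {f g : Ω → Ω} (h : ExtT F T Q P f)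
    (h' : ExtT F T Q R g) (hPR : ∀ x ∈ P, f x ∈ R) : ExtT F T Q P (g ∘ f) := by
  obtain ⟨f', h1, h2, h3, h4⟩ := h
  obtain ⟨g', k1, k2, k3, k4⟩ := h'
  refine ⟨g' ∘ f', h1.comp k1 (h1.map_sup_mem (fun x hx => ?_) (fun x hx => ?_)), fun x hx => ?_,
    fun y => ?_, fun q hq => ?_⟩
  · rw [h2 x hx]
    exact (le_sup_left : R ≤ R ⊔ Q) (hPR x hx)
  · exact (le_sup_right : Q ≤ R ⊔ Q) ((h3 _).2 ⟨x, hx, rfl⟩)
  · show g' (f' x) = g (f x)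
    rw [h2 x hx, k2 _ (hPR x hx)]
  · rw [k3]
    constructor
    · rintro ⟨x, hx, rfl⟩
      obtain ⟨z, hz, rfl⟩ := (h3 x).1 hx
      exact ⟨z, hz, rfl⟩
    · rintro ⟨x, hx, rfl⟩
      exact ⟨f' x, (h3 _).2 ⟨x, hx, rfl⟩, rfl⟩
  · have h5 : q⁻¹ * (g' ∘ f') q = (q⁻¹ * f' q) * ((f' q)⁻¹ * g' (f' q)) := by
      show q⁻¹ * g' (f' q) = _
      group
    rw [h5]
    exact T.mul_mem (h4 q hq) (k4 _ ((h3 _).2 ⟨q, hq, rfl⟩))

theorem ExtT.inv {Q P P' : Subgroup Ω} {f : Ω → Ω} (h : ExtT F T Q P f)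
    (hP' : ∀ y, y ∈ P' ↔ ∃ x ∈ P, f x = y) : ∃ g, ExtT F T Q P' g ∧ ∀ x ∈ P, g (f x) = x := by
  obtain ⟨f', h1, h2, h3, h4⟩ := h
  have hP'' : ∀ y, y ∈ P' ↔ ∃ x ∈ P, f' x = y := by
    intro y
    rw [hP']
    constructor
    · rintro ⟨x, hx, rfl⟩
      exact ⟨x, hx, h2 x hx⟩
    · rintro ⟨x, hx, rfl⟩
      exact ⟨x, hx, (h2 x hx).symm⟩
  obtain ⟨g, hg, hgf, hfg⟩ := (h1.iso_sup hP'' h3).symm
  refine ⟨g, ⟨g, hg.1, fun _ _ => rfl, fun y => ?_, fun q hq => ?_⟩, fun x hx => ?_⟩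
  · constructor
    · intro hy
      exact ⟨f' y, (h3 _).2 ⟨y, hy, rfl⟩, hgf y ((le_sup_right : Q ≤ P ⊔ Q) hy)⟩
    · rintro ⟨x, hx, rfl⟩
      obtain ⟨z, hz, rfl⟩ := (h3 x).1 hx
      rw [hgf z ((le_sup_right : Q ≤ P ⊔ Q) hz)]
      exact hz
  · obtain ⟨z, hz, rfl⟩ := (h3 q).1 hq
    rw [hgf z ((le_sup_right : Q ≤ P ⊔ Q) hz)]
    have h5 : (f' z)⁻¹ * z = (z⁻¹ * f' z)⁻¹ := by group
    rw [h5]
    exact T.inv_mem (h4 z hz)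
  · rw [← h2 x hx]
    exact hgf x ((le_sup_left : P ≤ P ⊔ Q) hx)

theorem ExtT.conjBy (hT : F.StronglyClosed T) {Q P : Subgroup Ω} {f d di : Ω → Ω}
    (h : ExtT F T Q P f) (hd : ExtN F Q P d) (hdP : ∀ y, y ∈ P ↔ ∃ x ∈ P, d x = y)
    (hfP : ∀ x ∈ P, f x ∈ P) (hdi : ∀ x ∈ P, d (di x) = x) (hdiP : ∀ x ∈ P, di x ∈ P) :
    ExtT F T Q P (d ∘ f ∘ di) := by
  obtain ⟨f', h1, h2, h3, h4⟩ := h
  obtain ⟨d', k1, k2, k3⟩ := hd
  have hPX : P ≤ P ⊔ Q := le_sup_left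
  have hQX : Q ≤ P ⊔ Q := le_sup_right
  have hdP' : ∀ y, y ∈ P ↔ ∃ x ∈ P, d' x = y := by
    intro y
    rw [hdP]
    constructor
    · rintro ⟨x, hx, rfl⟩
      exact ⟨x, hx, k2 x hx⟩
    · rintro ⟨x, hx, rfl⟩
      exact ⟨x, hx, (k2 x hx).symm⟩
  have hiso := k1.iso_sup hdP' k3
  obtain ⟨g, hg, hgd, hdg⟩ := hiso.symm
  have hf'X : ∀ x ∈ P ⊔ Q, f' x ∈ P ⊔ Q := h1.map_sup_mem
    (fun x hx => by rw [h2 x hx]; exact hPX (hfP x hx))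
    (fun x hx => hQX ((h3 _).2 ⟨x, hx, rfl⟩))
  have hgQ : ∀ q ∈ Q, g q ∈ Q := by
    intro q hq
    obtain ⟨z, hz, rfl⟩ := (k3 q).1 hq
    rw [hgd z (hQX hz)]
    exact hz
  have hgP : ∀ x ∈ P, g x = di x := by
    intro x hx
    have h5 : d' (di x) = x := by rw [k2 _ (hdiP x hx), hdi x hx]
    rw [← h5, hgd _ (hPX (hdiP x hx)), h5]
  refine ⟨d' ∘ f' ∘ g, (hg.mor.comp h1 (fun x hx => hg.map_mem hx)).comp k1
    (fun x hx => hf'X _ (hg.map_mem hx)), fun x hx => ?_, fun y => ?_, fun q hq => ?_⟩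
  · show d' (f' (g x)) = d (f (di x))
    rw [hgP x hx, h2 _ (hdiP x hx), k2 _ (hfP _ (hdiP x hx))]
  · constructor
    · intro hy
      obtain ⟨z, hz, rfl⟩ := (k3 y).1 hy
      obtain ⟨u, hu, rfl⟩ := (h3 z).1 hz
      refine ⟨d' u, (k3 _).2 ⟨u, hu, rfl⟩, ?_⟩
      show d' (f' (g (d' u))) = _
      rw [hgd u (hQX hu)]
    · rintro ⟨x, hx, rfl⟩
      exact (k3 _).2 ⟨_, (h3 _).2 ⟨_, hgQ x hx, rfl⟩, rfl⟩
  · show q⁻¹ * d' (f' (g q)) ∈ T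
    have hz := hgQ q hq
    have h5 : q = d' (g q) := (hdg q (hQX hq)).symm
    have h6 : q⁻¹ * d' (f' (g q)) = d' ((g q)⁻¹ * f' (g q)) := by
      rw [k1.map_mul ((P ⊔ Q).inv_mem (hQX hz)) (hf'X _ (hQX hz)), k1.map_inv (hQX hz), ← h5]
    rw [h6]
    exact StronglyClosed.map_mem hT k1
      ((P ⊔ Q).mul_mem ((P ⊔ Q).inv_mem (hQX hz)) (hf'X _ (hQX hz))) (h4 _ hz)

/-- The automorphisms of `U` with such an extension. -/
def extTGrp (F : FusionSystem S) (T Q U : Subgroup Ω) (hUQ : U ⊔ Q ≤ S) : Subgroup (MulAut U) where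
  carrier := {β | ExtT F T Q U (autFun β)}
  mul_mem' := fun {a b} ha hb =>
    (ExtT.comp hb ha (fun x hx => autFun_mem b hx)).congr (fun x hx => (autFun_mul a b hx).symm)
  one_mem' := ⟨id, mor_id F hUQ, fun x hx => (autFun_one hx).symm,
    fun y => ⟨fun hy => ⟨y, hy, rfl⟩, by rintro ⟨x, hx, rfl⟩; exact hx⟩,
    fun q _ => by simp [T.one_mem]⟩
  inv_mem' := by
    intro a ha
    obtain ⟨g, hg, hga⟩ := ExtT.inv (P' := U) ha (fun y =>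
      ⟨fun hy => ⟨autFun a⁻¹ y, autFun_mem _ hy, autFun_autFun_inv a hy⟩, by
        rintro ⟨x, hx, rfl⟩
        exact autFun_mem a hx⟩)
    refine hg.congr (fun y hy => ?_)
    have := hga _ (autFun_mem a⁻¹ hy)
    rwa [autFun_autFun_inv a hy] at this

theorem extT_conj (hT : F.StronglyClosed T) {Q : Subgroup Ω} (hQ : F.StronglyClosed Q)
    {P : Subgroup Ω} (hP : P ≤ S) {t : Ω} (ht : t ∈ T) :
    ExtT F T Q P (fun x => t * x * t⁻¹) := by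
  refine ⟨fun x => t * x * t⁻¹, mor_conj F (sup_le hP hQ.1) (hT.1 ht), fun _ _ => rfl,
    fun y => ⟨fun hy => ⟨t⁻¹ * y * t, ?_, by group⟩, ?_⟩, fun q hq => ?_⟩
  · have := StronglyClosed.conj_mem hQ (S.inv_mem (hT.1 ht)) hy
    rwa [inv_inv] at this
  · rintro ⟨x, hx, rfl⟩
    exact StronglyClosed.conj_mem hQ (hT.1 ht) hx
  · have h3 : q⁻¹ * (t * q * t⁻¹) = (q⁻¹ * t * q⁻¹⁻¹) * t⁻¹ := by group
    rw [h3]
    exact T.mul_mem (StronglyClosed.conj_mem hT (S.inv_mem (hQ.1 hq)) ht) (T.inv_mem ht)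

end Cfsg.Agent.Lib.Helper87
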