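import Cfsg.Agent.Lib.Helper87.G1

set_option autoImplicit false

/-! The maps of a normal subsystem `D` (over `T`) of `F` extend to `P Q`, `Q` normal in `F`, acting
trivially on `Q` modulo `T`. -/

namespace Cfsg.Agent.Lib.Helper87

open Cfsg Cfsg.FusionSystem Cfsg.Agent.Lib.Helper15.FusCE

variable {Ω : Type*} [Group Ω] {S T : Subgroup Ω} {F : FusionSystem S} {D : FusionSystem T}

theorem extT_top [Finite S] {p : ℕ} [Fact p.Prime] (hS : IsPGroup p S)
    (hD : D.IsNormalIn F p) {Q : Subgroup Ω} (hQ : F.IsNormal Q)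
    (hfa : D.IsFullyAutomized p T) {α : MulAut T} (hα : α ∈ D.autGroup T)
    (hcop : (orderOf α).Coprime p) : ExtT F T Q T (autFun α) := by
  obtain ⟨hDs, hFs, hsub, hT, hinv, hfrat, hextF⟩ := (isNormalIn_iff D F p).1 hD
  have hQs := IsNormal.stronglyClosed hQ
  have hQN := ((isNormal_iff F Q).1 hQ).2
  have : Finite T := finite_of_le hT.1
  have : Finite Q := finite_of_le hQs.1
  have hTp : IsPGroup p T := hS.to_le hT.1
  have hsyl : IsSylIn p (autInducedBy T T) (D.autGroup T) := (fullyAutomized_iff D p le_rfl).1 hfa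
  have hαD : Iso D T T (autFun α) := iso_autFun ((mem_autGroup_iff D le_rfl α).1 hα)
  obtain ⟨b, hb, hbT, hbC⟩ := hextF _ hαD
  obtain ⟨X, hX⟩ : ∃ X, X = T ⊔ centralizerIn S T := ⟨_, rfl⟩
  rw [← hX] at hb
  have hTX : T ≤ X := hX ▸ le_sup_left
  have hCX : centralizerIn S T ≤ X := hX ▸ le_sup_right
  obtain ⟨ε₀, hε₀, hε₀X, hε₀Q⟩ := hQN X b hb.mor
  have hXY : X ≤ X ⊔ Q := le_sup_left
  have hQY : Q ≤ X ⊔ Q := le_sup_right
  have hTY : T ≤ X ⊔ Q := hTX.trans hXY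
  have hiso₀ : Iso F (X ⊔ Q) (X ⊔ Q) ε₀ := hε₀.iso_sup (fun y => by
    rw [hb.2 y]
    constructor
    · rintro ⟨x, hx, rfl⟩
      exact ⟨x, hx, hε₀X x hx⟩
    · rintro ⟨x, hx, rfl⟩
      exact ⟨x, hx, (hε₀X x hx).symm⟩) hε₀Q
  have hYS : X ⊔ Q ≤ S := hε₀.le
  have hYfin : Finite ↥(X ⊔ Q) := finite_of_le hYS
  obtain ⟨e₀, he₀, ee₀⟩ := hiso₀.exists_aut
  have ee₀' : ∀ x ∈ X ⊔ Q, autFun e₀ x = ε₀ x := fun x hx => by rw [autFun_apply e₀ hx, ee₀]
  obtain ⟨j, hj, hαj⟩ := Cfsg.Agent.Lib.Helper87.exists_pow_coprime (p := p) hcop (orderOf_pos e₀)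
  have hmor : ∀ k : ℕ, Mor F (X ⊔ Q) (autFun (e₀ ^ k)) := fun k =>
    (mem_autGroup_iff F hYS _).1 (Subgroup.pow_mem _ he₀ k)
  have heT : ∀ x ∈ T, autFun (e₀ ^ j) x = autFun α x := by
    have h := autFun_pow_agree hTY (α := α) (β := e₀)
      (fun x hx => by rw [ee₀' x (hTY hx), hε₀X x (hTX hx), hbT x hx]) j
    rwa [hαj] at h
  -- action on `X` modulo `T`
  have h0X : ∀ x ∈ X, x⁻¹ * autFun e₀ x ∈ T := by
    intro x hx
    rw [ee₀' x (hXY hx), hε₀X x hx]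
    obtain ⟨t, ht, c, hcC, e⟩ := mem_sup_of_normalizes (A := T) (B := centralizerIn S T)
      (fun a ha b hb => by
        have := ((mem_centralizerIn_iff _ _ _).1 hb).2 a ha
        rw [this, mul_inv_cancel_right]
        exact hb) (hX ▸ hx)
    rw [e, hb.mor.map_mul (hTX ht) (hCX hcC), hbT t ht]
    have h6 : (t * c)⁻¹ * (autFun α t * b c) =
        (c⁻¹ * (t⁻¹ * autFun α t) * c⁻¹⁻¹) * (c⁻¹ * b c) := by group
    rw [h6]
    exact T.mul_mem (StronglyClosed.conj_mem hT (S.inv_mem (centralizerIn_le S T hcC))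
      (T.mul_mem (T.inv_mem ht) (autFun_mem α ht))) (hbC c hcC).1
  have hXmem : ∀ x ∈ X, autFun e₀ x ∈ X := by
    intro x hx
    have h1 : autFun e₀ x = x * (x⁻¹ * autFun e₀ x) := by group
    rw [h1]
    exact X.mul_mem hx (hTX (h0X x hx))
  have hkX : ∀ k : ℕ, ∀ x ∈ X, x⁻¹ * autFun (e₀ ^ k) x ∈ T := by
    intro k
    induction k with
    | zero =>
      intro x hx
      rw [pow_zero, autFun_one (hXY hx), inv_mul_cancel]
      exact T.one_mem
    | succ k ih =>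
      intro x hx
      rw [pow_succ, autFun_mul _ _ (hXY hx)]
      have h1 : x⁻¹ * autFun (e₀ ^ k) (autFun e₀ x) =
          (x⁻¹ * autFun e₀ x) * ((autFun e₀ x)⁻¹ * autFun (e₀ ^ k) (autFun e₀ x)) := by group
      rw [h1]
      exact T.mul_mem (h0X x hx) (ih _ (hXmem x hx))
  have hQmem : ∀ w ∈ Q, autFun (e₀ ^ j) w ∈ Q := fun w hw =>
    StronglyClosed.map_mem hQs (hmor j) (hQY hw) hw
  -- claim 1
  have hc1 : ∀ w ∈ Q, w⁻¹ * autFun (e₀ ^ j) w ∈ X := by
    intro w hw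
    have hwS : w ∈ S := hQs.1 hw
    have hw' := hQmem w hw
    have hw'S : autFun (e₀ ^ j) w ∈ S := hQs.1 hw'
    have hwN : w⁻¹ ∈ Subgroup.normalizer (T : Set Ω) :=
      StronglyClosed.le_normalizer hT (S.inv_mem hwS)
    obtain ⟨γ, hγ⟩ : ∃ γ : MulAut T, γ = (conjToAut S T ⟨w⁻¹, S.inv_mem hwS, hwN⟩ :
      autInducedBy S T) := ⟨_, rfl⟩
    have hγa : ∀ y : T, ((γ y : T) : Ω) = w⁻¹ * y * w⁻¹⁻¹ := fun y => by rw [hγ]; rfl
    have hγF : γ ∈ F.autGroup T := by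
      rw [hγ]
      exact autInducedBy_le_autGroup F hT.1 (Subtype.prop _)
    have hγi : ∀ y : T, ((γ⁻¹ y : T) : Ω) = w * y * w⁻¹ := by
      intro y
      have h1 := hγa (γ⁻¹ y)
      rw [MulAut.apply_inv_self] at h1
      rw [h1]
      group
    have hκD : γ * α * γ⁻¹ * α⁻¹ ∈ D.autGroup T :=
      Subgroup.mul_mem _ (autGroup_normal_of_invF hT.1 hinv hγF hα) (Subgroup.inv_mem _ hα)
    have hκa : ∀ x : T, (((γ * α * γ⁻¹ * α⁻¹) x : T) : Ω) =
        (w⁻¹ * autFun (e₀ ^ j) w) * x * (w⁻¹ * autFun (e₀ ^ j) w)⁻¹ := by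
      intro x
      show ((γ (α (γ⁻¹ (α⁻¹ x))) : T) : Ω) = _
      rw [hγa, ← autFun_coe α, hγi, ← heT _ (by rw [← hγi]; exact Subtype.prop _),
        (hmor j).map_conj (hQY hw) (hTY (Subtype.prop _)), heT _ (Subtype.prop _), autFun_coe,
        MulAut.apply_inv_self]
      group
    have hκS : γ * α * γ⁻¹ * α⁻¹ ∈ autInducedBy S T :=
      (mem_autInducedBy_iff S T _).2 ⟨_, S.mul_mem (S.inv_mem hwS) hw'S, hκa⟩
    have hκT : γ * α * γ⁻¹ * α⁻¹ ∈ autInducedBy T T := by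
      have h1 : autInducedBy S T ⊓ D.autGroup T = autInducedBy T T := by
        refine hsyl.2.2 _ inf_le_right ((isPGroup_autInducedBy hS T).to_le inf_le_left)
          (le_inf ?_ hsyl.1)
        intro a ha
        obtain ⟨t, ht, e⟩ := (mem_autInducedBy_iff T T a).1 ha
        exact (mem_autInducedBy_iff S T a).2 ⟨t, hT.1 ht, e⟩
      rw [← h1]
      exact ⟨hκS, hκD⟩
    obtain ⟨t, ht, e⟩ := (mem_autInducedBy_iff T T _).1 hκT
    have h2 : t⁻¹ * (w⁻¹ * autFun (e₀ ^ j) w) ∈ centralizerIn S T := by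
      refine (mem_centralizerIn_iff S T _).2 ⟨S.mul_mem (S.inv_mem (hT.1 ht))
        (S.mul_mem (S.inv_mem hwS) hw'S), fun x hx => ?_⟩
      have h3 := (hκa ⟨x, hx⟩).symm.trans (e ⟨x, hx⟩)
      have h4 : (w⁻¹ * autFun (e₀ ^ j) w) * x = t * x * t⁻¹ * (w⁻¹ * autFun (e₀ ^ j) w) := by
        rw [← h3]
        group
      calc x * (t⁻¹ * (w⁻¹ * autFun (e₀ ^ j) w))
          = t⁻¹ * (t * x * t⁻¹ * (w⁻¹ * autFun (e₀ ^ j) w)) := by group
        _ = t⁻¹ * (w⁻¹ * autFun (e₀ ^ j) w) * x := by rw [← h4]; group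
    have h5 : w⁻¹ * autFun (e₀ ^ j) w = t * (t⁻¹ * (w⁻¹ * autFun (e₀ ^ j) w)) := by group
    rw [h5]
    exact X.mul_mem (hTX ht) (hCX h2)
  -- claim 3
  have hc3 : ∀ w ∈ Q, w⁻¹ * autFun (e₀ ^ j) w ∈ T := by
    intro w hw
    have h1 := mod_of_coprime (hS.to_le hYS) (e₀ ^ j) hj (T.subgroupOf (X ⊔ Q))
      (fun g n hn => by
        rw [Subgroup.mem_subgroupOf] at hn ⊢
        have := StronglyClosed.conj_mem hT (S.inv_mem (hYS g.2)) hn
        rwa [inv_inv] at this) ⟨w, hQY hw⟩ (fun k => by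
        rw [Subgroup.mem_subgroupOf, ← pow_mul]
        have h3 : (((⟨w, hQY hw⟩ : ↥(X ⊔ Q))⁻¹ * (e₀ ^ j) ⟨w, hQY hw⟩ : ↥(X ⊔ Q)) : Ω) ∈ X := by
          have := hc1 w hw
          rw [autFun_apply _ (hQY hw)] at this
          exact this
        have h2 := hkX (j * k) _ h3
        rw [autFun_coe] at h2
        exact h2)
    rw [Subgroup.mem_subgroupOf] at h1
    rw [autFun_apply _ (hQY hw)]
    exact h1
  exact ⟨autFun (e₀ ^ j), (hmor j).mono (sup_le_sup_right hTX Q), heT,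
    (((hmor j).mono hQY).iso_self hQmem).2, hc3⟩

theorem extT_of_normal [Finite S] {p : ℕ} [Fact p.Prime] (hS : IsPGroup p S)
    (hD : D.IsNormalIn F p) {Q : Subgroup Ω} (hQ : F.IsNormal Q) :
    ∀ (P : Subgroup Ω) (f : Ω → Ω), Mor D P f → ExtT F T Q P f := by
  obtain ⟨hDs, hFs, hsub, hT, hinv, hfrat, hextF⟩ := (isNormalIn_iff D F p).1 hD
  have hQs := IsNormal.stronglyClosed hQ
  have hQN := ((isNormal_iff F Q).1 hQ).2
  have : Finite T := finite_of_le hT.1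
  have hTp : IsPGroup p T := hS.to_le hT.1
  apply Helper89.alperin_induction hTp D hDs (fun P f => ExtT F T Q P f)
  · intro P f g h e
    exact h.congr e
  · intro P R f _ h hRP
    exact h.mono hRP
  · intro P R f g _ _ hPR h1 h2
    exact h1.comp h2 hPR
  · intro P R f g hf _ hgf h1
    obtain ⟨g', hg', hg'f⟩ := h1.inv hf.2
    refine hg'.congr (fun y hy => ?_)
    obtain ⟨x, hx, rfl⟩ := hf.surj hy
    rw [hg'f x hx, hgf x hx]
  · intro U hfa hrec IH f hf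
    have hUT : U ≤ T := hfa.1
    have hUS : U ≤ S := hUT.trans hT.1
    have hUQ : U ⊔ Q ≤ S := sup_le hUS hQs.1
    have : Finite U := finite_of_le hUS
    obtain ⟨β, hβ, eβ⟩ := hf.exists_aut
    suffices H : D.autGroup U ≤ extTGrp F T Q U hUQ by
      exact ExtT.congr (H hβ) (fun x hx => by rw [autFun_apply β hx, eβ])
    have hext : ∀ (ν : MulAut U) (P' : Subgroup Ω) (f' : Ω → Ω), Nat.card U < Nat.card P' →
        U ≤ P' → Mor D P' f' → (∀ x ∈ U, f' x = autFun ν x) → ν ∈ extTGrp F T Q U hUQ := by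
      intro ν P' f' hlt hle hf' e
      exact ((IH P' f' hlt hf').mono hle).congr e
    have hinn : autInducedBy T U ≤ extTGrp F T Q U hUQ := by
      intro κ hκ
      obtain ⟨t, ht, e⟩ := (mem_autInducedBy_iff T U κ).1 hκ
      exact (extT_conj hT hQs hUS ht).congr (fun x hx => by rw [autFun_apply κ hx, e])
    by_cases hTU : T ≤ U
    · obtain rfl : U = T := le_antisymm hUT hTU
      exact le_of_sylIn_of_coprime ((fullyAutomized_iff D p le_rfl).1 hfa) hinn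
        (fun α hα hcop => extT_top hS hD hQ hfa hα hcop)
    · refine frattini_gen hfa hrec _ hext (extTGrp F T Q U hUQ ⊓ D.autGroup U) inf_le_right ?_
        inf_le_left ?_
      · intro δ hδ η hη
        refine ⟨?_, Subgroup.mul_mem _ (Subgroup.mul_mem _ hδ hη.2) (Subgroup.inv_mem _ hδ)⟩
        have hδm := ((mem_autGroup_iff D hUT δ).1 hδ).of_subsystem hsub
        have h1 := ExtT.conjBy hT hη.1 (hQN U _ hδm) (iso_autFun hδm).2
          (fun x hx => autFun_mem η hx) (fun x hx => autFun_autFun_inv δ hx)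
          (fun x hx => autFun_mem δ⁻¹ hx)
        exact h1.congr (fun x hx => by
          show autFun δ (autFun η (autFun δ⁻¹ x)) = _
          rw [autFun_mul _ _ hx, autFun_mul _ _ (autFun_mem _ hx)])
      · obtain ⟨t, ht, htN, htU⟩ := exists_mem_normalizer_of_not_le hTp hUT le_rfl
          (fun s hs t ht => T.mul_mem (T.mul_mem hs ht) (T.inv_mem hs)) hTU
        exact ⟨t, ht, htU, (conjToAut T U ⟨t, ht, htN⟩ : autInducedBy T U),
          ⟨hinn (Subtype.prop _), autInducedBy_le_autGroup D hUT (Subtype.prop _)⟩, fun x => rfl⟩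

end Cfsg.Agent.Lib.Helper87
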