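import Cfsg.Agent.Lib.Helper87.G2
import Cfsg.Agent.Lib.Helper87.RL3

set_option autoImplicit false

/-! A subnormal subsystem `K` with `hyp(K) = T_K` all of whose normal subgroups are central centralizes every
normal subgroup of `F`. -/

namespace Cfsg.Agent.Lib.Helper87

open Cfsg Cfsg.FusionSystem Cfsg.Agent.Lib.Helper15.FusCE

variable {Ω : Type*} [Group Ω] {S T : Subgroup Ω} {F : FusionSystem S} {D : FusionSystem T}

theorem hyperfocal_le_of_coprime {p : ℕ} {H : Subgroup Ω}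
    (h : ∀ P : Subgroup Ω, P ≤ S → ∀ α ∈ F.autGroup P, (orderOf α).Coprime p →
      ∀ x : P, (x : Ω)⁻¹ * ((α x : P) : Ω) ∈ H) : F.hyperfocalSubgroup p ≤ H := by
  refine (Subgroup.closure_le _).2 ?_
  rintro _ ⟨P, α, x, hP, hα, rfl⟩
  have h1 : (pResidual p (F.autGroup P)).map (F.autGroup P).subtype ≤ stabT H P := by
    rw [Cfsg.Agent.Lib.Helper2.map_pResidual_subtype]
    refine (Subgroup.closure_le _).2 ?_
    rintro a ⟨ha, hc⟩
    exact fun y => h P hP a ha hc y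
  exact h1 ⟨α, hα, rfl⟩ x

/-- If `Q` is normal in `F`, `T` strongly closed in `F` and `E` a saturated subsystem over `T`, then `Q ∩ T` is normal
in `E`. -/
theorem isNormal_inf_sub [Finite S] {p : ℕ}
    [Fact p.Prime] (hS : IsPGroup p S) {Q : Subgroup Ω} (hQ : F.IsNormal Q)
    {E : FusionSystem T} (hEs : E.IsSaturated p) (hEF : E.IsSubsystemOf F)
    (hT : F.StronglyClosed T) : E.IsNormal (Q ⊓ T) := by
  have hQs := IsNormal.stronglyClosed hQ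
  have hRF : F.StronglyClosed (Q ⊓ T) := stronglyClosed_inf hQs hT
  have : Finite T := finite_of_le hT.1
  have hTp : IsPGroup p T := hS.to_le hT.1
  have hRE : E.StronglyClosed (Q ⊓ T) := by
    rw [stronglyClosed_iff]
    exact ⟨inf_le_right, fun R f hf x hx hxR =>
      StronglyClosed.map_mem hRF (hf.of_subsystem hEF) hx hxR⟩
  refine isNormal_of_base hTp hEs hRE (fun U hU hRU => ?_)
  refine ⟨autInducedBy (Q ⊓ T) U, ?_, ?_, isPGroup_autInducedBy (hTp.to_le inf_le_right) U, ?_⟩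
  · intro κ hκ
    obtain ⟨g, hg, e⟩ := (mem_autInducedBy_iff _ U κ).1 hκ
    exact autInducedBy_le_autGroup E hU.1 ((mem_autInducedBy_iff T U κ).2 ⟨g, hg.2, e⟩)
  · intro α hα κ hκ
    obtain ⟨g, hg, e⟩ := (mem_autInducedBy_iff _ U κ).1 hκ
    have hαm := ((mem_autGroup_iff E hU.1 α).1 hα).of_subsystem hEF
    obtain ⟨f', hf', hag, hf'Q⟩ := ((isNormal_iff F _).1 hQ).2 U _ hαm
    have hgD : g ∈ U ⊔ Q := (le_sup_right : Q ≤ U ⊔ Q) hg.1
    rw [mem_autInducedBy_iff]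
    refine ⟨f' g, StronglyClosed.map_mem hRF hf' hgD hg, fun x => ?_⟩
    set y := α⁻¹ x with hy
    have hxy : x = α y := by rw [hy, MulAut.apply_inv_self]
    show ((α (κ (α⁻¹ x)) : U) : Ω) = _
    rw [← hy, ← autFun_coe, ← hag _ (Subtype.prop _), e,
      hf'.map_conj hgD ((le_sup_left : U ≤ U ⊔ Q) y.2), hag _ y.2, autFun_coe, ← hxy]
  · obtain ⟨t, ht, htN, htU⟩ := exists_mem_normalizer_of_not_le hTp hU.1 inf_le_right
      (fun s hs t ht => StronglyClosed.conj_mem hRE hs ht) hRU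
    exact ⟨t, ⟨ht.2, (conjToAut (Q ⊓ T) U ⟨t, ht, htN⟩ : autInducedBy (Q ⊓ T) U),
      Subtype.prop _, fun x => rfl⟩, htU⟩

theorem cent_aut [Finite S] {p : ℕ} [Fact p.Prime] (hS : IsPGroup p S) (hD : D.IsNormalIn F p)
    {Q : Subgroup Ω} (hQ : F.IsNormal Q) {R : Subgroup Ω} {α : MulAut R}
    (hcop : (orderOf α).Coprime p) (hα : ExtC D (Q ⊓ T) R (autFun α)) :
    ExtC F Q R (autFun α) := by
  have hQs := IsNormal.stronglyClosed hQ
  obtain ⟨a₁, ha₁, ha₁R, ha₁Q⟩ := hα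
  obtain ⟨a₂, ha₂, ha₂R, ha₂Q, ha₂T⟩ := extT_of_normal hS hD hQ _ _ ha₁
  have hle : R ⊔ Q ≤ (R ⊔ Q ⊓ T) ⊔ Q := sup_le_sup_right le_sup_left Q
  have hm : Mor F (R ⊔ Q) a₂ := ha₂.mono hle
  have hRX : R ≤ R ⊔ Q := le_sup_left
  have hQX : Q ≤ R ⊔ Q := le_sup_right
  have haR : ∀ x ∈ R, a₂ x = autFun α x := fun x hx => by
    rw [ha₂R x ((le_sup_left : R ≤ R ⊔ Q ⊓ T) hx), ha₁R x hx]
  have haZ : ∀ z ∈ Q ⊓ T, a₂ z = z := fun z hz => by
    rw [ha₂R z ((le_sup_right : Q ⊓ T ≤ R ⊔ Q ⊓ T) hz), ha₁Q z hz]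
  have hiso : Iso F (R ⊔ Q) (R ⊔ Q) a₂ := hm.iso_sup (fun y => by
    constructor
    · intro hy
      exact ⟨autFun α⁻¹ y, autFun_mem _ hy, by rw [haR _ (autFun_mem _ hy), autFun_autFun_inv α hy]⟩
    · rintro ⟨x, hx, rfl⟩
      rw [haR x hx]
      exact autFun_mem α hx) ha₂Q
  have hYS : R ⊔ Q ≤ S := hm.le
  have hYfin : Finite ↥(R ⊔ Q) := finite_of_le hYS
  obtain ⟨e₀, he₀, ee₀⟩ := hiso.exists_aut
  have ee₀' : ∀ x ∈ R ⊔ Q, autFun e₀ x = a₂ x := fun x hx => by rw [autFun_apply e₀ hx, ee₀]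
  obtain ⟨j, hj, hαj⟩ := Cfsg.Agent.Lib.Helper87.exists_pow_coprime (p := p) hcop (orderOf_pos e₀)
  have hmor : Mor F (R ⊔ Q) (autFun (e₀ ^ j)) :=
    (mem_autGroup_iff F hYS _).1 (Subgroup.pow_mem _ he₀ j)
  have heR : ∀ x ∈ R, autFun (e₀ ^ j) x = autFun α x := by
    have h := autFun_pow_agree hRX (α := α) (β := e₀)
      (fun x hx => by rw [ee₀' x (hRX hx), haR x hx]) j
    rwa [hαj] at h
  have hk : ∀ k : ℕ, (∀ z ∈ Q ⊓ T, autFun (e₀ ^ k) z = z) ∧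
      ∀ q ∈ Q, q⁻¹ * autFun (e₀ ^ k) q ∈ Q ⊓ T := by
    intro k
    induction k with
    | zero =>
      refine ⟨fun z hz => by rw [pow_zero, autFun_one (hQX hz.1)], fun q hq => ?_⟩
      rw [pow_zero, autFun_one (hQX hq), inv_mul_cancel]
      exact Subgroup.one_mem _
    | succ k ih =>
      refine ⟨fun z hz => ?_, fun q hq => ?_⟩
      · rw [pow_succ, autFun_mul _ _ (hQX hz.1), ee₀' z (hQX hz.1), haZ z hz, ih.1 z hz]
      · rw [pow_succ, autFun_mul _ _ (hQX hq), ee₀' q (hQX hq)]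
        have hq' : a₂ q ∈ Q := (ha₂Q _).2 ⟨q, hq, rfl⟩
        have h1 : q⁻¹ * autFun (e₀ ^ k) (a₂ q) =
            (q⁻¹ * a₂ q) * ((a₂ q)⁻¹ * autFun (e₀ ^ k) (a₂ q)) := by group
        rw [h1]
        exact Subgroup.mul_mem _ ⟨Q.mul_mem (Q.inv_mem hq) hq', ha₂T q hq⟩ (ih.2 _ hq')
  refine ⟨autFun (e₀ ^ j), hmor, heR, fun q hq => ?_⟩
  have h1 := fix_of_coprime (hS.to_le hYS) (e₀ ^ j) hj ⟨q, hQX hq⟩ (by
    apply Subtype.ext
    have h2 := (hk j).2 q hq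
    rw [autFun_apply _ (hQX hq)] at h2
    have h3 := (hk j).1 _ h2
    rw [← autFun_coe]
    exact h3)
  rw [autFun_apply _ (hQX hq), h1]

theorem cent_step [Finite S] {p : ℕ} [Fact p.Prime] (hS : IsPGroup p S) (hD : D.IsNormalIn F p)
    {Q : Subgroup Ω} (hQ : F.IsNormal Q) {TK : Subgroup Ω} {K : FusionSystem TK}
    (hKs : K.IsSaturated p) (hhyp : K.hyperfocalSubgroup p = TK)
    (h : ∀ (P : Subgroup Ω) (f : Ω → Ω), Mor K P f → ExtC D (Q ⊓ T) P f) :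
    ∀ (P : Subgroup Ω) (f : Ω → Ω), Mor K P f → ExtC F Q P f := by
  obtain ⟨-, -, -, hT, -, -, -⟩ := (isNormalIn_iff D F p).1 hD
  have hQs := IsNormal.stronglyClosed hQ
  have hTKS : TK ≤ S := ((h TK id (mor_id K le_rfl)).mor.le).trans hT.1
  have : Finite TK := finite_of_le hTKS
  have hTKp : IsPGroup p TK := hS.to_le hTKS
  have haut : ∀ R : Subgroup Ω, R ≤ TK → ∀ α ∈ K.autGroup R, (orderOf α).Coprime p →
      ExtC F Q R (autFun α) := fun R hR α hα hc =>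
    cent_aut hS hD hQ hc (h R _ ((mem_autGroup_iff K hR α).1 hα))
  have hcen : TK ≤ Subgroup.centralizer (Q : Set Ω) := by
    rw [← hhyp]
    refine hyperfocal_le_of_coprime (fun R hR α hα hc x => ?_)
    obtain ⟨a, ha, haR, haQ⟩ := haut R hR α hα hc
    rw [Subgroup.mem_centralizer_iff]
    intro q hq
    have hxS : (x : Ω) ∈ S := hTKS (hR x.2)
    have hxq : (x : Ω) * q * (x : Ω)⁻¹ ∈ Q := StronglyClosed.conj_mem hQs hxS hq
    have h1 := haQ _ hxq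
    rw [ha.map_conj ((le_sup_left : R ≤ R ⊔ Q) x.2) ((le_sup_right : Q ≤ R ⊔ Q) hq), haQ q hq,
      haR x x.2, autFun_coe] at h1
    calc q * ((x : Ω)⁻¹ * ((α x : R) : Ω))
        = (x : Ω)⁻¹ * ((x : Ω) * q * (x : Ω)⁻¹) * ((α x : R) : Ω) := by group
      _ = (x : Ω)⁻¹ * ((α x : R) : Ω) * q := by rw [← h1]; group
  intro P f hf
  have hg := gen_of_mor hTKp hKs hf
  induction hg with
  | aut hR α hα hc => exact haut _ hR α hα hc
  | @conj R hR t ht =>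
    refine ⟨fun x => t * x * t⁻¹, mor_conj F (sup_le (hR.trans hTKS) hQs.1) (hTKS ht),
      fun _ _ => rfl, fun q hq => ?_⟩
    have := Subgroup.mem_centralizer_iff.1 (hcen ht) q hq
    show t * q * t⁻¹ = q
    rw [← this, mul_inv_cancel_right]
  | mono _ hPR ih => exact (ih ((Gen.mor le_rfl) ‹_›)).mono hPR
  | comp h1 h2 hPQ ih1 ih2 =>
    exact (ih1 (Gen.mor le_rfl h1)).comp (ih2 (Gen.mor le_rfl h2)) hPQ
  | congr h1 e ih => exact (ih (Gen.mor le_rfl h1)).congr e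

theorem cent_of_subnormal {p : ℕ} {TK : Subgroup Ω} {K : FusionSystem TK}
    (h : K.IsSubnormalIn F p) : Fact p.Prime → Finite S → IsPGroup p S → K.IsSaturated p →
    K.hyperfocalSubgroup p = TK →
    (∀ Q₀, K.IsNormal Q₀ → ∀ (P : Subgroup Ω) (f : Ω → Ω), Mor K P f → ExtC K Q₀ P f) →
    ∀ Q, F.IsNormal Q → ∀ (P : Subgroup Ω) (f : Ω → Ω), Mor K P f → ExtC F Q P f := by
  induction h with
  | refl F p =>
    intro _ _ _ _ _ h0 Q hQ
    exact h0 Q hQ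
  | @step U S₁ E D₁ F₁ p h1 h2 ih =>
    intro hp hfin hS hKs hhyp h0 Q hQ
    obtain ⟨hDs, -, hsub, hT, -, -, -⟩ := (isNormalIn_iff D₁ F₁ p).1 h2
    have hfinU : Finite U := finite_of_le hT.1
    exact cent_step hS h2 hQ hKs hhyp
      (ih hp hfinU (hS.to_le hT.1) hKs hhyp h0 _ (isNormal_inf_sub hS hQ hDs hsub hT))

end Cfsg.Agent.Lib.Helper87
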