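import Cfsg.Agent.Lib.Helper87.G3
import Cfsg.Agent.Lib.Helper87.SurjSat
import Cfsg.Agent.Lib.Helper87.FactorExists
import Cfsg.Agent.Lib.Helper87.SubnormalConstrained
import Cfsg.Agent.Lib.Helper88.NormalCentral
import Cfsg.Agent.Lib.Helper90.FusionInnerNormal
import Cfsg.Agent.S5132
import Cfsg.Agent.S5134

set_option autoImplicit false

/-! Normal subgroups of a quasisimple system are central; components centralize normal subgroups. -/

namespace Cfsg.Agent.Lib.Helper87

open Cfsg Cfsg.FusionSystem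

variable {Ω : Type*} [Group Ω] {S : Subgroup Ω} {F : FusionSystem S}

theorem central_of_normal_quasisimple [Finite S] {p : ℕ} [Fact p.Prime] (hS : IsPGroup p S)
    (hq : F.Quasisimple p) {Q : Subgroup Ω} (hQ : F.IsNormal Q) :
    ∀ (P : Subgroup Ω) (f : Ω → Ω), Mor F P f → ExtC F Q P f := by
  obtain ⟨hF, hhyp, hfac⟩ := hq
  have hZc := Cfsg.Agent.Lib.Helper88.isCentral_center F
  have hZn : F.IsNormal F.center := (isNormal_iff F _).2
    ⟨hZc.1, fun P f hf => (((isCentral_iff F _).1 hZc).2 P f hf).extN⟩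
  have hZsc : F.StronglyClosed F.center := Cfsg.Agent.Lib.Helper87.IsNormal.stronglyClosed hZn
  obtain ⟨E, hE⟩ := Cfsg.Agent.S5132.result p hS F F.center hZsc
  have hsimple := hfac E hE
  have hsm := surjMor_of (Cfsg.Agent.S5134.result p hS F hF F.center hZsc _ E hE)
  have hfinT : Finite (⊤ : Subgroup (S ⧸ (F.center).subgroupOf S)) := hsm.finite_target
  have hpT := hsm.isPGroup_target hS
  have hQn := hsm.isNormal_image hQ
  have hin := Cfsg.Agent.Lib.Helper90.inner_normalIn_of_normal hpT E hsimple.1 _ hQn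
  suffices hle : Q ≤ F.center by
    intro P f hf
    obtain ⟨f', h1, h2, h3⟩ := ((isCentral_iff F _).1 hZc).2 P f hf
    exact ⟨f', h1.mono (sup_le_sup_left hle P), h2, fun x hx => h3 x (hle hx)⟩
  rcases hsimple.2.2 _ _ hin with h | ⟨-, h⟩
  · intro x hx
    have h1 := (hsm.mem_image hQ.1 _).2 ⟨x, hx, rfl⟩
    rw [h, Subgroup.mem_bot] at h1
    exact (tf_eq_one_iff hE.2.1 (hQ.1 hx)).1 h1
  · exfalso
    have key : ∀ P : Subgroup Ω, P ≤ S → ∀ α ∈ F.autGroup P, (orderOf α).Coprime p →
        ∀ x : P, (x : Ω)⁻¹ * ((α x : P) : Ω) ∈ F.center := by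
      intro P hP α hα hc
      have hm := (mem_autGroup_iff F hP α).1 hα
      obtain ⟨f', hf', e⟩ := hsm.push P _ hm (hsm.image P hP) (hsm.mem_image hP)
      have hf'' : Mor (Cfsg.innerFusionSystem (hsm.image Q hQ.1)) (hsm.image P hP) f' := by
        obtain ⟨φ, hφ, e'⟩ := hf'
        exact ⟨φ, (h _).symm ▸ hφ, e'⟩
      obtain ⟨-, g, -, hg⟩ := (Cfsg.Agent.Lib.Helper90.mor_inner_iff _ _ _).1 hf''
      have hstep : ∀ x : P, tf (QuotientGroup.mk' ((F.center).subgroupOf S)) ((α x : P) : Ω) =
          g * tf (QuotientGroup.mk' ((F.center).subgroupOf S)) (x : Ω) * g⁻¹ := by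
        intro x
        rw [← hg _ ((hsm.mem_image hP _).2 ⟨x, x.2, rfl⟩), e x x.2, autFun_coe]
      have hpow : ∀ (k : ℕ) (x : P),
          tf (QuotientGroup.mk' ((F.center).subgroupOf S)) (((α ^ k) x : P) : Ω) =
          g ^ k * tf (QuotientGroup.mk' ((F.center).subgroupOf S)) (x : Ω) * (g ^ k)⁻¹ := by
        intro k
        induction k with
        | zero => intro x; simp
        | succ k ih =>
          intro x
          rw [pow_succ', MulAut.mul_apply, hstep, ih, pow_succ']
          group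
      obtain ⟨a, ha⟩ := hpT ⟨g, trivial⟩
      have ha' : g ^ p ^ a = 1 := congrArg Subtype.val ha
      have h1 : ∀ x : P, tf (QuotientGroup.mk' ((F.center).subgroupOf S))
          (((α ^ p ^ a) x : P) : Ω) = tf (QuotientGroup.mk' ((F.center).subgroupOf S)) (x : Ω) := by
        intro x
        rw [hpow, ha']
        simp
      have hcop : Nat.Coprime (p ^ a) (orderOf α) := (Nat.Coprime.pow_right a hc).symm
      obtain ⟨m, hm'⟩ := exists_pow_eq_self_of_coprime hcop
      have h2 : ∀ (k : ℕ) (x : P), tf (QuotientGroup.mk' ((F.center).subgroupOf S))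
          ((((α ^ p ^ a) ^ k) x : P) : Ω) =
          tf (QuotientGroup.mk' ((F.center).subgroupOf S)) (x : Ω) := by
        intro k
        induction k with
        | zero => intro x; simp
        | succ k ih =>
          intro x
          rw [pow_succ', MulAut.mul_apply, h1, ih]
      intro x
      have h3 := h2 m x
      rw [hm'] at h3
      exact (tf_eq_iff hE.2.1 (hP x.2) (hP (α x).2)).1 h3.symm
    have hle : F.hyperfocalSubgroup p ≤ F.center := hyperfocal_le_of_coprime key
    rw [hhyp] at hle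
    apply hsimple.2.1
    rw [eq_bot_iff]
    rintro y -
    obtain ⟨a, rfl⟩ := QuotientGroup.mk_surjective y
    rw [Subgroup.mem_bot, QuotientGroup.eq_one_iff]
    exact Subgroup.mem_subgroupOf.2 (hle a.2)

/-- A component of `F` centralizes every subgroup normal in `F`. -/
theorem component_centralizes [Finite S] {p : ℕ} [Fact p.Prime] (hS : IsPGroup p S)
    {TK : Subgroup Ω} {K : FusionSystem TK} (hK : K.IsComponentIn F p) (hTK : TK ≤ S)
    {Q : Subgroup Ω} (hQ : F.IsNormal Q) :
    ∀ (P : Subgroup Ω) (f : Ω → Ω), Mor K P f → ExtC F Q P f := by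
  have : Finite TK := finite_of_le hTK
  exact cent_of_subnormal hK.1 inferInstance inferInstance hS hK.2.1 hK.2.2.1
    (fun Q₀ hQ₀ => central_of_normal_quasisimple (hS.to_le hTK) hK.2 hQ₀) Q hQ

end Cfsg.Agent.Lib.Helper87
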