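import Cfsg.Agent.Lib.Helper87.PS2
import Cfsg.Agent.Lib.Helper87.NormalTransport
import Cfsg.Agent.Lib.Helper87.SubnormalConstrained
import Cfsg.Agent.Lib.Helper87.Solvable
import Cfsg.Agent.Lib.Helper88.NormalCentral
import Cfsg.Agent.S5106

set_option autoImplicit false

/-! `O_p` of a normal subsystem is normal in the big system; a normal centric subgroup from one of a normal
subsystem containing the hyperfocal subgroup. -/

namespace Cfsg.Agent.Lib.Helper87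

open Cfsg Cfsg.FusionSystem

variable {Ω : Type*} [Group Ω] {S T : Subgroup Ω} {F : FusionSystem S} {D : FusionSystem T}

theorem core_map_mem [Finite T] (hinv : InvF D F) {a : Ω → Ω} (ha : Iso F T T a) {x : Ω}
    (hx : x ∈ D.core) : a x ∈ D.core := by
  have h := surjMor_of_invF hinv ha
  have hn := Cfsg.Agent.Lib.Helper88.isNormal_core D
  exact le_core (h.isNormal_image hn) ((h.mem_image hn.1 _).2 ⟨x, hx, rfl⟩)

/-- `O_p(D)` is normal in `F` for `D` normal in `F`. -/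
theorem core_normal [Finite S] {p : ℕ} [Fact p.Prime] (hS : IsPGroup p S)
    (hD : D.IsNormalIn F p) : F.IsNormal D.core := by
  obtain ⟨-, hFs, hsub, hT, hinv, hfrat, -⟩ := (isNormalIn_iff D F p).1 hD
  have : Finite T := finite_of_le hT.1
  have hn := Cfsg.Agent.Lib.Helper88.isNormal_core D
  have : Finite D.core := finite_of_le (hn.1.trans hT.1)
  refine (Cfsg.Agent.S5106.result p hS F hFs D.core (hn.1.trans hT.1)).2 (fun P hPR φ hφ => ?_)
  have hm : Mor F P (ext φ) := Mor.of_hom hφ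
  obtain ⟨a, f₀, ha, hf₀, e⟩ := hfrat P _ (hPR.trans hn.1) hm
  obtain ⟨f', hf', hag, hR'⟩ := ((isNormal_iff D D.core).1 hn).2 P f₀ hf₀
  rw [sup_eq_right.2 hPR] at hf'
  have h1 : Mor F D.core (a ∘ f') :=
    (hf'.of_subsystem hsub).comp ha.mor (fun x hx => hf'.mem hx)
  have h2 : ∀ x ∈ D.core, (a ∘ f') x ∈ D.core :=
    fun x hx => core_map_mem hinv ha ((hR' _).2 ⟨x, hx, rfl⟩)
  obtain ⟨α, hα, eα⟩ := (h1.iso_self h2).exists_aut
  refine ⟨α, hα, fun x => ?_⟩
  rw [eα]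
  show a (f' (x : Ω)) = φ x
  rw [hag x x.2, ← e x x.2, ext_coe]

theorem centralizerIn_conj_mem {R : Subgroup Ω} (hRn : ∀ s ∈ S, ∀ r ∈ R, s * r * s⁻¹ ∈ R) :
    ∀ s ∈ S, ∀ t ∈ centralizerIn S R, s * t * s⁻¹ ∈ centralizerIn S R := by
  intro s hs t ht
  obtain ⟨htS, htc⟩ := (mem_centralizerIn_iff S R t).1 ht
  refine (mem_centralizerIn_iff S R _).2 ⟨S.mul_mem (S.mul_mem hs htS) (S.inv_mem hs), fun r hr => ?_⟩
  have h1 := htc _ (hRn s⁻¹ (S.inv_mem hs) r hr)
  rw [inv_inv] at h1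
  calc r * (s * t * s⁻¹) = s * ((s⁻¹ * r * s) * t) * s⁻¹ := by group
    _ = s * (t * (s⁻¹ * r * s)) * s⁻¹ := by rw [h1]
    _ = _ := by group

/-- If `R` is normal in `F`, `hyp(F) ≤ T` and `C_T(R) ≤ R`, then `R C_S(R)` is normal in `F`. -/
theorem normal_RC [Finite S] {p : ℕ} [Fact p.Prime] (hS : IsPGroup p S) (hF : F.IsSaturated p)
    {T R : Subgroup Ω} (hT : F.hyperfocalSubgroup p ≤ T) (hR : F.IsNormal R)
    (hc : centralizerIn T R ≤ R) : F.IsNormal (NK S R (autInducedBy R R)) := by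
  have hRs := IsNormal.stronglyClosed hR
  have hsc : F.StronglyClosed (NK S R (autInducedBy R R)) := by
    refine stronglyClosed_NK hR _ (fun α hα a ha => ?_)
    obtain ⟨g, hg, e⟩ := (mem_autInducedBy_iff R R a).1 ha
    refine (mem_autInducedBy_iff R R _).2 ⟨(α ⟨g, hg⟩ : R), Subtype.prop _, fun x => ?_⟩
    show ((α (a (α⁻¹ x)) : R) : Ω) = _
    have h1 : a (α⁻¹ x) = ⟨g, hg⟩ * α⁻¹ x * ⟨g, hg⟩⁻¹ := Subtype.ext (e _)
    rw [h1, map_mul, map_mul, map_inv, MulAut.apply_inv_self]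
    rfl
  refine isNormal_of_base hS hF hsc (fun U hU hXU => ?_)
  by_cases hRU : R ≤ U
  · have hRn : ∀ u ∈ U, ∀ r ∈ R, u * r * u⁻¹ ∈ R ∧ u * r * u⁻¹ ∈ U := fun u hu r hr =>
      ⟨StronglyClosed.conj_mem hRs (hU.1 hu) hr, U.mul_mem (U.mul_mem hu (hRU hr)) (U.inv_mem hu)⟩
    refine ⟨F.autGroup U ⊓ FixOn U R, inf_le_left, ?_, fixOn_isPGroup hS hT hc hU.1 hRn, ?_⟩
    · rintro α hα κ ⟨hκ, hκf⟩
      refine ⟨Subgroup.mul_mem _ (Subgroup.mul_mem _ hα hκ) (Subgroup.inv_mem _ hα), fun x hx => ?_⟩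
      have h1 : ((α⁻¹ x : U) : Ω) ∈ R := by
        have := StronglyClosed.map_mem hRs
          ((mem_autGroup_iff F hU.1 α⁻¹).1 (Subgroup.inv_mem _ hα)) x.2 hx
        rwa [autFun_coe] at this
      show α (κ (α⁻¹ x)) = x
      rw [hκf _ h1, MulAut.apply_inv_self]
    · have hCU : ¬ centralizerIn S R ≤ U := by
        intro hle
        apply hXU
        rintro x ⟨hxS, κ, hκ, e⟩
        obtain ⟨r, hr, er⟩ := (mem_autInducedBy_iff R R κ).1 hκ
        have h1 : r⁻¹ * x ∈ centralizerIn S R := by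
          refine (mem_centralizerIn_iff S R _).2 ⟨S.mul_mem (S.inv_mem (hR.1 hr)) hxS, fun y hy => ?_⟩
          have h2 := (e ⟨y, hy⟩).symm.trans (er ⟨y, hy⟩)
          have h3 : x * y * x⁻¹ = r * y * r⁻¹ := h2
          have h4 : x * y = r * y * r⁻¹ * x := by rw [← h3]; group
          calc y * (r⁻¹ * x) = r⁻¹ * (r * y * r⁻¹ * x) := by group
            _ = r⁻¹ * (x * y) := by rw [h4]
            _ = _ := by group
        have h5 : x = r * (r⁻¹ * x) := by group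
        rw [h5]
        exact U.mul_mem (hRU hr) (hle h1)
      obtain ⟨t, ht, htN, htU⟩ := exists_mem_normalizer_of_not_le hS hU.1 (centralizerIn_le S R)
        (centralizerIn_conj_mem (fun s hs r hr => StronglyClosed.conj_mem hRs hs hr)) hCU
      obtain ⟨htS, htc⟩ := (mem_centralizerIn_iff S R t).1 ht
      refine ⟨t, ⟨htS, (conjToAut S U ⟨t, htS, htN⟩ : autInducedBy S U),
        ⟨autInducedBy_le_autGroup F hU.1 (Subtype.prop _), fun x hx => Subtype.ext ?_⟩,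
        fun x => rfl⟩, htU⟩
      show t * (x : Ω) * t⁻¹ = x
      rw [← htc _ hx]
      group
  · refine ⟨autInducedBy R U, ?_, ?_, isPGroup_autInducedBy (hS.to_le hR.1) U, ?_⟩
    · intro κ hκ
      obtain ⟨g, hg, e⟩ := (mem_autInducedBy_iff _ U κ).1 hκ
      exact autInducedBy_le_autGroup F hU.1 ((mem_autInducedBy_iff S U κ).2 ⟨g, hR.1 hg, e⟩)
    · intro α hα κ hκ
      obtain ⟨g, hg, e⟩ := (mem_autInducedBy_iff _ U κ).1 hκ
      have hαm := (mem_autGroup_iff F hU.1 α).1 hα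
      obtain ⟨f', hf', hag, hf'Q⟩ := ((isNormal_iff F _).1 hR).2 U _ hαm
      have hgD : g ∈ U ⊔ R := (le_sup_right : R ≤ U ⊔ R) hg
      rw [mem_autInducedBy_iff]
      refine ⟨f' g, StronglyClosed.map_mem hRs hf' hgD hg, fun x => ?_⟩
      set y := α⁻¹ x with hy
      have hxy : x = α y := by rw [hy, MulAut.apply_inv_self]
      show ((α (κ (α⁻¹ x)) : U) : Ω) = _
      rw [← hy, ← autFun_coe, ← hag _ (Subtype.prop _), e,
        hf'.map_conj hgD ((le_sup_left : U ≤ U ⊔ R) y.2), hag _ y.2, autFun_coe, ← hxy]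
    · obtain ⟨t, ht, htN, htU⟩ := exists_mem_normalizer_of_not_le hS hU.1 hR.1
        (fun s hs t ht => StronglyClosed.conj_mem hRs hs ht) hRU
      exact ⟨t, ⟨hR.1 ht, (conjToAut R U ⟨t, ht, htN⟩ : autInducedBy R U),
        Subtype.prop _, fun x => rfl⟩, htU⟩

theorem le_NK_autR {R : Subgroup Ω} (hR : R ≤ S) : R ≤ NK S R (autInducedBy R R) := by
  intro r hr
  have hrN : r ∈ Subgroup.normalizer (R : Set Ω) := Subgroup.le_normalizer hr
  exact ⟨hR hr, (conjToAut R R ⟨r, hr, hrN⟩ : autInducedBy R R), Subtype.prop _, fun x => rfl⟩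

theorem centralizerIn_le_NK_autR (R : Subgroup Ω) :
    centralizerIn S R ≤ NK S R (autInducedBy R R) := by
  intro c hc
  obtain ⟨hcS, hcc⟩ := (mem_centralizerIn_iff S R c).1 hc
  refine ⟨hcS, 1, Subgroup.one_mem _, fun x => ?_⟩
  show (x : Ω) = c * x * c⁻¹
  rw [← hcc _ x.2]
  group

end Cfsg.Agent.Lib.Helper87
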