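import Cfsg.Agent.Lib.Helper87.G4
import Cfsg.Agent.Lib.Helper87.CE7
import Cfsg.Agent.Lib.Helper87.PS3
import Cfsg.Agent.Lib.Helper87.ResidualLimit

set_option autoImplicit false

/-! The centralizer system of a subgroup normal in `F` is a normal subsystem of `F`. -/

namespace Cfsg.Agent.Lib.Helper87

open Cfsg Cfsg.FusionSystem Cfsg.Agent.Lib.Helper15.FusCE

variable {Ω : Type*} [Group Ω] {S : Subgroup Ω} {F : FusionSystem S}

theorem stronglyClosed_CR {R : Subgroup Ω} (hR : F.IsNormal R) :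
    F.StronglyClosed (centralizerIn S R ⊔ R) := by
  have hsc : F.StronglyClosed (NK S R (autInducedBy R R)) := by
    refine stronglyClosed_NK hR _ (fun α hα a ha => ?_)
    obtain ⟨g, hg, e⟩ := (mem_autInducedBy_iff R R a).1 ha
    refine (mem_autInducedBy_iff R R _).2 ⟨(α ⟨g, hg⟩ : R), Subtype.prop _, fun x => ?_⟩
    show ((α (a (α⁻¹ x)) : R) : Ω) = _
    have h1 : a (α⁻¹ x) = ⟨g, hg⟩ * α⁻¹ x * ⟨g, hg⟩⁻¹ := Subtype.ext (e _)
    rw [h1, map_mul, map_mul, map_inv, MulAut.apply_inv_self]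
    rfl
  have heq : centralizerIn S R ⊔ R = NK S R (autInducedBy R R) := by
    refine le_antisymm (sup_le (centralizerIn_le_NK_autR R) (le_NK_autR hR.1)) ?_
    rintro s ⟨hs, a, ha, e⟩
    obtain ⟨g, hg, e'⟩ := (mem_autInducedBy_iff R R a).1 ha
    have h1 : s * g⁻¹ ∈ centralizerIn S R := by
      refine (mem_centralizerIn_iff S R _).2 ⟨S.mul_mem hs (S.inv_mem (hR.1 hg)), fun x hx => ?_⟩
      have hy : g⁻¹ * x * g ∈ R := R.mul_mem (R.mul_mem (R.inv_mem hg) hx) hg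
      have h2 := (e ⟨_, hy⟩).symm.trans (e' ⟨_, hy⟩)
      have h3 : s * (g⁻¹ * x * g) * s⁻¹ = x := by
        rw [h2]
        group
      calc x * (s * g⁻¹) = (s * (g⁻¹ * x * g) * s⁻¹) * (s * g⁻¹) := by rw [h3]
        _ = s * g⁻¹ * x := by group
    have h4 : s = (s * g⁻¹) * g := by group
    rw [h4]
    exact Subgroup.mul_mem _ ((le_sup_left : _ ≤ centralizerIn S R ⊔ R) h1)
      ((le_sup_right : R ≤ centralizerIn S R ⊔ R) hg)
  rw [heq]
  exact hsc

theorem extF_centralizer [Finite S] {p : ℕ} [Fact p.Prime]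
    (hFs : F.IsSaturated p) {R : Subgroup Ω} (hR : F.IsNormal R) {Y : Subgroup Ω}
    (hY : Y = centralizerIn S R) {D₀ : FusionSystem Y}
    (hD₀ : ∀ (P : Subgroup Ω) (f : Ω → Ω), Mor D₀ P f → ExtC F R P f) : ExtF D₀ F := by
  have hRs := IsNormal.stronglyClosed hR
  have hYS : Y ≤ S := hY ▸ centralizerIn_le S R
  intro a ha
  obtain ⟨â, hâ, hâC, hâR⟩ := hD₀ Y a ha.mor
  have hCW : Y ≤ Y ⊔ R := le_sup_left
  have hRW : R ≤ Y ⊔ R := le_sup_right
  have hisoW : Iso F (Y ⊔ R) (Y ⊔ R) â := hâ.iso_sup (fun y => by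
    rw [ha.2 y]
    constructor
    · rintro ⟨x, hx, rfl⟩
      exact ⟨x, hx, hâC x hx⟩
    · rintro ⟨x, hx, rfl⟩
      exact ⟨x, hx, (hâC x hx).symm⟩) (fun y =>
    ⟨fun hy => ⟨y, hy, hâR y hy⟩, by
      rintro ⟨x, hx, rfl⟩
      rw [hâR x hx]
      exact hx⟩)
  have hWsc : F.StronglyClosed (Y ⊔ R) := by
    rw [hY]
    exact stronglyClosed_CR hR
  have hrec := receptive_of_stronglyClosed hFs hWsc
  have hcomm : ∀ y ∈ centralizerIn S Y, ∀ x ∈ Y ⊔ R, â (y * x * y⁻¹) = y * â x * y⁻¹ := by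
    intro y hy
    obtain ⟨hyS, hyc⟩ := (mem_centralizerIn_iff S Y y).1 hy
    have hfix : ∀ x ∈ Y, y * x * y⁻¹ = x := fun x hx => by
      rw [← hyc x hx, mul_inv_cancel_right]
    have hcy : Mor F (Y ⊔ R) (fun x => y * x * y⁻¹) := mor_conj F hWsc.1 hyS
    have h1 : Mor F (Y ⊔ R) (â ∘ fun x => y * x * y⁻¹) :=
      hcy.comp hâ (fun x hx => StronglyClosed.conj_mem hWsc hyS hx)
    have h2 : Mor F (Y ⊔ R) ((fun x => y * x * y⁻¹) ∘ â) :=
      hâ.comp hcy (fun x hx => hisoW.map_mem hx)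
    refine h1.eq_on_sup h2 (fun x hx => ?_) (fun x hx => ?_)
    · show â (y * x * y⁻¹) = y * â x * y⁻¹
      rw [hfix x hx, hâC x hx, hfix _ (ha.map_mem hx)]
    · show â (y * x * y⁻¹) = y * â x * y⁻¹
      rw [hâR _ (StronglyClosed.conj_mem hRs hyS hx), hâR x hx]
  obtain ⟨ã, hã, hãW⟩ := receptive_extend hrec hisoW (centralizerIn S Y) (centralizerIn_le S Y)
    (fun y hy => StronglyClosed.le_normalizer hWsc (centralizerIn_le S Y hy))
    (fun y hy => ⟨y, centralizerIn_le S Y hy, hcomm y hy⟩)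
  have hWX : Y ⊔ R ≤ (Y ⊔ R) ⊔ centralizerIn S Y := le_sup_left
  have hZX : centralizerIn S Y ≤ (Y ⊔ R) ⊔ centralizerIn S Y := le_sup_right
  have hz : ∀ c ∈ centralizerIn S Y, c⁻¹ * ã c ∈ Y ⊓ Subgroup.centralizer (Y : Set Ω) := by
    intro c hc
    have hcS := centralizerIn_le S Y hc
    have hcen : ∀ w ∈ Y ⊔ R, w * (c⁻¹ * ã c) = (c⁻¹ * ã c) * w := by
      intro w hw
      obtain ⟨x, hx, rfl⟩ := hisoW.surj hw
      have hcx := StronglyClosed.conj_mem hWsc hcS hx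
      have h1 := hã.map_conj (hZX hc) (hWX hx)
      rw [hãW _ hcx, hcomm c hc x hx, hãW x hx] at h1
      calc â x * (c⁻¹ * ã c) = c⁻¹ * (c * â x * c⁻¹) * ã c := by group
        _ = c⁻¹ * ã c * â x := by rw [h1]; group
    have hzS : c⁻¹ * ã c ∈ S := S.mul_mem (S.inv_mem hcS) (hã.mem (hZX hc))
    refine ⟨?_, Subgroup.mem_centralizer_iff.2 (fun w hw => hcen w (hCW hw))⟩
    rw [hY]
    exact (mem_centralizerIn_iff S R _).2 ⟨hzS, fun r hr => hcen r (hRW hr)⟩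
  have hle : Y ⊔ centralizerIn S Y ≤ (Y ⊔ R) ⊔ centralizerIn S Y :=
    sup_le_sup_right le_sup_left _
  have hm : Mor F (Y ⊔ centralizerIn S Y) ã := hã.mono hle
  have hfin : Finite ↥(Y ⊔ centralizerIn S Y) := finite_of_le hm.le
  refine ⟨ã, hm.iso_self (hm.map_sup_mem (fun x hx => ?_) (fun c hc => ?_)), fun x hx => ?_, hz⟩
  · rw [hãW x (hCW hx), hâC x hx]
    exact (le_sup_left : Y ≤ Y ⊔ centralizerIn S Y) (ha.map_mem hx)
  · have h1 : ã c = c * (c⁻¹ * ã c) := by group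
    rw [h1]
    exact Subgroup.mul_mem _ ((le_sup_right : _ ≤ Y ⊔ centralizerIn S Y) hc)
      ((le_sup_left : Y ≤ Y ⊔ centralizerIn S Y) (hz c hc).1)
  · rw [hãW x (hCW hx), hâC x hx]

/-- The centralizer system of a subgroup normal in `F` is (the set of maps of) a normal subsystem of `F`. -/
theorem exists_centralizer_of_normal [Finite S] {p : ℕ} [Fact p.Prime] (hS : IsPGroup p S)
    (hFs : F.IsSaturated p) {R : Subgroup Ω} (hR : F.IsNormal R) :
    ∃ (Y : Subgroup Ω) (D : FusionSystem Y), D.IsNormalIn F p ∧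
      ∀ P : Subgroup Ω, D.Hom P = F.centralizerHom R P := by
  have hE := Cfsg.Agent.Lib.Helper90.inner_normalIn_of_normal hS F hFs R hR
  have hT := IsNormal.stronglyClosed hR
  obtain ⟨𝒞, h𝒞⟩ := Cfsg.Agent.S5097.result F R hT.1
  have h𝒞s := centralizerSystem_saturated hS hFs (fullyCentralized_of_stronglyClosed hT) h𝒞
  have hCS : centralizerIn S R ≤ S := centralizerIn_le S R
  have hCfin : Finite (centralizerIn S R) := finite_of_le hCS
  have hCp : IsPGroup p (centralizerIn S R) := hS.to_le hCS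
  have hYsc := CSE_stronglyClosed hS hE
  obtain ⟨D₀, hD₀s, hD₀i⟩ := exists_pPowerIndex (p := p) _ (centralizerIn S R) hCfin rfl hCp 𝒞 h𝒞s
    (CSE (innerFusionSystem R) F) (CSE_le _ F) (hyperfocal_centralizer_le_CSE hS hE h𝒞)
  have hYfin : Finite (CSE (innerFusionSystem R) F) := finite_of_le hYsc.1
  have hYp : IsPGroup p (CSE (innerFusionSystem R) F) := hS.to_le hYsc.1
  have h𝒞F : 𝒞.IsSubsystemOf F := by
    intro P φ hφ
    rw [h𝒞 P] at hφ
    exact hφ.1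
  have hsub : D₀.IsSubsystemOf F := fun P φ hφ => h𝒞F P (hD₀i.1 P hφ)
  have hinv : InvF D₀ F := invF_of_pPowerIndex' hYp hD₀s hD₀i
    (fun a ha U X hiso hU w hw => congr_mem_centralizer hFs hT hYsc (CSE_le _ F) h𝒞 ha hiso hU hw)
  have hYsc𝒞 : 𝒞.StronglyClosed (CSE (innerFusionSystem R) F) := by
    rw [stronglyClosed_iff]
    exact ⟨CSE_le _ F, fun R f hf x hx hxY =>
      StronglyClosed.map_mem hYsc (hf.of_subsystem h𝒞F) hx hxY⟩
  have hfr𝒞 : FratF D₀ 𝒞 :=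
    fratF_of_pPowerIndex hCp h𝒞s hD₀i hYsc𝒞 (invF_of_pPowerIndex hYp hD₀s hD₀i)
  have hfrat : FratF D₀ F := fratF_CSE hS hE h𝒞 hfr𝒞 hinv
  have hYeq : CSE (innerFusionSystem R) F = centralizerIn S R := by
    refine le_antisymm (CSE_le _ F) (le_CSE ⟨le_rfl, fun P f hf => ?_⟩)
    obtain ⟨hPR, g, hg, e⟩ := (Cfsg.Agent.Lib.Helper90.mor_inner_iff _ _ _).1 hf
    refine ⟨fun x => g * x * g⁻¹, mor_conj F (sup_le (hPR.trans hT.1) hCS) (hT.1 hg),
      fun x hx => (e x hx).symm, fun c hc => ?_⟩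
    have := ((mem_centralizerIn_iff S R c).1 hc).2 g hg
    show g * c * g⁻¹ = c
    rw [this, mul_inv_cancel_right]
  have hHom : ∀ P, D₀.Hom P = 𝒞.Hom P := hom_eq_of_pPowerIndex_top hCp h𝒞s hYeq.ge hD₀i
  refine ⟨_, D₀, (isNormalIn_iff D₀ F p).2 ⟨hD₀s, hFs, hsub, hYsc, hinv, hfrat,
    extF_centralizer hFs hR hYeq (fun P f hf => ?_)⟩, fun P => by rw [hHom P, h𝒞 P]⟩
  obtain ⟨φ, hφ, e⟩ := hf
  rw [hHom, h𝒞, mem_centralizerHom_iff] at hφ
  exact hφ.2.2.congr (fun x hx => by rw [ext_apply φ hx, e])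

theorem subnormal_le {T : Subgroup Ω} {K : FusionSystem T} {p : ℕ} (h : K.IsSubnormalIn F p) :
    T ≤ S := by
  induction h with
  | refl F p => exact le_rfl
  | step _ h2 ih => exact ih.trans h2.1.2.2.2.1.1

/-- Every component of `F` lies in the centralizer system of a subgroup normal in `F`. -/
theorem component_hom_subset [Finite S] {p : ℕ} [Fact p.Prime] (hS : IsPGroup p S)
    {TK : Subgroup Ω} {K : FusionSystem TK} (hK : K.IsComponentIn F p)
    {Q : Subgroup Ω} (hQ : F.IsNormal Q) (P : Subgroup Ω) :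
    K.Hom P ⊆ F.centralizerHom Q P := by
  have hTKS : TK ≤ S := subnormal_le hK.1
  have hQs := IsNormal.stronglyClosed hQ
  have hext := component_centralizes hS hK hTKS hQ
  have hcen : TK ≤ centralizerIn S Q := by
    have h0 : TK ≤ Subgroup.centralizer (Q : Set Ω) := by
      rw [← hK.2.2.1]
      refine hyperfocal_le_of_coprime (fun R hR α hα hc x => ?_)
      obtain ⟨a, ha, haR, haQ⟩ := hext R _ ((mem_autGroup_iff K hR α).1 hα)
      rw [Subgroup.mem_centralizer_iff]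
      intro q hq
      have hxS : (x : Ω) ∈ S := hTKS (hR x.2)
      have hxq : (x : Ω) * q * (x : Ω)⁻¹ ∈ Q := StronglyClosed.conj_mem hQs hxS hq
      have h1 := haQ _ hxq
      rw [ha.map_conj ((le_sup_left : R ≤ R ⊔ Q) x.2) ((le_sup_right : Q ≤ R ⊔ Q) hq), haQ q hq,
        haR x x.2, autFun_coe] at h1
      calc q * ((x : Ω)⁻¹ * ((α x : R) : Ω))
          = (x : Ω)⁻¹ * ((x : Ω) * q * (x : Ω)⁻¹) * ((α x : R) : Ω) := by group
        _ = (x : Ω)⁻¹ * ((α x : R) : Ω) * q := by rw [← h1]; group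
    exact fun t ht => ⟨hTKS ht, h0 ht⟩
  intro φ hφ
  have hm : Mor K P (ext φ) := Mor.of_hom hφ
  rw [mem_centralizerHom_iff]
  exact ⟨hm.le.trans hcen, fun x hx => hcen (hm.mem hx), hext P _ hm⟩

end Cfsg.Agent.Lib.Helper87
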