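import Cfsg.Agent.Lib.Helper87.DetByAutT
import Cfsg.Agent.Lib.Helper87.ConstrainedSub
import Cfsg.Agent.Lib.Helper87.HyperfocalGroup
import Cfsg.Agent.S5093
import Cfsg.Agent.S5102

set_option autoImplicit false

namespace Cfsg.Agent.Lib.Helper87

open Cfsg Cfsg.FusionSystem

variable {G : Type*} [Group G]

/-- Strong closure in the fusion system of a group, elementwise. -/
theorem sc_conj {S T : Subgroup G} (hT : (groupFusionSystem S).StronglyClosed T) {g x : G}
    (hx : x ∈ T) (h : g * x * g⁻¹ ∈ S) : g * x * g⁻¹ ∈ T := by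
  have hm : Mor (groupFusionSystem S) (Subgroup.zpowers x) (fun z => g * z * g⁻¹) := by
    refine (mor_group_iff _ _ _).2 ⟨(Subgroup.zpowers_le).2 (hT.1 hx), g, fun z hz => ⟨rfl, ?_⟩⟩
    obtain ⟨n, rfl⟩ := Subgroup.mem_zpowers_iff.1 hz
    have h3 : g * x ^ n * g⁻¹ = (g * x * g⁻¹) ^ n := (conj_zpow).symm
    rw [h3]
    exact S.zpow_mem h n
  exact StronglyClosed.map_mem hT hm (Subgroup.mem_zpowers x) hx

/-- `C_G(Q/R)`. -/
def centMod (Q R : Subgroup G) [R.Normal] : Subgroup G :=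
  (Subgroup.centralizer ((Q.map (QuotientGroup.mk' R) : Subgroup (G ⧸ R)) : Set (G ⧸ R))).comap
    (QuotientGroup.mk' R)

theorem mem_centMod (Q R : Subgroup G) [R.Normal] (g : G) :
    g ∈ centMod Q R ↔ ∀ q ∈ Q, q⁻¹ * (g * q * g⁻¹) ∈ R := by
  unfold centMod
  rw [Subgroup.mem_comap, Subgroup.mem_centralizer_iff]
  constructor
  · intro h q hq
    have h1 := h _ ⟨q, hq, rfl⟩
    rw [← QuotientGroup.eq]
    have h2 : (QuotientGroup.mk' R) q * (QuotientGroup.mk' R) g =
      (QuotientGroup.mk' R) g * (QuotientGroup.mk' R) q := h1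
    show (QuotientGroup.mk' R) q = (QuotientGroup.mk' R) (g * q * g⁻¹)
    rw [map_mul, map_mul, ← h2, map_inv]
    group
  · rintro h _ ⟨q, hq, rfl⟩
    have h1 := h q hq
    rw [← QuotientGroup.eq] at h1
    have h2 : (QuotientGroup.mk' R) q = (QuotientGroup.mk' R) (g * q * g⁻¹) := h1
    rw [map_mul, map_mul, map_inv] at h2
    conv_lhs => rw [h2]
    group

instance centMod_normal (Q R : Subgroup G) [Q.Normal] [R.Normal] : (centMod Q R).Normal := by
  unfold centMod
  have h1 : (Q.map (QuotientGroup.mk' R)).Normal :=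
    Subgroup.Normal.map inferInstance _ (QuotientGroup.mk'_surjective R)
  infer_instance

/-- Chain lemma: an element of order prime to `p` stabilizing a chain acts trivially. -/
theorem chain_lemma {p : ℕ} {N : Subgroup G} [N.Normal] {g q : G} {n k : ℕ} (hg : g ^ n = 1)
    (hcop : Nat.Coprime n p) (hw : (q⁻¹ * (g * q * g⁻¹)) ^ (p ^ k) ∈ N)
    (hc : (q⁻¹ * (g * q * g⁻¹))⁻¹ * (g * (q⁻¹ * (g * q * g⁻¹)) * g⁻¹) ∈ N) :
    q⁻¹ * (g * q * g⁻¹) ∈ N := by
  set w := q⁻¹ * (g * q * g⁻¹) with hwdef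
  set π := QuotientGroup.mk' N with hπ
  have h1 : π g * π q * (π g)⁻¹ = π q * π w := by
    rw [hwdef]
    simp only [map_mul, map_inv]
    group
  have h2 : π g * π w * (π g)⁻¹ = π w := by
    have : π w = π (g * w * g⁻¹) := (QuotientGroup.eq).2 hc
    rw [map_mul, map_mul, map_inv] at this
    exact this.symm
  have h3 : ∀ m : ℕ, (π g) ^ m * π q * ((π g) ^ m)⁻¹ = π q * (π w) ^ m := by
    intro m
    induction m with
    | zero => simp
    | succ m ih =>
      have h4 : (π g) ^ (m + 1) * π q * ((π g) ^ (m + 1))⁻¹ =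
          π g * ((π g) ^ m * π q * ((π g) ^ m)⁻¹) * (π g)⁻¹ := by
        rw [pow_succ']
        group
      have h5 : π g * (π w) ^ m * (π g)⁻¹ = (π w) ^ m := by
        rw [← conj_pow, h2]
      rw [h4, ih]
      calc π g * (π q * π w ^ m) * (π g)⁻¹
          = (π g * π q * (π g)⁻¹) * (π g * π w ^ m * (π g)⁻¹) := by group
        _ = π q * π w * π w ^ m := by rw [h1, h5]
        _ = π q * π w ^ (m + 1) := by rw [pow_succ', mul_assoc]
  have h6 : (π w) ^ n = 1 := by
    have := h3 n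
    rw [← map_pow, hg, map_one] at this
    simpa using this.symm
  have h7 : (π w) ^ (p ^ k) = 1 := by
    rw [← map_pow]
    exact (QuotientGroup.eq_one_iff _).2 hw
  have h8 : orderOf (π w) ∣ Nat.gcd n (p ^ k) :=
    Nat.dvd_gcd (orderOf_dvd_of_pow_eq_one h6) (orderOf_dvd_of_pow_eq_one h7)
  rw [Nat.Coprime.pow_right k hcop] at h8
  have h9 : π w = 1 := orderOf_eq_one_iff.1 (Nat.dvd_one.1 h8)
  exact (QuotientGroup.eq_one_iff _).1 h9

/-- Power version of `exists_coprime_inducing`. -/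
theorem exists_coprime_pow_inducing [Finite G] {p : ℕ} [hp : Fact p.Prime] {P : Subgroup G}
    {α : MulAut P} (hα : Nat.Coprime (orderOf α) p) {g : G}
    (e : ∀ x : P, ((α x : P) : G) = g * x * g⁻¹) :
    ∃ n : ℕ, Nat.Coprime (orderOf (g ^ n)) p ∧
      ∀ x : P, ((α x : P) : G) = g ^ n * x * (g ^ n)⁻¹ := by
  obtain ⟨a, m, hm, hgm⟩ := Nat.exists_eq_pow_mul_and_not_dvd (orderOf_pos g).ne' p hp.out.ne_one
  have hcop : Nat.Coprime (p ^ a) (orderOf α) := (Nat.Coprime.pow_right a hα).symm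
  obtain ⟨j, hj⟩ := exists_pow_eq_self_of_coprime hcop
  refine ⟨p ^ a * j, ?_, fun x => ?_⟩
  · have h1 : (g ^ (p ^ a)) ^ m = 1 := by
      rw [← pow_mul, ← hgm]
      exact pow_orderOf_eq_one g
    have h2 : orderOf ((g ^ (p ^ a)) ^ j) ∣ m :=
      (orderOf_pow_dvd j).trans (orderOf_dvd_of_pow_eq_one h1)
    rw [pow_mul]
    exact Nat.Coprime.coprime_dvd_left h2 ((Nat.Prime.coprime_iff_not_dvd hp.out).2 hm).symm
  · conv_lhs => rw [← hj]
    rw [← pow_mul]
    exact aut_pow_apply e _ x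

/-- In a saturated subsystem `E` over `T ≤ S`, an automorphism of a fully automized `P` that lies in `Aut_E(P)` and
is induced by an element of the `p`-group `S` is induced by an element of `T`. -/
theorem autS_inf_autE {Ω : Type*} [Group Ω] {S T : Subgroup Ω} {p : ℕ} (hS : IsPGroup p S)
    (hTS : T ≤ S) {E : FusionSystem T} {P : Subgroup Ω} (hP : E.IsFullyAutomized p P) :
    autInducedBy S P ⊓ E.autGroup P = autInducedBy T P := by
  have hsyl := (fullyAutomized_iff E p hP.1).1 hP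
  refine hsyl.2.2 _ inf_le_right ((isPGroup_autInducedBy hS P).to_le inf_le_left)
    (le_inf ?_ hsyl.1)
  intro a ha
  obtain ⟨t, ht, e⟩ := (mem_autInducedBy_iff T P a).1 ha
  exact (mem_autInducedBy_iff S P a).2 ⟨t, hTS ht, e⟩

/-- If `Q` is normal in `F`, `T` strongly closed in `F` and `E` a saturated subsystem over `T`, then `Q ∩ T` is normal
in `E`. -/
theorem isNormal_inf_of_subsystem {Ω : Type*} [Group Ω] {S : Subgroup Ω} [Finite S] {p : ℕ}
    [Fact p.Prime] (hS : IsPGroup p S) {F : FusionSystem S} {Q : Subgroup Ω} (hQ : F.IsNormal Q)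
    {T : Subgroup Ω} {E : FusionSystem T} (hEs : E.IsSaturated p) (hEF : E.IsSubsystemOf F)
    (hT : F.StronglyClosed T) : E.IsNormal (Q ⊓ T) := by
  have hQs := IsNormal.stronglyClosed hQ
  have hRF : F.StronglyClosed (Q ⊓ T) := stronglyClosed_inf hQs hT
  have : Finite T := finite_of_le hT.1
  have hTp : IsPGroup p T := hS.to_le hT.1
  have hRE : E.StronglyClosed (Q ⊓ T) := by
    rw [stronglyClosed_iff]
    exact ⟨inf_le_right, fun R f hf x hx hxR =>
      StronglyClosed.map_mem hRF (hf.of_subsystem hEF) hx hxR⟩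
  refine isNormal_of_base hTp hEs hRE (fun U hU hRU => ?_)
  refine ⟨autInducedBy (Q ⊓ T) U, ?_, ?_, isPGroup_autInducedBy (hTp.to_le inf_le_right) U, ?_⟩
  · intro κ hκ
    obtain ⟨g, hg, e⟩ := (mem_autInducedBy_iff _ U κ).1 hκ
    exact autInducedBy_le_autGroup E hU.1 ((mem_autInducedBy_iff T U κ).2 ⟨g, hg.2, e⟩)
  · intro α hα κ hκ
    obtain ⟨g, hg, e⟩ := (mem_autInducedBy_iff _ U κ).1 hκ
    have hαm := ((mem_autGroup_iff E hU.1 α).1 hα).of_subsystem hEF
    obtain ⟨f', hf', hag, hf'Q⟩ := ((isNormal_iff F _).1 hQ).2 U _ hαm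
    have hgD : g ∈ U ⊔ Q := (le_sup_right : Q ≤ U ⊔ Q) hg.1
    rw [mem_autInducedBy_iff]
    refine ⟨f' g, StronglyClosed.map_mem hRF hf' hgD hg, fun x => ?_⟩
    set y := α⁻¹ x with hy
    have hxy : x = α y := by rw [hy, MulAut.apply_inv_self]
    show ((α (κ (α⁻¹ x)) : U) : Ω) = _
    rw [← hy, ← autFun_coe, ← hag _ (Subtype.prop _), e,
      hf'.map_conj hgD ((le_sup_left : U ≤ U ⊔ Q) y.2), hag _ y.2, autFun_coe, ← hxy]
  · obtain ⟨t, ht, htN, htU⟩ := exists_mem_normalizer_of_not_le hTp hU.1 inf_le_right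
      (fun s hs t ht => StronglyClosed.conj_mem hRE hs ht) hRU
    exact ⟨t, ⟨ht.2, (conjToAut (Q ⊓ T) U ⟨t, ht, htN⟩ : autInducedBy (Q ⊓ T) U),
      Subtype.prop _, fun x => rfl⟩, htU⟩

end Cfsg.Agent.Lib.Helper87
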