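import Cfsg.Agent.Lib.Helper87.NIM1

set_option autoImplicit false

namespace Cfsg.Agent.Lib.Helper87

open Cfsg Cfsg.FusionSystem

variable {G : Type*} [Group G]

/-- The setting: `G` with `C_G(O_p(G)) ≤ O_p(G)` and a normal subsystem `E` over `T` of `F_S(G)`. -/
structure NS (p : ℕ) (S : Sylow p G) (T : Subgroup G) (E : FusionSystem T) : Prop where
  hG : Subgroup.centralizer ((pCore p G : Subgroup G) : Set G) ≤ pCore p G
  hE : E.IsNormalIn (groupFusionSystem (S : Subgroup G)) p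

namespace NS

variable {p : ℕ} {S : Sylow p G} {T : Subgroup G} {E : FusionSystem T}

theorem sat (h : NS p S T E) : E.IsSaturated p := h.hE.1.1

theorem sub (h : NS p S T E) : E.IsSubsystemOf (groupFusionSystem (S : Subgroup G)) :=
  ((isInvariantIn_iff _ _).1 h.hE.1.2.2).1

theorem sc (h : NS p S T E) : (groupFusionSystem (S : Subgroup G)).StronglyClosed T :=
  ((isInvariantIn_iff _ _).1 h.hE.1.2.2).2.1

theorem invF (h : NS p S T E) : InvF E (groupFusionSystem (S : Subgroup G)) :=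
  ((isInvariantIn_iff _ _).1 h.hE.1.2.2).2.2.1

theorem fratF (h : NS p S T E) : FratF E (groupFusionSystem (S : Subgroup G)) :=
  ((isInvariantIn_iff _ _).1 h.hE.1.2.2).2.2.2

theorem TS (h : NS p S T E) : T ≤ S := h.sc.1

theorem QS (_h : NS p S T E) : pCore p G ≤ S := pCore_le_sylow' S

theorem Tp (h : NS p S T E) : IsPGroup p T := S.isPGroup'.to_le h.TS

theorem conjT (h : NS p S T E) {s t : G} (hs : s ∈ (S : Subgroup G)) (ht : t ∈ T) :
    s * t * s⁻¹ ∈ T := StronglyClosed.conj_mem h.sc hs ht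

theorem conjQ (_h : NS p S T E) (g : G) {q : G} (hq : q ∈ pCore p G) :
    g * q * g⁻¹ ∈ pCore p G := (pCore_normal' p G).conj_mem q hq g

theorem R_normal (h : NS p S T E) : (pCore p G ⊓ T).Normal :=
  ⟨fun x hx g => ⟨h.conjQ g hx.1, sc_conj h.sc hx.2 (h.QS (h.conjQ g hx.1))⟩⟩

theorem conjR (h : NS p S T E) (g : G) {x : G} (hx : x ∈ pCore p G ⊓ T) :
    g * x * g⁻¹ ∈ pCore p G ⊓ T := h.R_normal.conj_mem x hx g

/-- Elements of `T` centralize `Q / R`. -/
theorem T_centMod (h : NS p S T E) {t : G} (ht : t ∈ T) {q : G} (hq : q ∈ pCore p G) :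
    q⁻¹ * (t * q * t⁻¹) ∈ pCore p G ⊓ T := by
  refine ⟨Subgroup.mul_mem _ (Subgroup.inv_mem _ hq) (h.conjQ t hq), ?_⟩
  have h1 : q⁻¹ * (t * q * t⁻¹) = (q⁻¹ * t * q⁻¹⁻¹) * t⁻¹ := by group
  rw [h1]
  exact T.mul_mem (h.conjT ((S : Subgroup G).inv_mem (h.QS hq)) ht) (T.inv_mem ht)

variable [Finite G] [Fact p.Prime]

/-- `D = C_G(R) ∩ C_G(Q/R)` is contained in `Q`. -/
theorem D_le (h : NS p S T E) {d : G}
    (hd1 : d ∈ Subgroup.centralizer ((pCore p G ⊓ T : Subgroup G) : Set G))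
    (hd2 : ∀ q ∈ pCore p G, q⁻¹ * (d * q * d⁻¹) ∈ pCore p G ⊓ T) : d ∈ pCore p G := by
  haveI := h.R_normal
  haveI := pCore_normal' p G
  set D := Subgroup.centralizer ((pCore p G ⊓ T : Subgroup G) : Set G) ⊓
    centMod (pCore p G) (pCore p G ⊓ T) with hD
  have hDn : D.Normal := inferInstance
  have hDp : IsPGroup p D := by
    rintro ⟨x, hx⟩
    have hp : p.Prime := Fact.out
    obtain ⟨a, m, hm, hxm⟩ := Nat.exists_eq_pow_mul_and_not_dvd (orderOf_pos x).ne' p hp.ne_one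
    refine ⟨a, Subtype.ext ?_⟩
    show x ^ (p ^ a) = 1
    set y := x ^ (p ^ a) with hy
    have hyD : y ∈ D := D.pow_mem hx _
    have hym : y ^ m = 1 := by
      rw [hy, ← pow_mul, ← hxm]
      exact pow_orderOf_eq_one x
    have hcop : Nat.Coprime m p := ((Nat.Prime.coprime_iff_not_dvd hp).2 hm).symm
    have hyc : y ∈ Subgroup.centralizer ((pCore p G : Subgroup G) : Set G) := by
      rw [Subgroup.mem_centralizer_iff]
      intro q hq
      have hw := (mem_centMod _ _ y).1 hyD.2 q hq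
      have h1 : q⁻¹ * (y * q * y⁻¹) ∈ (⊥ : Subgroup G) := by
        obtain ⟨k, hk⟩ := (pCore_isPGroup' p G) ⟨_, hw.1⟩
        refine chain_lemma (p := p) (k := k) hym hcop ?_ ?_
        · rw [Subgroup.mem_bot]
          exact congrArg Subtype.val hk
        · rw [Subgroup.mem_bot]
          have h2 := (Subgroup.mem_centralizer_iff.1 hyD.1) _ hw
          rw [← h2]
          group
      rw [Subgroup.mem_bot] at h1
      calc q * y = q * (q⁻¹ * (y * q * y⁻¹)) * y := by rw [h1]; group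
        _ = y * q := by group
    obtain ⟨k, hk⟩ := (pCore_isPGroup' p G) ⟨y, h.hG hyc⟩
    have hk' : y ^ (p ^ k) = 1 := congrArg Subtype.val hk
    have h8 : orderOf y ∣ Nat.gcd m (p ^ k) :=
      Nat.dvd_gcd (orderOf_dvd_of_pow_eq_one hym) (orderOf_dvd_of_pow_eq_one hk')
    rw [Nat.Coprime.pow_right k hcop] at h8
    exact orderOf_eq_one_iff.1 (Nat.dvd_one.1 h8)
  exact le_pCore' hDn hDp ⟨hd1, (mem_centMod _ _ d).2 hd2⟩

/-- `C_T(R) ≤ R`. -/
theorem cent_R_le (h : NS p S T E) {x : G} (hx : x ∈ T)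
    (hxc : x ∈ Subgroup.centralizer ((pCore p G ⊓ T : Subgroup G) : Set G)) :
    x ∈ pCore p G ⊓ T :=
  ⟨h.D_le hxc (fun _ hq => h.T_centMod hx hq), hx⟩

theorem R_isNormal (h : NS p S T E) : E.IsNormal (pCore p G ⊓ T) :=
  haveI := pCore_normal' p G
  isNormal_inf_of_subsystem S.isPGroup' (Cfsg.Agent.S5102.result p S _ (pCore_isPGroup' p G))
    h.sat h.sub h.sc

theorem strongInv (h : NS p S T E) : StrongInvF E (groupFusionSystem (S : Subgroup G)) :=
  strongInvF_of_invariant h.invF h.fratF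

/-- Conjugating a map of `E` on a `G`-invariant... : if `c_g` on `P ≤ T` (with `c_g(P) ≤ P`) is in `E`, `k P k⁻¹ ≤ T`,
then `c_{k g k⁻¹}` on `k P k⁻¹` is in `E`. -/
theorem mor_conj_conj (h : NS p S T E) {P : Subgroup G} {g k : G}
    (hg : Mor E P (fun x => g * x * g⁻¹)) (hgP : ∀ x ∈ P, g * x * g⁻¹ ∈ P)
    (hk : ∀ x ∈ P, k * x * k⁻¹ ∈ (S : Subgroup G)) :
    Mor E (cj k P) (fun x => (k * g * k⁻¹) * x * (k * g * k⁻¹)⁻¹) := by
  have hP := hg.le
  obtain ⟨χ, hχ, e⟩ := h.strongInv P P _ (fun x => k * x * k⁻¹) le_rfl hP hg hgP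
    (mor_group_conj k (hP.trans h.TS) (cj_le_iff.2 hk)) (cj k P) (fun _ => Iff.rfl)
  refine hχ.congr (fun y hy => ?_)
  obtain ⟨x, hx, rfl⟩ := hy
  show χ (k * x * k⁻¹) = (k * g * k⁻¹) * (k * x * k⁻¹) * (k * g * k⁻¹)⁻¹
  rw [e x hx]
  group

end NS

end Cfsg.Agent.Lib.Helper87
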