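import Cfsg.Agent.Lib.Helper87.NIM2

set_option autoImplicit false

namespace Cfsg.Agent.Lib.Helper87

open Cfsg Cfsg.FusionSystem

variable {G : Type*} [Group G]

namespace NS

variable {p : ℕ} {S : Sylow p G} {T : Subgroup G} {E : FusionSystem T}

theorem mor_mul (h : NS p S T E) {a b : G}
    (ha : Mor E (pCore p G ⊓ T) (fun x => a * x * a⁻¹))
    (hb : Mor E (pCore p G ⊓ T) (fun x => b * x * b⁻¹)) :
    Mor E (pCore p G ⊓ T) (fun x => (a * b) * x * (a * b)⁻¹) :=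
  (hb.comp ha (fun _ hx => h.conjR b hx)).congr (fun x _ => by
    show a * (b * x * b⁻¹) * a⁻¹ = _
    group)

theorem mor_inv [Finite G] (h : NS p S T E) {a : G}
    (ha : Mor E (pCore p G ⊓ T) (fun x => a * x * a⁻¹)) :
    Mor E (pCore p G ⊓ T) (fun x => a⁻¹ * x * a⁻¹⁻¹) := by
  obtain ⟨g, hg, e1, -⟩ := (ha.iso_self (fun _ hx => h.conjR a hx)).symm
  refine hg.mor.congr (fun x hx => ?_)
  have h1 := e1 (a⁻¹ * x * a⁻¹⁻¹) (h.conjR a⁻¹ hx)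
  have h2 : a * (a⁻¹ * x * a⁻¹⁻¹) * a⁻¹ = x := by group
  rw [h2] at h1
  exact h1

/-- The subgroup `H₁ = {g | c_g|_R ∈ Aut_E(R), [Q, g] ≤ R}`. -/
def H1 [Finite G] (h : NS p S T E) : Subgroup G where
  carrier := {g | Mor E (pCore p G ⊓ T) (fun x => g * x * g⁻¹) ∧
    ∀ q ∈ pCore p G, q⁻¹ * (g * q * g⁻¹) ∈ pCore p G ⊓ T}
  mul_mem' := fun {a b} ha hb => ⟨h.mor_mul ha.1 hb.1, by
    have := h.R_normal
    exact (mem_centMod _ _ _).1 (Subgroup.mul_mem _ ((mem_centMod _ _ a).2 ha.2)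
      ((mem_centMod _ _ b).2 hb.2))⟩
  one_mem' := ⟨(mor_id E inf_le_right).congr (fun x _ => by simp), by
    have := h.R_normal
    exact (mem_centMod _ _ _).1 (Subgroup.one_mem _)⟩
  inv_mem' := fun {a} ha => ⟨h.mor_inv ha.1, by
    have := h.R_normal
    exact (mem_centMod _ _ _).1 (Subgroup.inv_mem _ ((mem_centMod _ _ a).2 ha.2))⟩

variable [Finite G]

theorem mem_H1 (h : NS p S T E) (g : G) : g ∈ h.H1 ↔
    Mor E (pCore p G ⊓ T) (fun x => g * x * g⁻¹) ∧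
      ∀ q ∈ pCore p G, q⁻¹ * (g * q * g⁻¹) ∈ pCore p G ⊓ T := Iff.rfl

variable [Fact p.Prime]

theorem H1_normal (h : NS p S T E) : h.H1.Normal := by
  have hR := h.R_normal
  have hQ := pCore_normal' p G
  refine ⟨fun g hg k => ⟨?_, ?_⟩⟩
  · have h1 := h.mor_conj_conj (k := k) hg.1 (fun _ hx => h.conjR g hx)
      (fun x hx => h.QS (h.conjR k hx).1)
    have h2 : cj k (pCore p G ⊓ T) = pCore p G ⊓ T :=
      cj_eq_self_of_mem_normalizer (by rw [Subgroup.normalizer_eq_top]; trivial)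
    rwa [h2] at h1
  · exact (mem_centMod _ _ _).1 ((centMod_normal _ _).conj_mem g ((mem_centMod _ _ g).2 hg.2) k)

theorem T_le_H1 (h : NS p S T E) : T ≤ h.H1 := fun _ ht =>
  ⟨mor_conj E inf_le_right ht, fun _ hq => h.T_centMod ht hq⟩

/-- `S ∩ H₁ = T D`. -/
theorem S_inf_H1 (h : NS p S T E) {s : G} (hs : s ∈ (S : Subgroup G)) (hs1 : s ∈ h.H1) :
    ∃ t ∈ T, ∃ d ∈ pCore p G, s = t * d ∧
      d ∈ Subgroup.centralizer ((pCore p G ⊓ T : Subgroup G) : Set G) := by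
  have : Finite T := inferInstance
  have hfa := (IsNormal.automized_receptive h.sat h.R_isNormal).1
  obtain ⟨α, hα, e⟩ := (hs1.1.iso_self (fun _ hx => h.conjR s hx)).exists_aut
  have h1 : α ∈ autInducedBy S (pCore p G ⊓ T) ⊓ E.autGroup (pCore p G ⊓ T) :=
    ⟨(mem_autInducedBy_iff _ _ α).2 ⟨s, hs, e⟩, hα⟩
  rw [autS_inf_autE S.isPGroup' h.TS hfa] at h1
  obtain ⟨t, ht, e'⟩ := (mem_autInducedBy_iff _ _ α).1 h1
  have hdc : t⁻¹ * s ∈ Subgroup.centralizer ((pCore p G ⊓ T : Subgroup G) : Set G) := by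
    rw [Subgroup.mem_centralizer_iff]
    intro x hx
    have h2 : s * x * s⁻¹ = t * x * t⁻¹ := (e ⟨x, hx⟩).symm.trans (e' ⟨x, hx⟩)
    calc x * (t⁻¹ * s) = t⁻¹ * (t * x * t⁻¹) * s := by group
      _ = t⁻¹ * s * x := by rw [← h2]; group
  have hd1 : t⁻¹ * s ∈ h.H1 := h.H1.mul_mem (h.H1.inv_mem (h.T_le_H1 ht)) hs1
  exact ⟨t, ht, t⁻¹ * s, h.D_le hdc hd1.2, by group, hdc⟩

/-- The focal-type elements of `S ∩ H₁` under `H₁` lie in `T`. -/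
theorem comm_mem_T (h : NS p S T E) {x g : G} (hx : x ∈ (S : Subgroup G)) (hx1 : x ∈ h.H1)
    (hg : g ∈ h.H1) (hgx : g * x * g⁻¹ ∈ (S : Subgroup G)) : x⁻¹ * (g * x * g⁻¹) ∈ T := by
  obtain ⟨t, ht, d, hd, rfl, -⟩ := h.S_inf_H1 hx hx1
  have hd' : g * d * g⁻¹ ∈ pCore p G := h.conjQ g hd
  have ht' : g * t * g⁻¹ ∈ T := by
    refine sc_conj h.sc ht ?_
    have h1 : g * t * g⁻¹ = (g * (t * d) * g⁻¹) * (g * d * g⁻¹)⁻¹ := by group
    rw [h1]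
    exact Subgroup.mul_mem _ hgx (Subgroup.inv_mem _ (h.QS hd'))
  have h2 : (t * d)⁻¹ * (g * (t * d) * g⁻¹) =
      (d⁻¹ * (t⁻¹ * (g * t * g⁻¹)) * d⁻¹⁻¹) * (d⁻¹ * (g * d * g⁻¹)) := by group
  rw [h2]
  exact T.mul_mem (h.conjT (Subgroup.inv_mem _ (h.QS hd)) (T.mul_mem (T.inv_mem ht) ht'))
    (hg.2 d hd).2

/-- `O^p(H₁)` as a subgroup of `G`. -/
def OH (h : NS p S T E) : Subgroup G := (pResidual p h.H1).map h.H1.subtype

theorem OH_eq (h : NS p S T E) :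
    h.OH = Subgroup.closure {x : G | x ∈ h.H1 ∧ Nat.Coprime (orderOf x) p} :=
  Cfsg.Agent.Lib.Helper2.map_pResidual_subtype p h.H1

theorem OH_le (h : NS p S T E) : h.OH ≤ h.H1 := by
  rintro _ ⟨y, -, rfl⟩
  exact y.2

theorem mem_OH (h : NS p S T E) {g : G} (hg : g ∈ h.H1) (hc : Nat.Coprime (orderOf g) p) :
    g ∈ h.OH := by
  rw [h.OH_eq]
  exact Subgroup.subset_closure ⟨hg, hc⟩

theorem OH_normal (h : NS p S T E) : h.OH.Normal := by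
  rw [h.OH_eq]
  refine Cfsg.Agent.Lib.Helper2.closure_normal_of_conj_invariant _ (fun g x hx => ⟨?_, ?_⟩)
  · exact h.H1_normal.conj_mem x hx.1 g
  · rw [Cfsg.Agent.Lib.Helper2.orderOf_conj]
    exact hx.2

theorem S_inf_OH_le (h : NS p S T E) : (S : Subgroup G) ⊓ h.OH ≤ T := by
  have := h.H1_normal
  rintro _ ⟨hxS, y, hy, rfl⟩
  have h1 : y ∈ ((Cfsg.Agent.Lib.Helper2.sylowInfNormal S h.H1 : Sylow p h.H1) :
      Subgroup h.H1) ⊓ pResidual p h.H1 := ⟨hxS, hy⟩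
  have h2 := inf_pResidual_le_hyperfocal _ h1
  have h3 : (groupFusionSystem ((Cfsg.Agent.Lib.Helper2.sylowInfNormal S h.H1 : Sylow p h.H1) :
      Subgroup h.H1)).hyperfocalSubgroup p ≤ T.subgroupOf h.H1 := by
    refine (Subgroup.closure_le _).2 ?_
    rintro _ ⟨P, α, x, hP, -, rfl⟩
    have hα := (mem_autGroup_iff _ hP α.1).1 α.2
    obtain ⟨-, g, hg⟩ := (mor_group_iff _ _ _).1 hα
    have h4 := hg x x.2
    rw [autFun_coe] at h4
    show (((x : h.H1)⁻¹ * ((α : MulAut P) x : P) : h.H1) : G) ∈ T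
    rw [h4.1]
    exact h.comm_mem_T (x := ((x : h.H1) : G)) (g := (g : G)) (hP x.2) (x : h.H1).2 g.2 h4.2
  exact h3 h2

/-- The candidate `H = T O^p(H₁)`. -/
def H (h : NS p S T E) : Subgroup G := T ⊔ h.OH

theorem T_le_H (h : NS p S T E) : T ≤ h.H := le_sup_left

theorem OH_le_H (h : NS p S T E) : h.OH ≤ h.H := le_sup_right

theorem H_le_H1 (h : NS p S T E) : h.H ≤ h.H1 := sup_le h.T_le_H1 h.OH_le

theorem mem_H (h : NS p S T E) {x : G} (hx : x ∈ h.H) : ∃ t ∈ T, ∃ o ∈ h.OH, x = t * o :=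
  mem_sup_of_normalizes (fun a _ b hb => h.OH_normal.conj_mem b hb a) hx

theorem S_inf_H (h : NS p S T E) : T = (S : Subgroup G) ⊓ h.H := by
  refine le_antisymm (le_inf h.TS h.T_le_H) ?_
  rintro x ⟨hxS, hxH⟩
  obtain ⟨t, ht, o, ho, rfl⟩ := h.mem_H hxH
  have h1 : o ∈ (S : Subgroup G) := by
    have h2 : o = t⁻¹ * (t * o) := by group
    rw [h2]
    exact Subgroup.mul_mem _ (Subgroup.inv_mem _ (h.TS ht)) hxS
  exact T.mul_mem ht (h.S_inf_OH_le ⟨h1, ho⟩)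

theorem H1_eq (h : NS p S T E) {g : G} (hg : g ∈ h.H1) :
    ∃ w ∈ h.OH, ∃ y ∈ (S : Subgroup G) ⊓ h.H1, g = w * y := by
  have := h.H1_normal
  obtain ⟨w, hw, y, hy, e⟩ := Cfsg.Agent.Lib.Helper2.exists_mul_of_sylow_pResidual
    (Cfsg.Agent.Lib.Helper2.sylowInfNormal S h.H1) ⟨g, hg⟩
  exact ⟨w, ⟨w, hw, rfl⟩, y, ⟨hy, y.2⟩, congrArg Subtype.val e⟩

theorem conj_T_le_H (h : NS p S T E) {g t : G} (ht : t ∈ T) : g * t * g⁻¹ ∈ h.H := by
  have hn := h.H1_normal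
  have hOn := h.OH_normal
  have key : ∀ k ∈ h.H1, ∀ t ∈ T, k * t * k⁻¹ ∈ h.H := by
    intro k hk t ht
    obtain ⟨w, hw, y, hy, rfl⟩ := h.H1_eq hk
    have h1 : y * t * y⁻¹ ∈ T := h.conjT hy.1 ht
    have h2 : w * y * t * (w * y)⁻¹ =
        (y * t * y⁻¹) * (((y * t * y⁻¹)⁻¹ * w * (y * t * y⁻¹)⁻¹⁻¹) * w⁻¹) := by group
    rw [h2]
    exact h.H.mul_mem (h.T_le_H h1) (h.OH_le_H (h.OH.mul_mem (hOn.conj_mem w hw _)
      (h.OH.inv_mem hw)))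
  obtain ⟨k, hk, hkn⟩ := frattini_rel (isSylIn_inf_normal S h.H1) (g := g)
    (fun x hx => hn.conj_mem x hx g)
  have h1 : (k * g) * t * (k * g)⁻¹ ∈ (S : Subgroup G) ⊓ h.H1 :=
    (Subgroup.mem_normalizer_iff.1 hkn t).1 ⟨h.TS ht, h.T_le_H1 ht⟩
  have h2 : (k * g) * t * (k * g)⁻¹ ∈ T := sc_conj h.sc ht h1.1
  have h3 : g * t * g⁻¹ = k⁻¹ * ((k * g) * t * (k * g)⁻¹) * k⁻¹⁻¹ := by group
  rw [h3]
  exact key _ (h.H1.inv_mem hk) _ h2

theorem H_normal (h : NS p S T E) : h.H.Normal := by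
  refine ⟨fun x hx g => ?_⟩
  obtain ⟨t, ht, o, ho, rfl⟩ := h.mem_H hx
  have h1 : g * (t * o) * g⁻¹ = (g * t * g⁻¹) * (g * o * g⁻¹) := by group
  rw [h1]
  exact h.H.mul_mem (h.conj_T_le_H ht) (h.OH_le_H (h.OH_normal.conj_mem o ho g))

theorem T_sylIn_H (h : NS p S T E) : IsSylIn p T h.H := by
  have := h.H_normal
  have h1 := isSylIn_inf_normal S h.H
  rwa [← h.S_inf_H] at h1

end NS

end Cfsg.Agent.Lib.Helper87
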