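import Cfsg.Agent.Lib.Helper87.NIM3
import Cfsg.Agent.Lib.Helper87.SatCrit
import Cfsg.Agent.Lib.Helper87.NormalSubgroupSystem

set_option autoImplicit false

namespace Cfsg.Agent.Lib.Helper87

open Cfsg Cfsg.FusionSystem

variable {G : Type*} [Group G]

theorem mor_cj_mul {T P : Subgroup G} {E : FusionSystem T} {a b : G}
    (ha : Mor E P (fun x => a * x * a⁻¹)) (hb : Mor E P (fun x => b * x * b⁻¹))
    (hbP : ∀ x ∈ P, b * x * b⁻¹ ∈ P) : Mor E P (fun x => (a * b) * x * (a * b)⁻¹) :=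
  (hb.comp ha hbP).congr (fun x _ => by
    show a * (b * x * b⁻¹) * a⁻¹ = _
    group)

theorem mor_cj_inv {T P : Subgroup G} [Finite P] {E : FusionSystem T} {a : G}
    (ha : Mor E P (fun x => a * x * a⁻¹)) (haP : ∀ x ∈ P, a * x * a⁻¹ ∈ P) :
    Mor E P (fun x => a⁻¹ * x * a⁻¹⁻¹) := by
  have hiso := ha.iso_self haP
  obtain ⟨g, hg, e1, -⟩ := hiso.symm
  refine hg.mor.congr (fun x hx => ?_)
  obtain ⟨y, hy, rfl⟩ := hiso.surj hx
  rw [e1 y hy]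
  group

/-- The condition on `g` in the extension condition. -/
def GoodExt (S T : Subgroup G) (g : G) : Prop :=
  g ∈ Subgroup.normalizer (T : Set G) ∧
    ∀ c ∈ centralizerIn S T, c⁻¹ * (g * c * g⁻¹) ∈ T ⊓ Subgroup.centralizer (T : Set G)

theorem GoodExt.one (S T : Subgroup G) : GoodExt S T 1 :=
  ⟨Subgroup.one_mem _, fun c _ => by simp⟩

theorem GoodExt.mul [Finite G] {S T : Subgroup G} {a b : G} (ha : GoodExt S T a) (hb : GoodExt S T b) :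
    GoodExt S T (a * b) := by
  refine ⟨Subgroup.mul_mem _ ha.1 hb.1, fun c hc => ?_⟩
  have h1 := hb.2 c hc
  have h2 : c⁻¹ * (a * b * c * (a * b)⁻¹) =
      (c⁻¹ * (a * c * a⁻¹)) * (a * (c⁻¹ * (b * c * b⁻¹)) * a⁻¹) := by group
  rw [h2]
  exact Subgroup.mul_mem _ (ha.2 c hc) ⟨(Subgroup.mem_normalizer_iff.1 ha.1 _).1 h1.1,
    conj_mem_centralizer_of_normalizer ha.1 h1.2⟩

theorem GoodExt.pow [Finite G] {S T : Subgroup G} {a : G} (ha : GoodExt S T a) (n : ℕ) :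
    GoodExt S T (a ^ n) := by
  induction n with
  | zero => simpa using GoodExt.one S T
  | succ n ih => rw [pow_succ]; exact ih.mul ha

namespace NS

variable {p : ℕ} {S : Sylow p G} {T : Subgroup G} {E : FusionSystem T} [Finite G] [Fact p.Prime]

theorem T_fa (h : NS p S T E) : E.IsFullyAutomized p T :=
  fullyNormalized_fullyAutomized h.Tp h.sat (fullyNormalized_top E)

theorem S_aut_T (h : NS p S T E) {w : G} (hw : w ∈ (S : Subgroup G))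
    (hm : Mor E T (fun x => w * x * w⁻¹)) : ∃ t ∈ T, ∀ x ∈ T, w * x * w⁻¹ = t * x * t⁻¹ := by
  obtain ⟨α, hα, e⟩ := (hm.iso_self (fun _ hx => h.conjT hw hx)).exists_aut
  have h1 : α ∈ autInducedBy S T ⊓ E.autGroup T :=
    ⟨(mem_autInducedBy_iff _ _ α).2 ⟨w, hw, e⟩, hα⟩
  rw [autS_inf_autE S.isPGroup' h.TS h.T_fa] at h1
  obtain ⟨t, ht, e'⟩ := (mem_autInducedBy_iff _ _ α).1 h1
  exact ⟨t, ht, fun x hx => (e ⟨x, hx⟩).symm.trans (e' ⟨x, hx⟩)⟩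

/-- An automorphism in `Aut_E(T)` of order prime to `p` is induced by an element of `O^p(H₁)`. -/
theorem coprime_aut_induced (h : NS p S T E) {α : MulAut T} (hα : α ∈ E.autGroup T)
    (hc : Nat.Coprime (orderOf α) p) : ∃ g ∈ h.OH, ∀ x : T, ((α x : T) : G) = g * x * g⁻¹ := by
  obtain ⟨β, hβ, e1, e2⟩ := h.hE.2 α hα
  have hTC : T ⊔ centralizerIn S T ≤ (S : Subgroup G) := sup_le h.TS (centralizerIn_le _ _)
  obtain ⟨-, g₀, hg₀⟩ := (mor_group_iff _ _ _).1 ((mem_autGroup_iff _ hTC β).1 hβ)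
  have eT : ∀ x : T, ((α x : T) : G) = g₀ * x * g₀⁻¹ := by
    intro x
    rw [← e1 x, ← autFun_coe β, (hg₀ _ (Subtype.prop _)).1]
    rfl
  have hgood₀ : GoodExt (S : Subgroup G) T g₀ := by
    refine ⟨mem_normalizer_of_induces eT, fun c hc => ?_⟩
    have hc' : c ∈ T ⊔ centralizerIn S T := (le_sup_right : _ ≤ T ⊔ centralizerIn S T) hc
    have h1 := e2 ⟨c, hc'⟩ hc
    rw [← autFun_coe β, (hg₀ _ hc').1] at h1
    exact h1
  obtain ⟨n, hn, e⟩ := exists_coprime_pow_inducing hc eT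
  have hgood := hgood₀.pow n
  set g := g₀ ^ n with hg
  have hgT : ∀ x ∈ T, g * x * g⁻¹ ∈ T := fun x hx => (Subgroup.mem_normalizer_iff.1 hgood.1 x).1 hx
  have hmT : Mor E T (fun x => g * x * g⁻¹) :=
    ((mem_autGroup_iff E le_rfl α).1 hα).congr (fun x hx => by rw [autFun_apply α hx, e])
  refine ⟨g, h.mem_OH ⟨hmT.mono inf_le_right, fun q hq => ?_⟩ hn, e⟩
  have hR := h.R_normal
  have hwQ : q⁻¹ * (g * q * g⁻¹) ∈ pCore p G :=
    Subgroup.mul_mem _ (Subgroup.inv_mem _ hq) (h.conjQ g hq)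
  obtain ⟨k, hk⟩ := (pCore_isPGroup' p G) ⟨_, hwQ⟩
  have hk' : (q⁻¹ * (g * q * g⁻¹)) ^ (p ^ k) = 1 := congrArg Subtype.val hk
  refine chain_lemma (p := p) (k := k) (pow_orderOf_eq_one g) hn ?_ ?_
  · rw [hk']
    exact Subgroup.one_mem _
  · set w := q⁻¹ * (g * q * g⁻¹) with hw
    refine ⟨Subgroup.mul_mem _ (Subgroup.inv_mem _ hwQ) (h.conjQ g hwQ), ?_⟩
    have hq' : q⁻¹ ∈ (S : Subgroup G) := Subgroup.inv_mem _ (h.QS hq)
    have h1 := h.mor_conj_conj (k := q⁻¹) hmT hgT (fun x hx => h.TS (h.conjT hq' hx))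
    have h2 : cj q⁻¹ T = T :=
      cj_eq_self_of_mem_normalizer (StronglyClosed.le_normalizer h.sc hq')
    rw [h2] at h1
    have hinv := mor_cj_inv hmT hgT
    have hginv : ∀ x ∈ T, g⁻¹ * x * g⁻¹⁻¹ ∈ T := fun x hx =>
      (Subgroup.mem_normalizer_iff.1 (Subgroup.inv_mem _ hgood.1) x).1 hx
    have h3 := mor_cj_mul h1 hinv hginv
    have h4 : q⁻¹ * g * q⁻¹⁻¹ * g⁻¹ = w := by rw [hw]; group
    rw [h4] at h3
    obtain ⟨t, ht, et⟩ := h.S_aut_T (h.QS hwQ) h3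
    have hcS : t⁻¹ * w ∈ centralizerIn S T := by
      rw [mem_centralizerIn_iff]
      refine ⟨Subgroup.mul_mem _ (Subgroup.inv_mem _ (h.TS ht)) (h.QS hwQ), fun x hx => ?_⟩
      calc x * (t⁻¹ * w) = t⁻¹ * (t * x * t⁻¹) * w := by group
        _ = t⁻¹ * w * x := by rw [← et x hx]; group
    have h5 := (hgood.2 _ hcS).1
    have h6 : ∀ x ∈ T, (t⁻¹ * w)⁻¹ * x * (t⁻¹ * w) = x := by
      intro x hx
      have := ((mem_centralizerIn_iff _ _ _).1 hcS).2 x hx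
      calc (t⁻¹ * w)⁻¹ * x * (t⁻¹ * w) = (t⁻¹ * w)⁻¹ * (x * (t⁻¹ * w)) := by group
        _ = x := by rw [this]; group
    have h7 : w⁻¹ * (g * w * g⁻¹) = ((t⁻¹ * w)⁻¹ * (t⁻¹ * (g * t * g⁻¹)) * (t⁻¹ * w)) *
        ((t⁻¹ * w)⁻¹ * (g * (t⁻¹ * w) * g⁻¹)) := by group
    rw [h7, h6 _ (T.mul_mem (T.inv_mem ht) (hgT t ht))]
    exact T.mul_mem (T.mul_mem (T.inv_mem ht) (hgT t ht)) h5

end NS

end Cfsg.Agent.Lib.Helper87
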