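import Cfsg.Agent.Lib.Helper87.NIM4

set_option autoImplicit false

namespace Cfsg.Agent.Lib.Helper87

open Cfsg Cfsg.FusionSystem

variable {G : Type*} [Group G]

theorem invariant_of_eq [Finite G] {p : ℕ} [Fact p.Prime] (S : Sylow p G) {H T : Subgroup G}
    [H.Normal] (hT : T = (S : Subgroup G) ⊓ H) (hTH : T ≤ H) :
    (fusionSystemOfSubgroup H T hTH).IsInvariantIn (groupFusionSystem (S : Subgroup G)) := by
  subst hT
  exact invariant_normal_subgroup S H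

theorem hom_eq_of_mor_iff {T : Subgroup G} {E E' : FusionSystem T}
    (h : ∀ P f, Mor E P f ↔ Mor E' P f) (P : Subgroup G) : E.Hom P = E'.Hom P := by
  ext φ
  constructor
  · intro hφ
    exact ((h P _).1 (Mor.of_hom hφ)).mem_hom (fun x => (ext_coe φ x).symm)
  · intro hφ
    exact ((h P _).2 (Mor.of_hom hφ)).mem_hom (fun x => (ext_coe φ x).symm)

theorem mor_iff_of_hom_eq {T : Subgroup G} {E E' : FusionSystem T}
    (h : ∀ P, E.Hom P = E'.Hom P) (P : Subgroup G) (f : G → G) : Mor E P f ↔ Mor E' P f := by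
  constructor
  · rintro ⟨φ, hφ, e⟩
    exact ⟨φ, h P ▸ hφ, e⟩
  · rintro ⟨φ, hφ, e⟩
    exact ⟨φ, h P ▸ hφ, e⟩

namespace NS

variable {p : ℕ} {S : Sylow p G} {T : Subgroup G} {E : FusionSystem T} [Finite G] [Fact p.Prime]

theorem residual_le (h : NS p S T E) :
    (pResidual p (E.autGroup T)).map (E.autGroup T).subtype ≤ autInducedBy h.OH T := by
  rw [Cfsg.Agent.Lib.Helper2.map_pResidual_subtype]
  refine (Subgroup.closure_le _).2 ?_
  rintro α ⟨hα, hc⟩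
  exact (mem_autInducedBy_iff _ _ α).2 (h.coprime_aut_induced hα hc)

/-- `Aut_E(T) ≤ Aut_H(T)`. -/
theorem aut_E_le (h : NS p S T E) {α : MulAut T} (hα : α ∈ E.autGroup T) :
    ∃ g ∈ h.H, ∀ x : T, ((α x : T) : G) = g * x * g⁻¹ := by
  obtain ⟨w, hw, s, hs, e⟩ := aut_eq_residual_mul_conj h.T_fa hα
  obtain ⟨g, hg, eg⟩ := (mem_autInducedBy_iff _ _ _).1 (h.residual_le ⟨w, hw, rfl⟩)
  have hsT : s ∈ T := (normalizerIn_le T T) hs
  refine ⟨g * s, h.H.mul_mem (h.OH_le_H hg) (h.T_le_H hsT), fun x => ?_⟩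
  have hx : s * x * s⁻¹ ∈ T := T.mul_mem (T.mul_mem hsT x.2) (T.inv_mem hsT)
  rw [e x, autFun_apply _ hx]
  have := eg ⟨_, hx⟩
  rw [show (((E.autGroup T).subtype w) : MulAut T) = (w : MulAut T) from rfl] at this
  rw [this]
  group

/-- `Aut_H(T) ≤ Aut_E(T)`. -/
theorem aut_H_le (h : NS p S T E) {k : G} (hk : k ∈ h.H)
    (hkT : k ∈ Subgroup.normalizer (T : Set G)) : Mor E T (fun x => k * x * k⁻¹) := by
  have hk1 := h.H_le_H1 hk
  have hkT' : ∀ x ∈ T, k * x * k⁻¹ ∈ T := fun x hx => (Subgroup.mem_normalizer_iff.1 hkT x).1 hx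
  have hrec := (IsNormal.automized_receptive h.sat h.R_isNormal).2
  have hR := h.R_normal
  obtain ⟨f', hf', ef⟩ := receptive_extend hrec (hk1.1.iso_self (fun _ hx => h.conjR k hx)) T le_rfl
    (by rw [Subgroup.normalizer_eq_top]; exact le_top)
    (fun g hg => ⟨k * g * k⁻¹, hkT' g hg, fun x _ => by group⟩)
  rw [sup_eq_right.2 inf_le_right] at hf'
  obtain ⟨α, hα, eα⟩ := (hf'.iso_self (fun _ hx => hf'.mem hx)).exists_aut
  obtain ⟨g, hg, eg⟩ := h.aut_E_le hα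
  have hgm : Mor E T (fun x => g * x * g⁻¹) :=
    hf'.congr (fun x hx => (eα ⟨x, hx⟩).symm.trans (eg ⟨x, hx⟩))
  have huH : g⁻¹ * k ∈ h.H := h.H.mul_mem (h.H.inv_mem hg) hk
  have huc : g⁻¹ * k ∈ Subgroup.centralizer ((pCore p G ⊓ T : Subgroup G) : Set G) := by
    rw [Subgroup.mem_centralizer_iff]
    intro x hx
    have h2 : k * x * k⁻¹ = g * x * g⁻¹ := by
      rw [← ef x hx]
      exact (eα ⟨x, hx.2⟩).symm.trans (eg ⟨x, hx.2⟩)
    calc x * (g⁻¹ * k) = g⁻¹ * (g * x * g⁻¹) * k := by group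
      _ = g⁻¹ * k * x := by rw [← h2]; group
  have huT : g⁻¹ * k ∈ T := by
    rw [h.S_inf_H]
    exact ⟨h.QS (h.D_le huc (h.H_le_H1 huH).2), huH⟩
  have h3 := mor_cj_mul hgm (mor_conj E le_rfl huT)
    (fun x hx => T.mul_mem (T.mul_mem huT hx) (T.inv_mem huT))
  have h4 : g * (g⁻¹ * k) = k := by group
  rwa [h4] at h3

theorem mor_iff_H (h : NS p S T E) (P : Subgroup G) (f : G → G) :
    Mor E P f ↔ Mor (fusionSystemOfSubgroup h.H T h.T_le_H) P f := by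
  have hn := h.H_normal
  have hinv := (isInvariantIn_iff _ _).1 (invariant_of_eq S h.S_inf_H h.T_le_H)
  constructor
  · refine subsystem_of_autT_le h.Tp h.sat h.sub hinv.2.2.2 (fun a ha => ?_) P f
    obtain ⟨α, hα, eα⟩ := ha.exists_aut
    obtain ⟨g, hg, eg⟩ := h.aut_E_le hα
    refine (mor_subgroup_iff _ _ _ _ _).2 ⟨le_rfl, g, hg, fun x hx => ?_⟩
    have h1 : a x = g * x * g⁻¹ := (eα ⟨x, hx⟩).symm.trans (eg ⟨x, hx⟩)
    exact ⟨h1, h1 ▸ ha.map_mem hx⟩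
  · refine subsystem_of_autT_le h.Tp (saturated_subgroup h.T_sylIn_H) hinv.1 h.fratF
      (fun a ha => ?_) P f
    obtain ⟨-, g, hg, e⟩ := (mor_subgroup_iff _ _ _ _ _).1 ha.mor
    have hgn : g ∈ Subgroup.normalizer (T : Set G) :=
      mem_normalizer_of_cj_le (cj_le_iff.2 (fun x hx => (e x hx).2))
    exact (h.aut_H_le hg hgn).congr (fun x hx => (e x hx).1.symm)

/-- Uniqueness. -/
theorem H_unique (h : NS p S T E) {H' : Subgroup G} (hTH' : T ≤ H') (hn : H'.Normal)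
    (hsyl : IsSylIn p T H')
    (hm : ∀ P f, Mor E P f ↔ Mor (fusionSystemOfSubgroup H' T hTH') P f) : H' = h.H := by
  have hQH : pCore p G ⊓ H' ≤ T := by
    obtain ⟨x, hx, e⟩ := hsyl.exists_conj (inf_le_right : pCore p G ⊓ H' ≤ H')
      ((pCore_isPGroup' p G).to_le inf_le_left)
    intro y hy
    have h1 := e (x⁻¹ * y * x⁻¹⁻¹) ⟨h.conjQ _ hy.1, hn.conj_mem y hy.2 _⟩
    have h2 : x * (x⁻¹ * y * x⁻¹⁻¹) * x⁻¹ = y := by group
    rwa [h2] at h1
  have h1 : H' ≤ h.H1 := by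
    intro g hg
    refine ⟨(hm _ _).2 ((mor_subgroup_iff _ _ _ _ _).2 ⟨inf_le_right, g, hg, fun x hx =>
      ⟨rfl, (h.conjR g hx).2⟩⟩), fun q hq => ?_⟩
    have hwQ : q⁻¹ * (g * q * g⁻¹) ∈ pCore p G :=
      Subgroup.mul_mem _ (Subgroup.inv_mem _ hq) (h.conjQ g hq)
    refine ⟨hwQ, hQH ⟨hwQ, ?_⟩⟩
    have h2 : q⁻¹ * (g * q * g⁻¹) = (q⁻¹ * g * q⁻¹⁻¹) * g⁻¹ := by group
    rw [h2]
    exact H'.mul_mem (hn.conj_mem g hg _) (H'.inv_mem hg)
  have h2 : h.OH ≤ H' := by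
    rw [h.OH_eq]
    refine (Subgroup.closure_le _).2 ?_
    rintro g ⟨hg, hc⟩
    obtain ⟨-, k, hk, e⟩ := (mor_subgroup_iff _ _ _ _ _).1 ((hm _ _).1 hg.1)
    have hd1 : k⁻¹ * g ∈ h.H1 := h.H1.mul_mem (h.H1.inv_mem (h1 hk)) hg
    have hdc : k⁻¹ * g ∈ Subgroup.centralizer ((pCore p G ⊓ T : Subgroup G) : Set G) := by
      rw [Subgroup.mem_centralizer_iff]
      intro x hx
      have h2 : g * x * g⁻¹ = k * x * k⁻¹ := (e x hx).1
      calc x * (k⁻¹ * g) = k⁻¹ * (k * x * k⁻¹) * g := by group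
        _ = k⁻¹ * g * x := by rw [← h2]; group
    obtain ⟨j, hj⟩ := (pCore_isPGroup' p G) ⟨_, h.D_le hdc hd1.2⟩
    have hj' : (k⁻¹ * g) ^ (p ^ j) = 1 := congrArg Subtype.val hj
    set π := QuotientGroup.mk' H' with hπ
    have h3 : π g = π (k⁻¹ * g) := by
      have hk1 : π k = 1 := (QuotientGroup.eq_one_iff k).2 hk
      rw [map_mul, map_inv, hk1]
      simp
    have h4 : (π g) ^ (p ^ j) = 1 := by rw [h3, ← map_pow, hj', map_one]
    have h5 : (π g) ^ (orderOf g) = 1 := by rw [← map_pow, pow_orderOf_eq_one, map_one]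
    have h6 : orderOf (π g) ∣ Nat.gcd (orderOf g) (p ^ j) :=
      Nat.dvd_gcd (orderOf_dvd_of_pow_eq_one h5) (orderOf_dvd_of_pow_eq_one h4)
    rw [Nat.Coprime.pow_right j hc] at h6
    exact (QuotientGroup.eq_one_iff g).1 (orderOf_eq_one_iff.1 (Nat.dvd_one.1 h6))
  refine le_antisymm ?_ (sup_le hTH' h2)
  intro g hg
  obtain ⟨w, hw, y, hy, e⟩ := Cfsg.Agent.Lib.Helper2.exists_mul_of_sylow_pResidual
    hsyl.toSylow ⟨g, hg⟩
  have e' : g = (w : G) * (y : G) := congrArg Subtype.val e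
  rw [e']
  refine h.H.mul_mem (h.OH_le_H ?_) (h.T_le_H hy)
  have h3 : (w : G) ∈ (pResidual p H').map H'.subtype := ⟨w, hw, rfl⟩
  rw [Cfsg.Agent.Lib.Helper2.map_pResidual_subtype] at h3
  rw [h.OH_eq]
  refine Subgroup.closure_mono ?_ h3
  rintro x ⟨hx1, hx2⟩
  exact ⟨h1 hx1, hx2⟩

end NS

end Cfsg.Agent.Lib.Helper87
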