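import Cfsg.Agent.Lib.Helper31.PSolv
import Cfsg.Agent.Lib.Helper80.PSolv
import Cfsg.Agent.Lib.Helper73.PSolvSub
import Cfsg.Agent.Lib.Helper66.PComplement
import Cfsg.Agent.Lib.Helper28.Cores

set_option autoImplicit false

/-! Group-theoretic closure properties of `p`-solubility. -/

namespace Cfsg.Agent.Lib.Helper87

open Cfsg

universe u

/-- `p`-solubility is closed under extensions. -/
theorem psolv_ext {p : ℕ} [hp : Fact p.Prime] : ∀ (n : ℕ) (G : Type u) [Group G] [Finite G]
    (N : Subgroup G) [N.Normal], Nat.card G = n → IsPSolvable p N → IsPSolvable p (G ⧸ N) →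
    IsPSolvable p G := by
  intro n
  induction n using Nat.strong_induction_on with
  | _ n ih =>
  intro G _ _ N hN hn hNs hQ
  by_cases hbot : N = ⊥
  · subst hbot
    exact Helper80.isPSolvable_of_surjective hp.out (QuotientGroup.quotientBot (G := G)).toMonoidHom
      (QuotientGroup.quotientBot (G := G)).surjective hQ
  have hnt : Nontrivial N := (Subgroup.nontrivial_iff_ne_bot N).2 hbot
  obtain ⟨M₀, hM₀n, hM₀, hM₀p⟩ := Helper66.exists_normal_of_isPSolvable hNs
  obtain ⟨C, hCchar, hCne, hCcard⟩ : ∃ C : Subgroup N, C.Characteristic ∧ C ≠ ⊥ ∧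
      ((∃ m : ℕ, Nat.card C = p ^ m) ∨ (Nat.card C).Coprime p) := by
    rcases hM₀p with h | h
    · refine ⟨pCore p N, Helper28.pCore_characteristic p, fun hb => hM₀ ?_,
        Or.inl (Helper28.pCore_isPGroup p).exists_card_eq⟩
      exact le_bot_iff.1 (hb ▸ Helper28.le_pCore hM₀n h)
    · refine ⟨pPrimeCore p N, Helper28.pPrimeCore_characteristic p, fun hb => hM₀ ?_,
        Or.inr (Helper28.pPrimeCore_coprime p)⟩
      exact le_bot_iff.1 (hb ▸ Helper28.le_pPrimeCore hM₀n h)
  have hMn : (C.map N.subtype).Normal := ConjAct.normal_of_characteristic_of_normal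
  have hMcard : Nat.card (C.map N.subtype) = Nat.card C :=
    Subgroup.card_map_of_injective N.subtype_injective
  have hMle : C.map N.subtype ≤ N := Subgroup.map_subtype_le C
  have hMne : C.map N.subtype ≠ ⊥ := by
    intro h
    exact hCne ((Subgroup.map_eq_bot_iff_of_injective C N.subtype_injective).1 h)
  have hlt : Nat.card (G ⧸ C.map N.subtype) < n := by
    have h1 := Subgroup.card_eq_card_quotient_mul_card_subgroup (C.map N.subtype)
    have h2 : 1 < Nat.card (C.map N.subtype) := (Subgroup.one_lt_card_iff_ne_bot _).2 hMne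
    have h3 : 0 < Nat.card (G ⧸ C.map N.subtype) := Nat.card_pos
    rw [← hn, h1]
    nlinarith
  have hN' : IsPSolvable p (N.map (QuotientGroup.mk' (C.map N.subtype))) :=
    Helper80.isPSolvable_of_surjective hp.out ((QuotientGroup.mk' (C.map N.subtype)).subgroupMap N)
      (MonoidHom.subgroupMap_surjective _ _) hNs
  have hQ' : IsPSolvable p ((G ⧸ C.map N.subtype) ⧸ N.map (QuotientGroup.mk' (C.map N.subtype))) :=
    Helper80.isPSolvable_of_surjective hp.out
      (QuotientGroup.quotientQuotientEquivQuotient (C.map N.subtype) N hMle).symm.toMonoidHom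
      (QuotientGroup.quotientQuotientEquivQuotient (C.map N.subtype) N hMle).symm.surjective hQ
  have h3 := ih _ hlt (G ⧸ C.map N.subtype) (N.map (QuotientGroup.mk' (C.map N.subtype))) rfl hN' hQ'
  exact Helper31.isPSolvable_of_quotient p (C.map N.subtype) (by rw [hMcard]; exact hCcard) h3

/-- A group of order a power of `p` or prime to `p` is `p`-soluble. -/
theorem psolv_of_card {p : ℕ} {G : Type u} [Group G]
    (h : (∃ m : ℕ, Nat.card G = p ^ m) ∨ (Nat.card G).Coprime p) : IsPSolvable p G := by
  refine Helper31.isPSolvable_of_quotient p (⊤ : Subgroup G) (by rw [Subgroup.card_top]; exact h) ?_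
  have hsub : Subsingleton (G ⧸ (⊤ : Subgroup G)) := QuotientGroup.subsingleton_quotient_top
  refine ⟨0, fun _ => ⊥, rfl, ?_, fun _ _ _ => le_rfl, fun _ => inferInstance, fun i => i.elim0⟩
  exact (Subgroup.eq_bot_of_subsingleton _).symm

/-- A group mapping to a `p`-soluble group with kernel a `p`-group is `p`-soluble. -/
theorem psolv_of_hom {p : ℕ} [hp : Fact p.Prime] {G : Type u} {H : Type*} [Group G] [Group H]
    [Finite G] (f : G →* H) (hH : IsPSolvable p H) (hk : IsPGroup p f.ker) : IsPSolvable p G := by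
  refine Helper31.isPSolvable_of_quotient p f.ker (Or.inl hk.exists_card_eq) ?_
  exact Helper80.isPSolvable_of_surjective hp.out (QuotientGroup.quotientKerEquivRange f).symm.toMonoidHom
    (QuotientGroup.quotientKerEquivRange f).symm.surjective (Helper73.isPSolvable_subgroup hH f.range)

/-- `p`-solubility passes to smaller subgroups. -/
theorem psolv_mono {p : ℕ} [hp : Fact p.Prime] {A : Type*} [Group A] {H G : Subgroup A} (h : H ≤ G)
    (hG : IsPSolvable p G) : IsPSolvable p H :=
  Helper80.isPSolvable_of_surjective hp.out (Subgroup.subgroupOfEquivOfLe h).toMonoidHom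
    (Subgroup.subgroupOfEquivOfLe h).surjective (Helper73.isPSolvable_subgroup hG (H.subgroupOf G))

end Cfsg.Agent.Lib.Helper87
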