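import Cfsg.Agent.Lib.Helper87.PS1
import Cfsg.Agent.Lib.Helper87.KNormSat
import Cfsg.Agent.Lib.Helper87.StronglyClosed
import Cfsg.Agent.Lib.Helper15.FusCE1

set_option autoImplicit false

/-! Automorphisms fixing a self-centralizing subgroup, and restriction of automorphism groups. -/

namespace Cfsg.Agent.Lib.Helper87

open Cfsg Cfsg.FusionSystem

variable {Ω : Type*} [Group Ω] {S : Subgroup Ω} {F : FusionSystem S}

/-- A `p'`-automorphism in `F` of `U` fixing `R` elementwise is trivial, when `hyp(F) ≤ T` and `C_T(R) ≤ R`. -/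
theorem fix_eq_one {p : ℕ} [Fact p.Prime] (hS : IsPGroup p S) {T R U : Subgroup Ω}
    (hT : F.hyperfocalSubgroup p ≤ T) (hc : centralizerIn T R ≤ R) (hU : U ≤ S)
    (hRn : ∀ u ∈ U, ∀ r ∈ R, u * r * u⁻¹ ∈ R ∧ u * r * u⁻¹ ∈ U) {β : MulAut U} (hβ : β ∈ F.autGroup U)
    (hfix : ∀ x : U, (x : Ω) ∈ R → β x = x) (ho : (orderOf β).Coprime p) : β = 1 := by
  have hUp : IsPGroup p U := hS.to_le hU
  have ha : ∀ u : U, (u : Ω)⁻¹ * ((β u : U) : Ω) ∈ T := by
    intro u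
    apply hT
    refine Subgroup.subset_closure ⟨U, ⟨β, hβ⟩, u, hU, Subgroup.subset_closure ?_, rfl⟩
    show Nat.Coprime (orderOf (⟨β, hβ⟩ : F.autGroup U)) p
    rw [Subgroup.orderOf_mk]
    exact ho
  have hb : ∀ c : U, (c : Ω) ∈ T → β c = c := by
    intro c hcT
    apply Cfsg.Agent.Lib.Helper15.FusCE.fix_of_coprime hUp β ho c
    apply hfix
    apply hc
    rw [mem_centralizerIn_iff]
    refine ⟨ha c, fun r hr => ?_⟩
    obtain ⟨h1, h2⟩ := hRn c c.2 r hr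
    have h3 := hfix ⟨(c : Ω) * r * (c : Ω)⁻¹, h2⟩ h1
    obtain ⟨h4, h5⟩ := hRn 1 U.one_mem r hr
    have hrU : r ∈ U := by simpa using h5
    have h6 : (⟨(c : Ω) * r * (c : Ω)⁻¹, h2⟩ : U) = c * ⟨r, hrU⟩ * c⁻¹ := rfl
    rw [h6, map_mul, map_mul, map_inv, hfix ⟨r, hrU⟩ hr] at h3
    have h7 := congrArg Subtype.val h3
    have h8 : ((β c : U) : Ω) * r * ((β c : U) : Ω)⁻¹ = (c : Ω) * r * (c : Ω)⁻¹ := h7
    show r * (((c⁻¹ * β c : U)) : Ω) = ((c⁻¹ * β c : U) : Ω) * r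
    show r * ((c : Ω)⁻¹ * ((β c : U) : Ω)) = ((c : Ω)⁻¹ * ((β c : U) : Ω)) * r
    have h9 : ((β c : U) : Ω) * r = (c : Ω) * r * (c : Ω)⁻¹ * ((β c : U) : Ω) := by
      rw [← h8]; group
    calc r * ((c : Ω)⁻¹ * ((β c : U) : Ω)) = (c : Ω)⁻¹ * ((c : Ω) * r * (c : Ω)⁻¹ * ((β c : U) : Ω)) := by
          group
      _ = (c : Ω)⁻¹ * (((β c : U) : Ω) * r) := by rw [h9]
      _ = _ := by group
  ext u
  have h1 : β u = u := by
    apply Cfsg.Agent.Lib.Helper15.FusCE.fix_of_coprime hUp β ho u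
    exact hb _ (ha u)
  rw [h1]
  rfl

/-- The automorphisms in `F` of `U` fixing `R` elementwise form a `p`-group. -/
theorem fixOn_isPGroup [Finite S] {p : ℕ} [Fact p.Prime] (hS : IsPGroup p S) {T R U : Subgroup Ω}
    (hT : F.hyperfocalSubgroup p ≤ T) (hc : centralizerIn T R ≤ R) (hU : U ≤ S)
    (hRn : ∀ u ∈ U, ∀ r ∈ R, u * r * u⁻¹ ∈ R ∧ u * r * u⁻¹ ∈ U) :
    IsPGroup p ↥(F.autGroup U ⊓ FixOn U R) := by
  have hp : p.Prime := Fact.out
  have : Finite U := finite_of_le hU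
  rintro ⟨β, hβ, hβf⟩
  obtain ⟨k, m, hm, hn⟩ := Nat.exists_eq_pow_mul_and_not_dvd (orderOf_pos β).ne' p hp.ne_one
  refine ⟨k, Subtype.ext ?_⟩
  show β ^ (p ^ k) = 1
  refine fix_eq_one hS hT hc hU hRn (Subgroup.pow_mem _ hβ _)
    (fun x hx => (Subgroup.pow_mem (FixOn U R) hβf (p ^ k)) x hx) ?_
  rw [orderOf_pow, hn, Nat.gcd_eq_right (Dvd.intro _ rfl), Nat.mul_div_cancel_left _ (pow_pos hp.pos k)]
  exact ((Nat.Prime.coprime_iff_not_dvd hp).2 hm).symm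

theorem exists_resAut [Finite S] {R X : Subgroup Ω} (hR : F.StronglyClosed R) (hRX : R ≤ X)
    (hX : X ≤ S) (β : MulAut X) (hβ : β ∈ F.autGroup X) :
    ∃ β' ∈ F.autGroup R, ∀ x : R, ((β' x : R) : Ω) = (β ⟨x, hRX x.2⟩ : X) := by
  have hm := (mem_autGroup_iff F hX β).1 hβ
  have : Finite R := finite_of_le hR.1
  obtain ⟨β', hβ', e'⟩ := ((hm.mono hRX).iso_self
    (fun x hx => StronglyClosed.map_mem hR hm (hRX hx) hx)).exists_aut
  exact ⟨β', hβ', fun x => by rw [e', autFun_apply β (hRX x.2)]⟩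

/-- The restriction homomorphism `Aut_F(X) → Aut_F(R)` for a strongly closed `R ≤ X`. -/
noncomputable def resAut [Finite S] {R X : Subgroup Ω} (hR : F.StronglyClosed R) (hRX : R ≤ X)
    (hX : X ≤ S) : ↥(F.autGroup X) →* ↥(F.autGroup R) :=
  MonoidHom.mk' (fun β => ⟨(exists_resAut hR hRX hX β.1 β.2).choose,
    (exists_resAut hR hRX hX β.1 β.2).choose_spec.1⟩) (by
    intro a b
    apply Subtype.ext
    apply MulEquiv.ext
    intro x
    apply Subtype.ext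
    have h1 := (exists_resAut hR hRX hX (a * b).1 (a * b).2).choose_spec.2 x
    have h2 := (exists_resAut hR hRX hX b.1 b.2).choose_spec.2 x
    have h3 := (exists_resAut hR hRX hX a.1 a.2).choose_spec.2
      ((exists_resAut hR hRX hX b.1 b.2).choose x)
    refine h1.trans ?_
    show _ = (((exists_resAut hR hRX hX a.1 a.2).choose
      ((exists_resAut hR hRX hX b.1 b.2).choose x) : R) : Ω)
    rw [h3]
    show ((a.1 (b.1 _) : X) : Ω) = _
    congr 2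
    exact Subtype.ext h2.symm)

theorem resAut_apply [Finite S] {R X : Subgroup Ω} (hR : F.StronglyClosed R) (hRX : R ≤ X)
    (hX : X ≤ S) (β : ↥(F.autGroup X)) (x : R) :
    (((resAut hR hRX hX β).1 x : R) : Ω) = (β.1 ⟨x, hRX x.2⟩ : X) :=
  (exists_resAut hR hRX hX β.1 β.2).choose_spec.2 x

/-- If the automorphisms of `X` fixing `R` form a `p`-group and `Aut_F(R)` is `p`-soluble, so is `Aut_F(X)`. -/
theorem psolv_of_res [Finite S] {p : ℕ} [Fact p.Prime] {R X : Subgroup Ω}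
    (hR : F.StronglyClosed R) (hRX : R ≤ X) (hX : X ≤ S)
    (hk : IsPGroup p ↥(F.autGroup X ⊓ FixOn X R)) (hs : IsPSolvable p ↥(F.autGroup R)) :
    IsPSolvable p ↥(F.autGroup X) := by
  have : Finite X := finite_of_le hX
  refine psolv_of_hom (resAut hR hRX hX) hs ?_
  rintro ⟨β, hβ⟩
  have h1 : β.1 ∈ F.autGroup X ⊓ FixOn X R := by
    refine ⟨β.2, fun x hx => Subtype.ext ?_⟩
    have h2 := resAut_apply hR hRX hX β ⟨x, hx⟩
    rw [MonoidHom.mem_ker.1 hβ] at h2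
    exact h2.symm
  obtain ⟨k, hk'⟩ := hk ⟨β.1, h1⟩
  refine ⟨k, Subtype.ext (Subtype.ext ?_)⟩
  have h3 : β.1 ^ (p ^ k) = 1 := congrArg Subtype.val hk'
  exact h3

end Cfsg.Agent.Lib.Helper87
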