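import Cfsg.Agent.Lib.Helper87.PS3
import Cfsg.Agent.Lib.Helper2.PResidual
import Cfsg.Agent.Lib.Helper87.PPower

set_option autoImplicit false

/-! The invariant `PS`: a normal self-centralizing subgroup with `p`-soluble automizer. Going up and down. -/

namespace Cfsg.Agent.Lib.Helper87

open Cfsg Cfsg.FusionSystem

section grp

variable {A : Type*} [Group A] [Finite A] {p : ℕ} [hp : Fact p.Prime]

theorem psolv_up_ppower {H G : Subgroup A} (hres : (pResidual p G).map G.subtype ≤ H)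
    (hH : IsPSolvable p H) : IsPSolvable p G := by
  have h1 : IsPSolvable p ((pResidual p G).map G.subtype) := psolv_mono hres hH
  have h2 : IsPSolvable p (pResidual p G) :=
    Helper80.isPSolvable_of_surjective hp.out
      ((pResidual p G).equivMapOfInjective G.subtype G.subtype_injective).symm.toMonoidHom
      ((pResidual p G).equivMapOfInjective G.subtype G.subtype_injective).symm.surjective h1
  exact psolv_ext _ G (pResidual p G) rfl h2
    (psolv_of_card (Or.inl (Cfsg.Agent.Lib.Helper2.isPGroup_quotient_pResidual p).exists_card_eq))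

theorem psolv_up_pprime {H G : Subgroup A}
    (hres : (Subgroup.closure {α : G | ∃ k : ℕ, orderOf α = p ^ k}).map G.subtype ≤ H)
    (hH : IsPSolvable p H) : IsPSolvable p G := by
  set N : Subgroup G := Subgroup.closure {α : G | ∃ k : ℕ, orderOf α = p ^ k} with hN
  have hNn : N.Normal := by
    refine ⟨fun n hn g => ?_⟩
    induction hn using Subgroup.closure_induction with
    | mem x hx =>
      obtain ⟨k, hk⟩ := hx
      refine Subgroup.subset_closure ⟨k, ?_⟩
      rw [← hk]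
      exact orderOf_injective (MulAut.conj g).toMonoidHom (MulAut.conj g).injective x
    | one => simp
    | mul a b _ _ iha ihb =>
      have : g * (a * b) * g⁻¹ = (g * a * g⁻¹) * (g * b * g⁻¹) := by group
      rw [this]
      exact Subgroup.mul_mem _ iha ihb
    | inv a _ iha =>
      have : g * a⁻¹ * g⁻¹ = (g * a * g⁻¹)⁻¹ := by group
      rw [this]
      exact Subgroup.inv_mem _ iha
  have h1 : IsPSolvable p (N.map G.subtype) := psolv_mono hres hH
  have h2 : IsPSolvable p N :=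
    Helper80.isPSolvable_of_surjective hp.out
      (N.equivMapOfInjective G.subtype G.subtype_injective).symm.toMonoidHom
      (N.equivMapOfInjective G.subtype G.subtype_injective).symm.surjective h1
  refine psolv_ext _ G N rfl h2 (psolv_of_card (Or.inr ?_))
  obtain ⟨P⟩ : Nonempty (Sylow p G) := inferInstance
  have hPN : (P : Subgroup G) ≤ N := by
    intro x hx
    obtain ⟨k, hk⟩ := (IsPGroup.iff_orderOf.1 P.isPGroup') ⟨x, hx⟩
    exact Subgroup.subset_closure ⟨k, by rw [← hk]; exact (Subgroup.orderOf_mk x hx).symm⟩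
  rw [← Subgroup.index_eq_card]
  have h3 : ¬ p ∣ N.index := fun h => P.not_dvd_index (h.trans (Subgroup.index_dvd_of_le hPN))
  exact ((Nat.Prime.coprime_iff_not_dvd hp.out).2 h3).symm

end grp

variable {Ω : Type*} [Group Ω] {S : Subgroup Ω} {F : FusionSystem S}

/-- There is a normal self-centralizing subgroup whose automizer is `p`-soluble. -/
def PS (F : FusionSystem S) (p : ℕ) : Prop :=
  ∃ Q, F.IsNormal Q ∧ centralizerIn S Q ≤ Q ∧ IsPSolvable p ↥(F.autGroup Q)

theorem psolv_of_le [Finite S] {p : ℕ} [Fact p.Prime] (hS : IsPGroup p S) {Q X : Subgroup Ω}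
    (hQ : F.IsNormal Q) (hc : centralizerIn S Q ≤ Q) (hs : IsPSolvable p ↥(F.autGroup Q))
    (hQX : Q ≤ X) (hX : X ≤ S) : IsPSolvable p ↥(F.autGroup X) :=
  psolv_of_res (IsNormal.stronglyClosed hQ) hQX hX
    (fixOn_isPGroup hS (hyperfocal_le F p) hc hX (fun u hu r hr =>
      ⟨StronglyClosed.conj_mem (IsNormal.stronglyClosed hQ) (hX hu) hr,
        X.mul_mem (X.mul_mem hu (hQX hr)) (X.inv_mem hu)⟩)) hs

/-- Going up along a normal subsystem containing the hyperfocal subgroup. -/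
theorem PS.up [Finite S] {p : ℕ} [Fact p.Prime] (hS : IsPGroup p S) {T : Subgroup Ω}
    {D : FusionSystem T} (hD : D.IsNormalIn F p) (hT : F.hyperfocalSubgroup p ≤ T) (hPS : PS D p)
    (hidx : IsPSolvable p ↥(D.autGroup D.core) → IsPSolvable p ↥(F.autGroup D.core)) : PS F p := by
  obtain ⟨-, hFs, hsub, hTs, -, -, -⟩ := (isNormalIn_iff D F p).1 hD
  have : Finite T := finite_of_le hTs.1
  obtain ⟨Q, hQ, hQc, hQs⟩ := hPS
  have hRn := Cfsg.Agent.Lib.Helper88.isNormal_core D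
  have hQR : Q ≤ D.core := le_core hQ
  have hRc : centralizerIn T D.core ≤ D.core := (centralizerIn_anti T hQR).trans (hQc.trans hQR)
  have hRs : IsPSolvable p ↥(D.autGroup D.core) := psolv_of_le (hS.to_le hTs.1) hQ hQc hQs hQR hRn.1
  have hRF : F.IsNormal D.core := core_normal hS hD
  have hX := normal_RC hS hFs hT hRF hRc
  refine ⟨_, hX, (centralizerIn_anti S (le_NK_autR hRF.1)).trans (centralizerIn_le_NK_autR _), ?_⟩
  refine psolv_of_res (IsNormal.stronglyClosed hRF) (le_NK_autR hRF.1) hX.1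
    (fixOn_isPGroup hS hT hRc hX.1 (fun u hu r hr => ?_)) (hidx hRs)
  exact ⟨StronglyClosed.conj_mem (IsNormal.stronglyClosed hRF) (hX.1 hu) hr,
    Subgroup.mul_mem _ (Subgroup.mul_mem _ hu (le_NK_autR hRF.1 hr)) (Subgroup.inv_mem _ hu)⟩

theorem inf_normal_centric [Finite S] {p : ℕ} [Fact p.Prime] (hS : IsPGroup p S)
    (hFs : F.IsSaturated p) {Q : Subgroup Ω} (hQ : F.IsNormal Q) (hQc : F.IsCentric Q)
    (hmax : ∀ Q', F.IsNormal Q' → Q' ≤ Q) {T : Subgroup Ω} {E : FusionSystem T}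
    (hEs : E.IsSaturated p) (hEF : E.IsSubsystemOf F) (hT : F.StronglyClosed T) :
    E.IsNormal (Q ⊓ T) ∧ centralizerIn T (Q ⊓ T) ≤ Q ⊓ T := by
  have hQs := IsNormal.stronglyClosed hQ
  have hRF : F.StronglyClosed (Q ⊓ T) := stronglyClosed_inf hQs hT
  have : Finite T := finite_of_le hT.1
  have hTp : IsPGroup p T := hS.to_le hT.1
  have hRE : E.StronglyClosed (Q ⊓ T) := by
    rw [stronglyClosed_iff]
    exact ⟨inf_le_right, fun R f hf x hx hxR =>
      StronglyClosed.map_mem hRF (hf.of_subsystem hEF) hx hxR⟩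
  -- `R = Q ∩ T` is normal in `E`
  have hRn : E.IsNormal (Q ⊓ T) := by
    refine isNormal_of_base hTp hEs hRE (fun U hU hRU => ?_)
    refine ⟨autInducedBy (Q ⊓ T) U, ?_, ?_, isPGroup_autInducedBy (hTp.to_le inf_le_right) U, ?_⟩
    · intro κ hκ
      obtain ⟨g, hg, e⟩ := (mem_autInducedBy_iff _ U κ).1 hκ
      exact autInducedBy_le_autGroup E hU.1 ((mem_autInducedBy_iff T U κ).2 ⟨g, hg.2, e⟩)
    · intro α hα κ hκ
      obtain ⟨g, hg, e⟩ := (mem_autInducedBy_iff _ U κ).1 hκ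
      have hαm := ((mem_autGroup_iff E hU.1 α).1 hα).of_subsystem hEF
      obtain ⟨f', hf', hag, hf'Q⟩ := ((isNormal_iff F _).1 hQ).2 U _ hαm
      have hgD : g ∈ U ⊔ Q := (le_sup_right : Q ≤ U ⊔ Q) hg.1
      rw [mem_autInducedBy_iff]
      refine ⟨f' g, StronglyClosed.map_mem hRF hf' hgD hg, fun x => ?_⟩
      set y := α⁻¹ x with hy
      have hxy : x = α y := by rw [hy, MulAut.apply_inv_self]
      show ((α (κ (α⁻¹ x)) : U) : Ω) = _
      rw [← hy, ← autFun_coe, ← hag _ (Subtype.prop _), e,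
        hf'.map_conj hgD ((le_sup_left : U ≤ U ⊔ Q) y.2), hag _ y.2, autFun_coe, ← hxy]
    · obtain ⟨t, ht, htN, htU⟩ := exists_mem_normalizer_of_not_le hTp hU.1 inf_le_right
        (fun s hs t ht => StronglyClosed.conj_mem hRE hs ht) hRU
      exact ⟨t, ⟨ht.2, (conjToAut (Q ⊓ T) U ⟨t, ht, htN⟩ : autInducedBy (Q ⊓ T) U),
        Subtype.prop _, fun x => rfl⟩, htU⟩
  refine ⟨hRn, ?_⟩
  let X : ℕ → Subgroup Ω := fun i => if i = 0 then ⊥ else if i = 1 then Q ⊓ T else S
  have hX : ∀ i, F.StronglyClosed (X i) := by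
    intro i
    by_cases h0 : i = 0
    · simp only [X, h0, if_true]
      exact stronglyClosed_bot F
    · by_cases h1 : i = 1
      · simp only [X, h1, if_true]
        simpa using hRF
      · simp only [X, h0, h1, if_false]
        exact stronglyClosed_top F
  have hX0 : X 0 = ⊥ := rfl
  have hX1 : X 1 = Q ⊓ T := rfl
  have hX2 : X 2 = S := rfl
  have hAp : IsPGroup p (chainStab F Q hQ.1 X hX 2) :=
    chainStab_isPGroup hS F Q hQ.1 X hX 2 hX2 (by rw [hX0]; exact bot_le)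
      (by rw [hX0]; exact isPGroup_autGroup_bot F p)
  have hN := isNormal_NK hS hFs hQ hQc (chainStab F Q hQ.1 X hX 2) (fun β hβ => hβ.1)
    (chainStab_normal F Q hQ.1 X hX 2) hAp
  intro x hx
  obtain ⟨hxT, hxc⟩ := (mem_centralizerIn_iff T _ x).1 hx
  have hxS : x ∈ S := hT.1 hxT
  have hxN : x ∈ Subgroup.normalizer (Q : Set Ω) := StronglyClosed.le_normalizer hQs hxS
  refine ⟨hmax _ hN ⟨hxS, (conjToAut S Q ⟨x, hxS, hxN⟩ : autInducedBy S Q),
    ⟨autInducedBy_le_autGroup F hQ.1 (Subtype.prop _), fun i hi q hq => ?_⟩, fun _ => rfl⟩, hxT⟩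
  show (q : Ω)⁻¹ * (x * q * x⁻¹) ∈ X i
  have hi' : i = 0 ∨ i = 1 := by omega
  rcases hi' with rfl | rfl
  · rw [hX0, Subgroup.mem_bot]
    have h1 := hxc q (by rw [← hX1]; exact hq)
    rw [← h1]
    group
  · rw [hX1]
    refine ⟨Q.mul_mem (Q.inv_mem q.2) ((Subgroup.mem_normalizer_iff.1 hxN q).1 q.2), ?_⟩
    have h1 : (q : Ω)⁻¹ * (x * q * x⁻¹) = ((q : Ω)⁻¹ * x * (q : Ω)⁻¹⁻¹) * x⁻¹ := by group
    rw [h1]
    exact T.mul_mem (StronglyClosed.conj_mem hT (S.inv_mem (hQ.1 q.2)) hxT) (T.inv_mem hxT)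

/-- Going down to a saturated subsystem over a strongly closed subgroup. -/
theorem PS.down [Finite S] {p : ℕ} [Fact p.Prime] (hS : IsPGroup p S) (hFs : F.IsSaturated p)
    (hPS : PS F p) {T : Subgroup Ω} {E : FusionSystem T} (hEs : E.IsSaturated p)
    (hEF : E.IsSubsystemOf F) (hT : F.StronglyClosed T) : PS E p := by
  obtain ⟨Q₀, hQ₀, hQ₀c, hQ₀s⟩ := hPS
  have hcon : F.IsConstrained p := ⟨hFs, Q₀, hQ₀, hQ₀.1, fun Q' h => by
    rw [IsNormal.eq_of_isConj hQ₀ h]; exact hQ₀c⟩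
  obtain ⟨Q, hQ, hQc, hmax⟩ := exists_max_normal_centric hcon
  have hQs : IsPSolvable p ↥(F.autGroup Q) := psolv_of_le hS hQ₀ hQ₀c hQ₀s (hmax Q₀ hQ₀) hQ.1
  obtain ⟨hRn, hRc⟩ := inf_normal_centric hS hFs hQ hQc hmax hEs hEF hT
  refine ⟨Q ⊓ T, hRn, hRc, psolv_mono (autGroup_mono hEF _) ?_⟩
  have hRF : F.StronglyClosed (Q ⊓ T) := stronglyClosed_inf (IsNormal.stronglyClosed hQ) hT
  refine Helper80.isPSolvable_of_surjective Fact.out (resAut hRF inf_le_left hQ.1) ?_ hQs
  rintro ⟨β', hβ'⟩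
  have hm := (mem_autGroup_iff F hRF.1 β').1 hβ'
  obtain ⟨f', hf', hag, hf'Q⟩ := ((isNormal_iff F _).1 hQ).2 _ _ hm
  rw [sup_eq_right.2 (inf_le_left : Q ⊓ T ≤ Q)] at hf'
  obtain ⟨α, hα, eα⟩ := Iso.exists_aut (F := F) (P := Q) (f := f') ⟨hf', hf'Q⟩
  refine ⟨⟨α, hα⟩, Subtype.ext (MulEquiv.ext fun x => Subtype.ext ?_)⟩
  rw [resAut_apply]
  show ((α ⟨x, _⟩ : Q) : Ω) = _
  rw [eα]
  show f' (x : Ω) = _
  rw [hag x x.2, autFun_coe]

end Cfsg.Agent.Lib.Helper87
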