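import Cfsg.Agent.Lib.Helper87.PS4
import Cfsg.Agent.Lib.Helper87.CE9
import Cfsg.Agent.Lib.Helper87.Craven7
import Cfsg.Agent.Lib.Helper87.PPowerExt
import Cfsg.Agent.Lib.Helper90.FusionInnerNormal

set_option autoImplicit false

/-! The alternating residual series terminates exactly for the systems with the invariant `PS`. -/

namespace Cfsg.Agent.Lib.Helper87

open Cfsg Cfsg.FusionSystem

variable {Ω : Type*} [Group Ω]

theorem hyperfocal_inner_eq_bot {p : ℕ} [Fact p.Prime] {Q : Subgroup Ω} (hQ : IsPGroup p Q) :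
    (innerFusionSystem Q).hyperfocalSubgroup p = ⊥ := by
  unfold hyperfocalSubgroup
  rw [Subgroup.closure_eq_bot_iff]
  rintro y ⟨P, α, x, hP, hα, rfl⟩
  have hA : IsPGroup p ((innerFusionSystem Q).autGroup P) :=
    (isPGroup_autInducedBy hQ P).to_le (Cfsg.Agent.Lib.Helper90.inner_autGroup_le Q P hP)
  have hbot : pResidual p ((innerFusionSystem Q).autGroup P) = ⊥ := by
    unfold pResidual
    rw [Subgroup.closure_eq_bot_iff]
    intro g hg
    obtain ⟨k, hk⟩ := hA g
    have h1 : orderOf g ∣ p ^ k := orderOf_dvd_of_pow_eq_one hk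
    have h2 : Nat.Coprime (orderOf g) (p ^ k) := Nat.Coprime.pow_right k hg
    exact orderOf_eq_one_iff.1 (Nat.Coprime.eq_one_of_dvd h2 h1)
  rw [hbot, Subgroup.mem_bot] at hα
  rw [hα]
  show (x : Ω)⁻¹ * (x : Ω) = 1
  exact inv_mul_cancel _

/-- A stable system with the invariant `PS` is over the trivial group. -/
theorem bot_of_stable {S : Subgroup Ω} [Finite S] {p : ℕ} [Fact p.Prime] (hS : IsPGroup p S)
    {F : FusionSystem S} (hFs : F.IsSaturated p) (hPS : PS F p)
    (h1 : F.hyperfocalSubgroup p = S) (h2 : F.IsPPrimeResidual p F) : S = ⊥ := by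
  obtain ⟨Q, hQ, hQc, hQs⟩ := hPS
  have hE₀ := Cfsg.Agent.Lib.Helper90.inner_normalIn_of_normal hS F hFs Q hQ
  have hAeq : (innerFusionSystem Q).autGroup Q = autInducedBy Q Q :=
    le_antisymm (Cfsg.Agent.Lib.Helper90.inner_autGroup_le Q Q le_rfl)
      (autInducedBy_le_autGroup (innerFusionSystem Q) le_rfl)
  have hn : (((innerFusionSystem Q).autGroup Q).subgroupOf (F.autGroup Q)).Normal := by
    refine ⟨fun a ha α => ?_⟩
    rw [Subgroup.mem_subgroupOf, hAeq] at ha ⊢
    obtain ⟨g, hg, e⟩ := (mem_autInducedBy_iff Q Q a.1).1 ha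
    refine (mem_autInducedBy_iff Q Q _).2 ⟨(α.1 ⟨g, hg⟩ : Q), Subtype.prop _, fun x => ?_⟩
    show ((α.1 (a.1 (α.1⁻¹ x)) : Q) : Ω) = _
    have h1 : a.1 (α.1⁻¹ x) = ⟨g, hg⟩ * α.1⁻¹ x * ⟨g, hg⟩⁻¹ := Subtype.ext (e _)
    rw [h1, map_mul, map_mul, map_inv, MulAut.apply_inv_self]
    rfl
  have hsolv : IsPSolvable p (↥(F.autGroup Q) ⧸
      ((innerFusionSystem Q).autGroup Q).subgroupOf (F.autGroup Q)) :=
    Helper80.isPSolvable_of_surjective Fact.out (QuotientGroup.mk' _)
      (QuotientGroup.mk'_surjective _) hQs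
  obtain ⟨S', F', st⟩ := exists_stage_bot hS hE₀ hsolv
  have h := st.eq_sup hS
  subst h
  obtain ⟨a1, -, a3, a4, -, -, -⟩ := (isNormalIn_iff F' F p).1 st.nF
  obtain ⟨b1, -, b3, b4, -, -, -⟩ := (isNormalIn_iff (innerFusionSystem Q) F' p).1 st.nE
  have hfin : Finite (Q ⊔ centralizerIn S Q : Subgroup Ω) := finite_of_le a4.1
  have hS' : IsPGroup p (Q ⊔ centralizerIn S Q : Subgroup Ω) := hS.to_le a4.1
  have hsup : Q ⊔ centralizerIn S Q ≤ Q := sup_le le_rfl hQc
  have hlim := st.lim F (IsResidualLimitOf.stable F p h1 h2)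
  have hi := pPowerIndex_of_trivial_mod st.nE st.aut (fun P f hf v hv =>
    Q.mul_mem (Q.inv_mem (hsup (hf.le hv))) (hsup (hf.mem hv)))
  have hlim' := (limit_ppower_iff hS' a1 b4.1
    (fun s hs t ht => StronglyClosed.conj_mem b4 hs ht) b1 hi F).1 hlim
  have hle := limit_le hlim'
  have hSQ : S ≤ Q := ((mor_id F le_rfl).of_subsystem hle).le
  have h3 := hyperfocal_mono hSQ hle p
  rw [h1, hyperfocal_inner_eq_bot (hS.to_le hQ.1)] at h3
  exact le_bot_iff.1 h3

theorem terminating_of_PS {p : ℕ} [Fact p.Prime] :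
    ∀ (n : ℕ) (S : Subgroup Ω), Finite S → Nat.card S = n → IsPGroup p S → ∀ F : FusionSystem S,
      F.IsSaturated p → PS F p → F.HasTerminatingResidualSeries p := by
  intro n
  induction n using Nat.strong_induction_on with
  | _ n ih =>
  intro S hfin hn hS F hF hPS
  by_cases hb : S = ⊥
  · exact HasTerminatingResidualSeries.trivial F p hb
  have hR := isPPrimeResidual_residualSystem hS hF
  have hPSE := PS.down hS hF hPS hR.1 hR.2.1.1 (stronglyClosed_top F)
  have hle := hyperfocal_le (residualSystem F p) p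
  obtain ⟨D, hDs, hD⟩ := exists_pPowerIndex (p := p) _ S inferInstance rfl hS _ hR.1 _ hle le_rfl
  have hPSD := PS.down hS hR.1 hPSE hDs hD.1 (hyperfocal_stronglyClosed hS hR.1)
  have hlt : Nat.card ((residualSystem F p).hyperfocalSubgroup p) < n := by
    by_contra hcon
    rw [← hn] at hcon
    have heq := eq_of_le_of_card_le'' le_rfl hle (not_lt.1 hcon)
    exact hb (bot_of_stable hS hR.1 hPSE heq (pprime_of_sub hR.1 hR.2.1 hR))
  exact HasTerminatingResidualSeries.step F _ p D hR ⟨hDs, hD⟩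
    (ih _ hlt _ (finite_of_le hle) rfl (hS.to_le hle) D hDs hPSD)

theorem PS_of_terminating {S : Subgroup Ω} {F : FusionSystem S} {p : ℕ}
    (h : F.HasTerminatingResidualSeries p) : p.Prime → Finite S → IsPGroup p S →
      F.IsSaturated p → PS F p := by
  induction h with
  | trivial F p hb =>
    intro hp hfin hS hF
    have : Fact p.Prime := ⟨hp⟩
    refine ⟨⊥, isNormal_bot F, ?_, psolv_of_card (Or.inl (isPGroup_autGroup_bot F p).exists_card_eq)⟩
    exact (centralizerIn_le _ _).trans (le_of_eq hb)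
  | step F E p D hE hD _ ih =>
    intro hp hfin hS hF
    have : Fact p.Prime := ⟨hp⟩
    have hle := hyperfocal_le E p
    have hfinT : Finite (E.hyperfocalSubgroup p) := finite_of_le hle
    have hPSD := ih hp hfinT (hS.to_le hle) hD.1
    have hDn : D.IsNormalIn E p := normal_of_pPowerIndex hS hE.1 hle
      (fun s hs t ht => hyperfocal_conj_mem E p hs ht) le_rfl hD.1 hD.2
    have hcD := (Cfsg.Agent.Lib.Helper88.isNormal_core D).1
    have hfinD : Finite D.core := finite_of_le (hcD.trans hle)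
    have hPSE : PS E p := PS.up hS hDn le_rfl hPSD
      (fun hs => psolv_up_ppower (hD.2.2.2 D.core hcD) hs)
    obtain ⟨-, -, c3, c4, c5, c6, -⟩ := (isNormalIn_iff F F p).1 (isNormalIn_refl hF)
    have hEn : E.IsNormalIn F p := residual_normal_of_weaklyNormal hS hF c3 c4 c5 c6 hF hE
    have hcE := (Cfsg.Agent.Lib.Helper88.isNormal_core E).1
    have hfinE : Finite E.core := finite_of_le hcE
    exact PS.up hS hEn (hyperfocal_le F p) hPSE
      (fun hs => psolv_up_pprime (hE.2.1.2 E.core hcE) hs)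

end Cfsg.Agent.Lib.Helper87
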