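import Cfsg.Agent.Lib.Helper87.BCGLO3
import Cfsg.Agent.Lib.Helper87.NormRadical
import Cfsg.Agent.Lib.Helper87.NormalCrit
import Cfsg.Agent.S5096

set_option autoImplicit false

namespace Cfsg.Agent.Lib.Helper87

open Cfsg Cfsg.FusionSystem

variable {Ω : Type*} [Group Ω] {S : Subgroup Ω}

/-- Quadratic action of an automorphism. -/
def Quad {Q : Subgroup Ω} (χ : MulAut Q) : Prop :=
  ∀ a : Q, (χ a⁻¹) * a * (χ a⁻¹) * (χ (χ a)) = 1

theorem Quad.congr {Q Q' : Subgroup Ω} (e : Q ≃* Q') {χ : MulAut Q} (h : Quad χ) :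
    Quad (MulAut.congr e χ) := by
  intro a
  have h1 := h (e.symm a)
  have e1 : ∀ y : Q', MulAut.congr e χ y = e (χ (e.symm y)) := fun _ => rfl
  rw [e1, e1, e1, MulEquiv.symm_apply_apply]
  have h2 := congrArg e h1
  rw [map_mul, map_mul, map_mul, map_one, MulEquiv.apply_symm_apply, ← map_inv] at h2
  exact h2

/-- The stability condition on one subgroup. -/
def PStabAt (F : FusionSystem S) (p : ℕ) (Q : Subgroup Ω) : Prop :=
  ∀ χ : MulAut Q, χ ∈ F.autGroup Q → Quad χ → χ ∈ OpAut F p Q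

theorem Iso.congr_congr_symm {F : FusionSystem S} {P Q : Subgroup Ω} {f g : Ω → Ω}
    (h : Iso F P Q f) (hg : Iso F Q P g) (hgf : ∀ x ∈ P, g (f x) = x) (hfg : ∀ y ∈ Q, f (g y) = y)
    (χ : MulAut P) : MulAut.congr hg.toMulEquiv (MulAut.congr h.toMulEquiv χ) = χ := by
  apply MulEquiv.ext
  intro x
  apply Subtype.ext
  show ((hg.toMulEquiv (h.toMulEquiv (χ (h.toMulEquiv.symm (hg.toMulEquiv.symm x)))) : P) : Ω) = _
  rw [hg.toMulEquiv_apply, h.toMulEquiv_apply, hgf _ (Subtype.prop _)]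
  have h1 : h.toMulEquiv.symm (hg.toMulEquiv.symm x) = x := by
    rw [MulEquiv.symm_apply_eq, MulEquiv.symm_apply_eq]
    apply Subtype.ext
    rw [hg.toMulEquiv_apply, h.toMulEquiv_apply, hgf _ x.2]
  rw [h1]

theorem PStabAt.of_iso {F : FusionSystem S} {p : ℕ} {P Q : Subgroup Ω} {f : Ω → Ω}
    (h : Iso F P Q f) (hQ : PStabAt F p Q) : PStabAt F p P := by
  intro χ hχ hq
  obtain ⟨g, hg, hgf, hfg⟩ := h.symm
  have h1 := hQ _ (h.congr_mem_autGroup hχ) (hq.congr h.toMulEquiv)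
  have h2 := hg.congr_mem_OpAut h1
  rwa [h.congr_congr_symm hg hgf hfg] at h2

theorem pStabAt_of_fullyNormalized [Finite S] {F : FusionSystem S} {p : ℕ}
    (h : ∀ Q, F.IsFullyNormalized Q → PStabAt F p Q) {Q : Subgroup Ω} (hQ : Q ≤ S) :
    PStabAt F p Q := by
  obtain ⟨U, hQU, hU⟩ := exists_fullyNormalized_conj F hQ
  obtain ⟨f, hf⟩ := (isConj_iff F Q U).1 hQU
  exact PStabAt.of_iso hf (h U hU)

/-- Passing to a system with smaller automorphism group. -/
theorem PStabAt.of_le {T : Subgroup Ω} {F : FusionSystem S} {E : FusionSystem T} {p : ℕ}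
    {Q : Subgroup Ω} (hle : E.autGroup Q ≤ F.autGroup Q) (h : PStabAt F p Q) : PStabAt E p Q := by
  intro χ hχ hq
  have h1 := h χ (hle hχ) hq
  have h2 : OpAut F p Q ⊓ E.autGroup Q ≤ OpAut E p Q := by
    refine le_OpAut inf_le_right ((OpAut_isPGroup F p Q).to_le inf_le_left) ?_
    intro γ hγ ν hν
    exact ⟨OpAut_normal F p Q γ (hle hγ) ν hν.1,
      Subgroup.mul_mem _ (Subgroup.mul_mem _ hγ hν.2) (Subgroup.inv_mem _ hγ)⟩
  exact h2 ⟨h1, hχ⟩

theorem PStabAt.of_eq {T : Subgroup Ω} {F : FusionSystem S} {E : FusionSystem T} {p : ℕ}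
    {Q : Subgroup Ω} (heq : E.autGroup Q = F.autGroup Q) (h : PStabAt E p Q) : PStabAt F p Q :=
  PStabAt.of_le heq.ge h

/-- Every automorphism in the system of `Q` extends to one of `R`. -/
def ExtAut (F : FusionSystem S) (Q R : Subgroup Ω) : Prop :=
  Q ≤ R ∧ ∀ α ∈ F.autGroup Q, ∃ f, Iso F R R f ∧ ∀ x ∈ Q, f x = autFun α x

theorem centric_of_receptive {F : FusionSystem S} {U : Subgroup Ω} (hU : F.IsReceptive U)
    (hc : centralizerIn S U ≤ U) : F.IsCentric U := by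
  refine ⟨hU.1, fun Q hQ => ?_⟩
  obtain ⟨f, hf⟩ := (isConj_iff F _ _).1 (isConj_symm hQ)
  obtain ⟨f', hf', hag, hcen⟩ := receptive_extend_centralizer hU hf
  intro c hcQ
  obtain ⟨x, hx, e⟩ := hf.surj (hc (hcen c hcQ))
  rw [← hag x hx] at e
  have := hf'.inj ((le_sup_left : Q ≤ Q ⊔ centralizerIn S Q) hx)
    ((le_sup_right : _ ≤ Q ⊔ centralizerIn S Q) hcQ) e
  rw [← this]
  exact hx

theorem ExtAut.of_iso {F : FusionSystem S} {Q R U : Subgroup Ω} {f : Ω → Ω} (h : ExtAut F Q R)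
    (hf : Iso F R U f) : ExtAut F (img Q f) U := by
  have hQ : Iso F Q (img Q f) f := (hf.mor.mono h.1).iso_img
  have hle : img Q f ≤ U := by
    intro y hy
    obtain ⟨x, hx, rfl⟩ := hQ.surj hy
    exact hf.map_mem (h.1 hx)
  refine ⟨hle, fun α hα => ?_⟩
  obtain ⟨g, hg, hgf, hfg⟩ := hf.symm
  have hgQ : Iso F (img Q f) Q g := by
    refine ⟨hg.mor.mono hle, fun y => ⟨fun hy => ⟨f y, hQ.map_mem hy, hgf y (h.1 hy)⟩, ?_⟩⟩
    rintro ⟨z, hz, rfl⟩
    obtain ⟨x, hx, rfl⟩ := hQ.surj hz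
    rw [hgf x (h.1 hx)]
    exact hx
  obtain ⟨β, hβ, eβ⟩ := ((hQ.trans (iso_autFun ((mem_autGroup_iff F hQ.le' α).1 hα))).trans
    hgQ).exists_aut
  obtain ⟨k, hk, ek⟩ := h.2 β hβ
  refine ⟨f ∘ (k ∘ g), (hg.trans hk).trans hf, fun y hy => ?_⟩
  obtain ⟨x, hx, rfl⟩ := hQ.surj hy
  show f (k (g (f x))) = _
  rw [hgf x (h.1 hx), ek x hx, autFun_apply β hx, eβ]
  show f (g (autFun α (f x))) = _
  rw [hfg _ (hle (autFun_mem α (hQ.map_mem hx)))]

theorem ExtAut.trans {F : FusionSystem S} {Q R U : Subgroup Ω} (h : ExtAut F Q R)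
    (h' : ExtAut F R U) : ExtAut F Q U := by
  refine ⟨h.1.trans h'.1, fun α hα => ?_⟩
  obtain ⟨f, hf, e⟩ := h.2 α hα
  obtain ⟨β, hβ, eβ⟩ := hf.exists_aut
  obtain ⟨k, hk, ek⟩ := h'.2 β hβ
  refine ⟨k, hk, fun x hx => ?_⟩
  rw [ek x (h.1 hx), autFun_apply β (h.1 hx), eβ, e x hx]

/-- Climbing to a fully normalized, centric, radical overgroup to which all automorphisms extend. -/
theorem exists_frc_extAut [Finite S] {p : ℕ} [Fact p.Prime] (hS : IsPGroup p S)
    {F : FusionSystem S} (hF : F.IsSaturated p) :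
    ∀ (n : ℕ) (Q R : Subgroup Ω), R ≤ S → ExtAut F Q R → Nat.card S - Nat.card R = n →
      ∃ (Q' R' : Subgroup Ω) (f : Ω → Ω), Iso F Q Q' f ∧ ExtAut F Q' R' ∧
        F.IsFullyNormalized R' ∧ F.IsCentric R' ∧ F.IsRadical p R' := by
  intro n
  induction n using Nat.strong_induction_on with
  | _ n ih =>
  intro Q R hR hQR hn
  obtain ⟨U, hRU, hU⟩ := exists_fullyNormalized_conj F hR
  obtain ⟨f, hf⟩ := (isConj_iff F R U).1 hRU
  have hQ1 : Iso F Q (img Q f) f := (hf.mor.mono hQR.1).iso_img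
  have hE1 : ExtAut F (img Q f) U := hQR.of_iso hf
  have hrec := fullyNormalized_receptive hS hF hU
  have haut := fullyNormalized_fullyAutomized hS hF hU
  have hOS : OpAut F p U ≤ autInducedBy S U :=
    normal_pSubgroup_le_autS haut (OpAut_le F p U) (OpAut_normal F p U) (OpAut_isPGroup F p U)
  by_cases hNK : NK S U (OpAut F p U) ≤ U
  · refine ⟨img Q f, U, f, hQ1, hE1, hU, centric_of_receptive hrec ?_, hU.1, ?_⟩
    · intro c hc
      obtain ⟨hcS, hcc⟩ := (mem_centralizerIn_iff S U c).1 hc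
      refine hNK ⟨hcS, 1, Subgroup.one_mem _, fun x => ?_⟩
      rw [MulAut.one_apply, ← hcc x x.2]
      group
    · refine le_antisymm ?_ (inn_le_OpAut hS F hU.1)
      intro κ hκ
      obtain ⟨s, hs, es⟩ := (mem_autInducedBy_iff S U κ).1 (hOS hκ)
      rw [inn_eq_autInducedBy]
      exact (mem_autInducedBy_iff U U κ).2 ⟨s, hNK ⟨hs, κ, hκ, es⟩, es⟩
  · obtain ⟨g, hg, hgU⟩ := SetLike.not_le_iff_exists.1 hNK
    set R2 := U ⊔ NK S U (OpAut F p U) with hR2
    have hR2S : R2 ≤ S := sup_le hU.1 ((NK_le_normalizerIn S U _).trans (normalizerIn_le S U))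
    have : Finite R2 := finite_of_le hR2S
    have hE2 : ExtAut F U R2 := by
      refine ⟨le_sup_left, fun ν hν => ?_⟩
      obtain ⟨f', hf', hag⟩ := extend_of_normalizes hrec (OpAut F p U) hν (fun t ht => by
        have h1 := OpAut_normal F p U ν hν t ht.2
        exact ⟨hOS h1, h1⟩)
      refine ⟨f', hf'.iso_self (hf'.map_sup_mem (fun x hx => ?_) (fun m hm => ?_)), hag⟩
      · rw [hag x hx]
        exact (le_sup_left : U ≤ R2) (autFun_mem ν hx)
      · refine (le_sup_right : _ ≤ R2) ?_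
        obtain ⟨hmS, κ, hκ, eκ⟩ := hm
        have hmR : m ∈ R2 := (le_sup_right : _ ≤ R2) ⟨hmS, κ, hκ, eκ⟩
        refine ⟨hf'.mem hmR, ν * κ * ν⁻¹, OpAut_normal F p U ν hν κ hκ, fun x => ?_⟩
        show ((ν (κ (ν⁻¹ x)) : U) : Ω) = _
        have h1 : ((ν (κ (ν⁻¹ x)) : U) : Ω) = f' ((κ (ν⁻¹ x) : U) : Ω) := by
          rw [hag _ (Subtype.prop _), autFun_coe]
        have h2 : f' ((ν⁻¹ x : U) : Ω) = x := by
          rw [hag _ (Subtype.prop _), autFun_coe, MulAut.apply_inv_self]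
        rw [h1, eκ, hf'.map_conj hmR ((le_sup_left : U ≤ R2) (Subtype.prop _)), h2]
    have hlt : Nat.card U < Nat.card R2 := by
      refine Set.ncard_lt_ncard (s := (U : Set Ω)) (t := (R2 : Set Ω)) ?_ (Set.toFinite _)
      exact ⟨(le_sup_left : U ≤ R2), fun h => hgU (h ((le_sup_right : _ ≤ R2) hg))⟩
    have hle : Nat.card R2 ≤ Nat.card S := Subgroup.card_le_of_le hR2S
    have hcard := hf.card_eq
    obtain ⟨Q', R', k, hk, hE, h1, h2, h3⟩ := ih (Nat.card S - Nat.card R2) (by omega)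
      (img Q f) R2 hR2S (hE1.trans hE2) rfl
    exact ⟨Q', R', k ∘ f, hQ1.trans hk, hE, h1, h2, h3⟩

theorem autGroup_normalizerSystem_of_extAut {F : FusionSystem S} {Q R : Subgroup Ω} (hR : R ≤ S)
    (h : ExtAut F Q R) {E : FusionSystem (normalizerIn S R)} (hE : F.IsNormalizerSystem R E) :
    E.autGroup Q = F.autGroup Q := by
  have hQN : Q ≤ normalizerIn S R := h.1.trans (le_normalizerIn hR)
  ext α
  rw [mem_autGroup_iff E hQN, mem_autGroup_iff F (h.1.trans hR)]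
  refine ⟨fun hα => ((mor_normalizerSystem_iff hE Q _).1 hα).2.2.mor, fun hα => ?_⟩
  obtain ⟨f, hf, e⟩ := h.2 α ((mem_autGroup_iff F (h.1.trans hR) α).2 hα)
  refine (mor_normalizerSystem_iff hE Q _).2 ⟨hQN, fun x hx => hQN (autFun_mem α hx), f, ?_, e, hf.2⟩
  rw [sup_eq_right.2 h.1]
  exact hf.mor

/-- `p`-stability is detected on the normalizers of the fully normalized centric radical subgroups. -/
theorem pStab_iff [Finite S] {p : ℕ} [Fact p.Prime] (hS : IsPGroup p S)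
    {F : FusionSystem S} (hF : F.IsSaturated p) :
    (∀ Q, F.IsFullyNormalized Q → PStabAt F p Q) ↔
      ∀ R : Subgroup Ω, F.IsFullyNormalized R → F.IsCentric R → F.IsRadical p R →
        ∀ N : FusionSystem (normalizerIn S R), F.IsNormalizerSystem R N →
          ∀ Q, N.IsFullyNormalized Q → PStabAt N p Q := by
  constructor
  · intro h R hR _ _ N hN Q hQ
    have hQS : Q ≤ S := hQ.1.trans (normalizerIn_le S R)
    refine PStabAt.of_le ?_ (pStabAt_of_fullyNormalized h hQS)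
    intro α hα
    rw [mem_autGroup_iff N hQ.1] at hα
    rw [mem_autGroup_iff F hQS]
    exact ((mor_normalizerSystem_iff hN Q _).1 hα).2.2.mor
  · intro h Q hQ
    have h0 : ExtAut F Q Q := ⟨le_rfl, fun α hα =>
      ⟨autFun α, iso_autFun ((mem_autGroup_iff F hQ.1 α).1 hα), fun _ _ => rfl⟩⟩
    obtain ⟨Q', R', f, hf, hE, h1, h2, h3⟩ := exists_frc_extAut hS hF _ Q Q hQ.1 h0 rfl
    obtain ⟨N, hN⟩ := Cfsg.Agent.S5096.result F R' h1.1
    have : Finite (normalizerIn S R') := finite_of_le (normalizerIn_le S R')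
    refine PStabAt.of_iso hf (PStabAt.of_eq (autGroup_normalizerSystem_of_extAut h1.1 hE hN) ?_)
    exact pStabAt_of_fullyNormalized (h R' h1 h2 h3 N hN) (hE.1.trans (le_normalizerIn h1.1))

end Cfsg.Agent.Lib.Helper87
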