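import Cfsg.Agent.Lib.Helper87.ProductSystem
import Cfsg.Agent.Lib.Helper87.Saturated
import Cfsg.Agent.Lib.Helper87.KNorm
import Cfsg.Agent.Lib.Helper87.HypAct

set_option autoImplicit false

namespace Cfsg.Agent.Lib.Helper87

open Cfsg Cfsg.FusionSystem

section GroupLemmas

variable {G G' G₁ G₂ : Type*} [Group G] [Group G'] [Group G₁] [Group G₂]

theorem IsSylIn.prod {p : ℕ} {R₁ A₁ : Subgroup G₁} {R₂ A₂ : Subgroup G₂} (h₁ : IsSylIn p R₁ A₁)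
    (h₂ : IsSylIn p R₂ A₂) : IsSylIn p (R₁.prod R₂) (A₁.prod A₂) := by
  refine ⟨Subgroup.prod_mono h₁.1 h₂.1, ?_, fun L hL hLp hRL => ?_⟩
  · rintro ⟨⟨a, b⟩, ha, hb⟩
    obtain ⟨k, hk⟩ := h₁.2.1 ⟨a, ha⟩
    obtain ⟨l, hl⟩ := h₂.2.1 ⟨b, hb⟩
    have hk' : a ^ p ^ k = 1 := congrArg Subtype.val hk
    have hl' : b ^ p ^ l = 1 := congrArg Subtype.val hl
    refine ⟨k + l, Subtype.ext ?_⟩
    show (a, b) ^ p ^ (k + l) = 1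
    rw [Prod.pow_mk, pow_add, pow_mul, hk', one_pow, mul_comm, pow_mul, hl', one_pow]
    rfl
  · have e₁ : L.map (MonoidHom.fst G₁ G₂) = R₁ := by
      refine h₁.2.2 _ ?_ (hLp.map _) ?_
      · rintro _ ⟨x, hx, rfl⟩
        exact (hL hx).1
      · intro a ha
        exact ⟨(a, 1), hRL ⟨ha, R₂.one_mem⟩, rfl⟩
    have e₂ : L.map (MonoidHom.snd G₁ G₂) = R₂ := by
      refine h₂.2.2 _ ?_ (hLp.map _) ?_
      · rintro _ ⟨x, hx, rfl⟩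
        exact (hL hx).2
      · intro a ha
        exact ⟨(1, a), hRL ⟨R₁.one_mem, ha⟩, rfl⟩
    refine le_antisymm (fun x hx => ⟨?_, ?_⟩) hRL
    · rw [← e₁]
      exact ⟨x, hx, rfl⟩
    · rw [← e₂]
      exact ⟨x, hx, rfl⟩

theorem IsSylIn.map_injective {p : ℕ} {K H : Subgroup G} (h : IsSylIn p K H) (Φ : G →* G')
    (hΦ : Function.Injective Φ) : IsSylIn p (K.map Φ) (H.map Φ) := by
  refine ⟨Subgroup.map_mono h.1, h.2.1.map _, fun L hL hLp hKL => ?_⟩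
  have h1 : L.comap Φ = K := by
    refine h.2.2 _ ?_ (hLp.comap_of_injective Φ hΦ) ?_
    · intro x hx
      obtain ⟨y, hy, e⟩ := hL hx
      rw [← hΦ e]
      exact hy
    · intro x hx
      exact hKL ⟨x, hx, rfl⟩
  rw [← h1]
  ext y
  constructor
  · intro hy
    obtain ⟨x, -, rfl⟩ := hL hy
    exact ⟨x, hy, rfl⟩
  · rintro ⟨x, hx, rfl⟩
    exact hx

theorem exists_conj_inf_sylow [Finite G] {p : ℕ} [Fact p.Prime] {R A K : Subgroup G}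
    (hR : IsSylIn p R A) (hK : K ≤ A) :
    ∃ χ ∈ A, IsSylIn p (R ⊓ K.map (MulAut.conj χ).toMonoidHom) (K.map (MulAut.conj χ).toMonoidHom) := by
  obtain ⟨Y, hY, -⟩ := exists_isSylIn_ge (bot_le : (⊥ : Subgroup G) ≤ K) (IsPGroup.of_bot)
  obtain ⟨χ, hχ, hc⟩ := hR.exists_conj (hY.1.trans hK) hY.2.1
  refine ⟨χ, hχ, ?_⟩
  have h1 := hY.conj χ
  have h2 : R ⊓ K.map (MulAut.conj χ).toMonoidHom = Y.map (MulAut.conj χ).toMonoidHom := by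
    refine h1.2.2 _ inf_le_right (hR.2.1.to_le inf_le_left) ?_
    rintro _ ⟨y, hy, rfl⟩
    exact ⟨hc y hy, ⟨y, hY.1 hy, rfl⟩⟩
  rw [h2]
  exact h1

end GroupLemmas

variable {Ω₁ Ω₂ : Type*} [Group Ω₁] [Group Ω₂]

/-- The product of two automorphisms. -/
def prodAut (P₁ : Subgroup Ω₁) (P₂ : Subgroup Ω₂) :
    MulAut P₁ × MulAut P₂ →* MulAut (P₁.prod P₂ : Subgroup (Ω₁ × Ω₂)) where
  toFun α := (Subgroup.prodEquiv P₁ P₂).trans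
    ((MulEquiv.prodCongr α.1 α.2).trans (Subgroup.prodEquiv P₁ P₂).symm)
  map_one' := by
    ext x <;> rfl
  map_mul' := by
    intro α β
    ext x <;> rfl

theorem prodAut_apply (P₁ : Subgroup Ω₁) (P₂ : Subgroup Ω₂) (α : MulAut P₁ × MulAut P₂)
    (x : (P₁.prod P₂ : Subgroup (Ω₁ × Ω₂))) :
    ((prodAut P₁ P₂ α x : (P₁.prod P₂ : Subgroup (Ω₁ × Ω₂))) : Ω₁ × Ω₂) =
      (((α.1 ⟨x.1.1, x.2.1⟩ : P₁) : Ω₁), ((α.2 ⟨x.1.2, x.2.2⟩ : P₂) : Ω₂)) := rfl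

theorem autFun_prodAut (P₁ : Subgroup Ω₁) (P₂ : Subgroup Ω₂) (α : MulAut P₁ × MulAut P₂)
    {x : Ω₁ × Ω₂} (hx : x ∈ P₁.prod P₂) :
    autFun (prodAut P₁ P₂ α) x = (autFun α.1 x.1, autFun α.2 x.2) := by
  rw [autFun_apply _ hx, prodAut_apply, autFun_apply α.1 hx.1, autFun_apply α.2 hx.2]

theorem prodAut_injective (P₁ : Subgroup Ω₁) (P₂ : Subgroup Ω₂) :
    Function.Injective (prodAut P₁ P₂) := by
  intro α β h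
  apply Prod.ext
  · ext x
    have h1 := congrArg (fun γ => ((γ ⟨(x, 1), x.2, P₂.one_mem⟩ :
      (P₁.prod P₂ : Subgroup (Ω₁ × Ω₂))) : Ω₁ × Ω₂).1) h
    exact h1
  · ext x
    have h1 := congrArg (fun γ => ((γ ⟨(1, x), P₁.one_mem, x.2⟩ :
      (P₁.prod P₂ : Subgroup (Ω₁ × Ω₂))) : Ω₁ × Ω₂).2) h
    exact h1

theorem pr₁_prod (P₁ : Subgroup Ω₁) (P₂ : Subgroup Ω₂) : pr₁ (P₁.prod P₂) = P₁ := by
  ext y
  constructor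
  · rintro ⟨x, hx, rfl⟩
    exact hx.1
  · intro hy
    exact ⟨(y, 1), ⟨hy, P₂.one_mem⟩, rfl⟩

theorem pr₂_prod (P₁ : Subgroup Ω₁) (P₂ : Subgroup Ω₂) : pr₂ (P₁.prod P₂) = P₂ := by
  ext y
  constructor
  · rintro ⟨x, hx, rfl⟩
    exact hx.2
  · intro hy
    exact ⟨(1, y), ⟨P₁.one_mem, hy⟩, rfl⟩

theorem le_prod_pr (P : Subgroup (Ω₁ × Ω₂)) : P ≤ (pr₁ P).prod (pr₂ P) :=
  fun _ hx => ⟨fst_mem_pr₁ hx, snd_mem_pr₂ hx⟩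

variable {S₁ : Subgroup Ω₁} {S₂ : Subgroup Ω₂} {F₁ : FusionSystem S₁} {F₂ : FusionSystem S₂}
  {E : FusionSystem (S₁.prod S₂)}

/-- Maps on product subgroups. -/
theorem mor_prod_prod (hE : IsProductSystem F₁ F₂ E) {P₁ : Subgroup Ω₁} {P₂ : Subgroup Ω₂}
    {f₁ : Ω₁ → Ω₁} {f₂ : Ω₂ → Ω₂} (h₁ : Mor F₁ P₁ f₁) (h₂ : Mor F₂ P₂ f₂) :
    Mor E (P₁.prod P₂) (fun x => (f₁ x.1, f₂ x.2)) := by
  rw [mor_prod_iff hE]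
  refine ⟨Subgroup.prod_mono h₁.le h₂.le, f₁, f₂, ?_, ?_, fun _ _ => rfl⟩
  · rw [pr₁_prod]; exact h₁
  · rw [pr₂_prod]; exact h₂

theorem iso_prod_prod (hE : IsProductSystem F₁ F₂ E) {P₁ Q₁ : Subgroup Ω₁} {P₂ Q₂ : Subgroup Ω₂}
    {f₁ : Ω₁ → Ω₁} {f₂ : Ω₂ → Ω₂} (h₁ : Iso F₁ P₁ Q₁ f₁) (h₂ : Iso F₂ P₂ Q₂ f₂) :
    Iso E (P₁.prod P₂) (Q₁.prod Q₂) (fun x => (f₁ x.1, f₂ x.2)) := by
  refine ⟨mor_prod_prod hE h₁.1 h₂.1, fun y => ?_⟩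
  constructor
  · rintro ⟨hy₁, hy₂⟩
    obtain ⟨a, ha, ea⟩ := h₁.surj hy₁
    obtain ⟨b, hb, eb⟩ := h₂.surj hy₂
    exact ⟨(a, b), ⟨ha, hb⟩, Prod.ext ea eb⟩
  · rintro ⟨x, hx, rfl⟩
    exact ⟨h₁.map_mem hx.1, h₂.map_mem hx.2⟩

theorem autGroup_prod [Finite S₁] [Finite S₂] (hE : IsProductSystem F₁ F₂ E) {P₁ : Subgroup Ω₁}
    {P₂ : Subgroup Ω₂} (hP₁ : P₁ ≤ S₁) (hP₂ : P₂ ≤ S₂) :
    E.autGroup (P₁.prod P₂) = ((F₁.autGroup P₁).prod (F₂.autGroup P₂)).map (prodAut P₁ P₂) := by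
  have hD : P₁.prod P₂ ≤ S₁.prod S₂ := Subgroup.prod_mono hP₁ hP₂
  have hfin₁ : Finite P₁ := finite_of_le hP₁
  have hfin₂ : Finite P₂ := finite_of_le hP₂
  ext l
  rw [mem_autGroup_iff E hD]
  constructor
  · intro h
    obtain ⟨-, f₁, f₂, h₁, h₂, e⟩ := (mor_prod_iff hE _ _).1 h
    rw [pr₁_prod] at h₁
    rw [pr₂_prod] at h₂
    have i₁ : Iso F₁ P₁ P₁ f₁ := h₁.iso_self (fun x hx => by
      have hx' : ((x, 1) : Ω₁ × Ω₂) ∈ P₁.prod P₂ := ⟨hx, P₂.one_mem⟩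
      have := (autFun_mem l hx').1
      rw [e _ hx'] at this
      exact this)
    have i₂ : Iso F₂ P₂ P₂ f₂ := h₂.iso_self (fun x hx => by
      have hx' : ((1, x) : Ω₁ × Ω₂) ∈ P₁.prod P₂ := ⟨P₁.one_mem, hx⟩
      have := (autFun_mem l hx').2
      rw [e _ hx'] at this
      exact this)
    obtain ⟨α₁, hα₁, e₁⟩ := i₁.exists_aut
    obtain ⟨α₂, hα₂, e₂⟩ := i₂.exists_aut
    refine ⟨(α₁, α₂), ⟨hα₁, hα₂⟩, ?_⟩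
    ext x
    · rw [prodAut_apply, ← autFun_coe l x, e x x.2]
      exact e₁ _
    · rw [prodAut_apply, ← autFun_coe l x, e x x.2]
      exact e₂ _
  · rintro ⟨α, ⟨hα₁, hα₂⟩, rfl⟩
    refine (mor_prod_prod hE ((mem_autGroup_iff F₁ hP₁ _).1 hα₁)
      ((mem_autGroup_iff F₂ hP₂ _).1 hα₂)).congr (fun x hx => ?_)
    rw [autFun_prodAut _ _ _ hx]

theorem autInducedBy_prod [Finite S₁] [Finite S₂] (hE : IsProductSystem F₁ F₂ E)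
    {P₁ : Subgroup Ω₁} {P₂ : Subgroup Ω₂} (hP₁ : P₁ ≤ S₁) (hP₂ : P₂ ≤ S₂) :
    autInducedBy (S₁.prod S₂) (P₁.prod P₂) =
      ((autInducedBy S₁ P₁).prod (autInducedBy S₂ P₂)).map (prodAut P₁ P₂) := by
  have hD : P₁.prod P₂ ≤ S₁.prod S₂ := Subgroup.prod_mono hP₁ hP₂
  ext l
  constructor
  · intro h
    have h1 := autInducedBy_le_autGroup E hD h
    rw [autGroup_prod hE hP₁ hP₂] at h1
    obtain ⟨α, -, rfl⟩ := h1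
    obtain ⟨g, hg, e⟩ := (mem_autInducedBy_iff _ _ _).1 h
    refine ⟨α, ⟨?_, ?_⟩, rfl⟩
    · refine (mem_autInducedBy_iff _ _ _).2 ⟨g.1, hg.1, fun x => ?_⟩
      exact congrArg Prod.fst (e ⟨(x, 1), x.2, P₂.one_mem⟩)
    · refine (mem_autInducedBy_iff _ _ _).2 ⟨g.2, hg.2, fun x => ?_⟩
      exact congrArg Prod.snd (e ⟨(1, x), P₁.one_mem, x.2⟩)
  · rintro ⟨α, ⟨hα₁, hα₂⟩, rfl⟩
    obtain ⟨g₁, hg₁, e₁⟩ := (mem_autInducedBy_iff _ _ _).1 hα₁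
    obtain ⟨g₂, hg₂, e₂⟩ := (mem_autInducedBy_iff _ _ _).1 hα₂
    refine (mem_autInducedBy_iff _ _ _).2 ⟨(g₁, g₂), ⟨hg₁, hg₂⟩, fun x => ?_⟩
    rw [prodAut_apply]
    exact Prod.ext (e₁ _) (e₂ _)

theorem fullyAutomized_prod [Finite S₁] [Finite S₂] {p : ℕ} (hE : IsProductSystem F₁ F₂ E)
    {P₁ : Subgroup Ω₁} {P₂ : Subgroup Ω₂} (h₁ : F₁.IsFullyAutomized p P₁)
    (h₂ : F₂.IsFullyAutomized p P₂) : E.IsFullyAutomized p (P₁.prod P₂) := by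
  rw [fullyAutomized_iff E p (Subgroup.prod_mono h₁.1 h₂.1), autGroup_prod hE h₁.1 h₂.1,
    autInducedBy_prod hE h₁.1 h₂.1]
  exact (((fullyAutomized_iff F₁ p h₁.1).1 h₁).prod ((fullyAutomized_iff F₂ p h₂.1).1 h₂)).map_injective
    _ (prodAut_injective P₁ P₂)

theorem mem_normalizer_pr₁ {P : Subgroup (Ω₁ × Ω₂)} {g : Ω₁ × Ω₂}
    (hg : g ∈ Subgroup.normalizer (P : Set (Ω₁ × Ω₂))) :
    g.1 ∈ Subgroup.normalizer ((pr₁ P : Subgroup Ω₁) : Set Ω₁) := by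
  rw [Subgroup.mem_normalizer_iff] at hg ⊢
  intro h
  constructor
  · rintro ⟨x, hx, rfl⟩
    exact ⟨g * x * g⁻¹, (hg x).1 hx, rfl⟩
  · rintro ⟨z, hz, e⟩
    refine ⟨g⁻¹ * z * g, (hg _).2 (by simpa [mul_assoc] using hz), ?_⟩
    show g.1⁻¹ * z.1 * g.1 = h
    have e' : z.1 = g.1 * h * g.1⁻¹ := e
    rw [e']
    group

theorem mem_normalizer_pr₂ {P : Subgroup (Ω₁ × Ω₂)} {g : Ω₁ × Ω₂}
    (hg : g ∈ Subgroup.normalizer (P : Set (Ω₁ × Ω₂))) :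
    g.2 ∈ Subgroup.normalizer ((pr₂ P : Subgroup Ω₂) : Set Ω₂) := by
  rw [Subgroup.mem_normalizer_iff] at hg ⊢
  intro h
  constructor
  · rintro ⟨x, hx, rfl⟩
    exact ⟨g * x * g⁻¹, (hg x).1 hx, rfl⟩
  · rintro ⟨z, hz, e⟩
    refine ⟨g⁻¹ * z * g, (hg _).2 (by simpa [mul_assoc] using hz), ?_⟩
    show g.2⁻¹ * z.2 * g.2 = h
    have e' : z.2 = g.2 * h * g.2⁻¹ := e
    rw [e']
    group

theorem mem_normalizer_prod {P₁ : Subgroup Ω₁} {P₂ : Subgroup Ω₂} {g : Ω₁ × Ω₂}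
    (h₁ : g.1 ∈ Subgroup.normalizer (P₁ : Set Ω₁)) (h₂ : g.2 ∈ Subgroup.normalizer (P₂ : Set Ω₂)) :
    g ∈ Subgroup.normalizer ((P₁.prod P₂ : Subgroup (Ω₁ × Ω₂)) : Set (Ω₁ × Ω₂)) := by
  rw [Subgroup.mem_normalizer_iff] at h₁ h₂ ⊢
  intro x
  exact ⟨fun hx => ⟨(h₁ _).1 hx.1, (h₂ _).1 hx.2⟩, fun hx => ⟨(h₁ _).2 hx.1, (h₂ _).2 hx.2⟩⟩

/-- Decomposition of an isomorphism of the product system. -/
theorem iso_prod_decomp (hE : IsProductSystem F₁ F₂ E) {P Q : Subgroup (Ω₁ × Ω₂)}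
    {f : Ω₁ × Ω₂ → Ω₁ × Ω₂} (h : Iso E P Q f) :
    ∃ f₁ f₂, Iso F₁ (pr₁ P) (pr₁ Q) f₁ ∧ Iso F₂ (pr₂ P) (pr₂ Q) f₂ ∧
      ∀ x ∈ P, f x = (f₁ x.1, f₂ x.2) := by
  obtain ⟨-, f₁, f₂, h₁, h₂, e⟩ := (mor_prod_iff hE _ _).1 h.1
  refine ⟨f₁, f₂, ⟨h₁, fun y => ?_⟩, ⟨h₂, fun y => ?_⟩, e⟩
  · constructor
    · rintro ⟨z, hz, rfl⟩
      obtain ⟨x, hx, rfl⟩ := h.surj hz
      exact ⟨x.1, fst_mem_pr₁ hx, by rw [e x hx]; rfl⟩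
    · rintro ⟨_, ⟨x, hx, rfl⟩, rfl⟩
      exact ⟨f x, h.map_mem hx, by rw [e x hx]; rfl⟩
  · constructor
    · rintro ⟨z, hz, rfl⟩
      obtain ⟨x, hx, rfl⟩ := h.surj hz
      exact ⟨x.2, snd_mem_pr₂ hx, by rw [e x hx]; rfl⟩
    · rintro ⟨_, ⟨x, hx, rfl⟩, rfl⟩
      exact ⟨f x, h.map_mem hx, by rw [e x hx]; rfl⟩

theorem receptive_prod (hE : IsProductSystem F₁ F₂ E) {Q₁ : Subgroup Ω₁} {Q₂ : Subgroup Ω₂}
    (h₁ : F₁.IsReceptive Q₁) (h₂ : F₂.IsReceptive Q₂) : E.IsReceptive (Q₁.prod Q₂) := by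
  refine receptive_of (Subgroup.prod_mono h₁.1 h₂.1) (fun P f hf N hN => ?_)
  obtain ⟨f₁, f₂, i₁, i₂, e⟩ := iso_prod_decomp hE hf
  rw [pr₁_prod] at i₁
  rw [pr₂_prod] at i₂
  have hNS : N ≤ S₁.prod S₂ := fun g hg => ((hN g).1 hg).1
  obtain ⟨f₁', hf₁', e₁⟩ := receptive_extend h₁ i₁ (pr₁ N) (pr₁_le hNS) (by
    rintro _ ⟨g, hg, rfl⟩
    exact mem_normalizer_pr₁ ((hN g).1 hg).2.1) (by
    rintro _ ⟨g, hg, rfl⟩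
    obtain ⟨-, hgn, k, hk, ek⟩ := (hN g).1 hg
    refine ⟨k.1, hk.1, ?_⟩
    rintro _ ⟨x, hx, rfl⟩
    have h3 := ek x hx
    rw [e x hx, e _ ((Subgroup.mem_normalizer_iff.1 hgn x).1 hx)] at h3
    exact congrArg Prod.fst h3)
  obtain ⟨f₂', hf₂', e₂⟩ := receptive_extend h₂ i₂ (pr₂ N) (pr₂_le hNS) (by
    rintro _ ⟨g, hg, rfl⟩
    exact mem_normalizer_pr₂ ((hN g).1 hg).2.1) (by
    rintro _ ⟨g, hg, rfl⟩
    obtain ⟨-, hgn, k, hk, ek⟩ := (hN g).1 hg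
    refine ⟨k.2, hk.2, ?_⟩
    rintro _ ⟨x, hx, rfl⟩
    have h3 := ek x hx
    rw [e x hx, e _ ((Subgroup.mem_normalizer_iff.1 hgn x).1 hx)] at h3
    exact congrArg Prod.snd h3)
  refine ⟨fun y => (f₁' y.1, f₂' y.2), (mor_prod_iff hE _ _).2 ⟨hNS, f₁', f₂',
    hf₁'.mono le_sup_right, hf₂'.mono le_sup_right, fun _ _ => rfl⟩, fun x hx => ?_⟩
  rw [e x hx]
  exact Prod.ext (e₁ _ (fst_mem_pr₁ hx)) (e₂ _ (snd_mem_pr₂ hx))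

end Cfsg.Agent.Lib.Helper87
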