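import Cfsg.Agent.Lib.Helper87.ProductSat1
import Cfsg.Agent.Lib.Helper87.SubReceptive

set_option autoImplicit false

namespace Cfsg.Agent.Lib.Helper87

open Cfsg Cfsg.FusionSystem

variable {Ω₁ Ω₂ : Type*} [Group Ω₁] [Group Ω₂] {S₁ : Subgroup Ω₁} {S₂ : Subgroup Ω₂}
  {F₁ : FusionSystem S₁} {F₂ : FusionSystem S₂} {E : FusionSystem (S₁.prod S₂)}

theorem isPGroup_prod {p : ℕ} (h₁ : IsPGroup p S₁) (h₂ : IsPGroup p S₂) :
    IsPGroup p (S₁.prod S₂ : Subgroup (Ω₁ × Ω₂)) := by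
  rintro ⟨⟨a, b⟩, ha, hb⟩
  obtain ⟨k, hk⟩ := h₁ ⟨a, ha⟩
  obtain ⟨l, hl⟩ := h₂ ⟨b, hb⟩
  have hk' : a ^ p ^ k = 1 := congrArg Subtype.val hk
  have hl' : b ^ p ^ l = 1 := congrArg Subtype.val hl
  refine ⟨k + l, Subtype.ext ?_⟩
  show (a, b) ^ p ^ (k + l) = 1
  rw [Prod.pow_mk, pow_add, pow_mul, hk', one_pow, mul_comm, pow_mul, hl', one_pow]
  rfl

theorem product_saturated [Finite S₁] [Finite S₂] {p : ℕ} [Fact p.Prime] (h₁ : IsPGroup p S₁)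
    (h₂ : IsPGroup p S₂) (hF₁ : F₁.IsSaturated p) (hF₂ : F₂.IsSaturated p)
    (hE : IsProductSystem F₁ F₂ E) : E.IsSaturated p := by
  have hfinS : Finite (S₁.prod S₂ : Subgroup (Ω₁ × Ω₂)) :=
    Finite.of_equiv _ (Subgroup.prodEquiv S₁ S₂).symm.toEquiv
  have hS := isPGroup_prod h₁ h₂
  intro P hP
  obtain ⟨Q₁, hc₁, hfa₁, hr₁⟩ := hF₁ (pr₁ P) (pr₁_le hP)
  obtain ⟨Q₂, hc₂, hfa₂, hr₂⟩ := hF₂ (pr₂ P) (pr₂_le hP)
  obtain ⟨a₁, ha₁⟩ := (isConj_iff F₁ _ _).1 hc₁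
  obtain ⟨a₂, ha₂⟩ := (isConj_iff F₂ _ _).1 hc₂
  have hDfa := fullyAutomized_prod hE hfa₁ hfa₂
  have hDr := receptive_prod hE hr₁ hr₂
  set D := Q₁.prod Q₂ with hDdef
  have hDS : D ≤ S₁.prod S₂ := hDr.1
  have hfinD : Finite D := finite_of_le hDS
  have hh := iso_prod_prod hE ha₁ ha₂
  set h : Ω₁ × Ω₂ → Ω₁ × Ω₂ := fun x => (a₁ x.1, a₂ x.2) with hhdef
  have hPP' := (hh.1.mono (le_prod_pr P)).iso_img
  set P' := img P h with hP'def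
  have hP'D : P' ≤ D := by
    intro y hy
    obtain ⟨x, hx, rfl⟩ := hPP'.surj hy
    exact hh.map_mem (le_prod_pr P hx)
  have hR := (fullyAutomized_iff E p hDS).1 hDfa
  obtain ⟨χ, hχ, hsyl⟩ := exists_conj_inf_sylow hR
    (inf_le_right : stabAut D P' ⊓ E.autGroup D ≤ E.autGroup D)
  have hχm := (mem_autGroup_iff E hDS χ).1 hχ
  have hP'P'' := (hχm.mono hP'D).iso_img
  set P'' := img P' (autFun χ) with hP''def
  have hP''D : P'' ≤ D := by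
    intro y hy
    obtain ⟨x, hx, rfl⟩ := hP'P''.surj hy
    exact autFun_mem χ (hP'D hx)
  have m : ∀ x : D, (x : Ω₁ × Ω₂) ∈ P'' ↔ ((χ⁻¹ x : D) : Ω₁ × Ω₂) ∈ P' := by
    intro x
    constructor
    · intro hx
      obtain ⟨y, hy, e⟩ := hP'P''.surj hx
      have h1 : x = χ ⟨y, hP'D hy⟩ := Subtype.ext (by rw [← e, autFun_apply _ (hP'D hy)])
      rw [h1, MulAut.inv_apply_self]
      exact hy
    · intro hx
      have := hP'P''.map_mem hx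
      rwa [autFun_coe, MulAut.apply_inv_self] at this
  have hmap : (stabAut D P' ⊓ E.autGroup D).map (MulAut.conj χ).toMonoidHom =
      stabAut D P'' ⊓ E.autGroup D := by
    ext l
    constructor
    · rintro ⟨l₀, ⟨hl₀, hl₀A⟩, rfl⟩
      refine ⟨fun x => ?_, Subgroup.mul_mem _ (Subgroup.mul_mem _ hχ hl₀A) (Subgroup.inv_mem _ hχ)⟩
      rw [m x, m, hl₀ (χ⁻¹ x)]
      show _ ↔ ((χ⁻¹ (χ (l₀ (χ⁻¹ x))) : D) : Ω₁ × Ω₂) ∈ P'
      rw [MulAut.inv_apply_self]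
    · rintro ⟨hl, hlA⟩
      refine ⟨χ⁻¹ * l * χ, ⟨fun x => ?_, Subgroup.mul_mem _ (Subgroup.mul_mem _
        (Subgroup.inv_mem _ hχ) hlA) hχ⟩, ?_⟩
      · have h1 := m (χ x)
        rw [MulAut.inv_apply_self] at h1
        rw [← h1, hl (χ x), m]
        rfl
      · show χ * (χ⁻¹ * l * χ) * χ⁻¹ = l
        group
  rw [hmap] at hsyl
  have hASt : ASt (S₁.prod S₂) D (stabAut D P'') id =
      autInducedBy (S₁.prod S₂) D ⊓ (stabAut D P'' ⊓ E.autGroup D) := by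
    ext l
    constructor
    · rintro ⟨hl, n, hn, e⟩
      have h1 : l ∈ autInducedBy (S₁.prod S₂) D :=
        (mem_autInducedBy_iff _ _ _).2 ⟨n, hn, fun x => (e x).symm⟩
      exact ⟨h1, hl, autInducedBy_le_autGroup E hDS h1⟩
    · rintro ⟨h1, hl, -⟩
      obtain ⟨n, hn, e⟩ := (mem_autInducedBy_iff _ _ _).1 h1
      exact ⟨hl, n, hn, fun x => (e x).symm⟩
  rw [← hASt] at hsyl
  -- projections
  have hfin₁ : Finite Q₁ := finite_of_le hr₁.1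
  have hfin₂ : Finite Q₂ := finite_of_le hr₂.1
  have hpr₁' : pr₁ P' = Q₁ := by
    ext y
    constructor
    · rintro ⟨z, hz, rfl⟩
      exact (hP'D hz).1
    · intro hy
      obtain ⟨x₁, ⟨x, hx, rfl⟩, rfl⟩ := ha₁.surj hy
      exact ⟨h x, hPP'.map_mem hx, rfl⟩
  have hpr₂' : pr₂ P' = Q₂ := by
    ext y
    constructor
    · rintro ⟨z, hz, rfl⟩
      exact (hP'D hz).2
    · intro hy
      obtain ⟨x₁, ⟨x, hx, rfl⟩, rfl⟩ := ha₂.surj hy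
      exact ⟨h x, hPP'.map_mem hx, rfl⟩
  obtain ⟨c₁, c₂, hc₁', hc₂', -⟩ := iso_prod_decomp hE hP'P''
  have hpr₁ : pr₁ P'' = Q₁ := by
    refine Subgroup.eq_of_le_of_card_ge ?_ ?_
    · rintro _ ⟨z, hz, rfl⟩
      exact (hP''D hz).1
    · rw [← hc₁'.card_eq, hpr₁']
  have hpr₂ : pr₂ P'' = Q₂ := by
    refine Subgroup.eq_of_le_of_card_ge ?_ ?_
    · rintro _ ⟨z, hz, rfl⟩
      exact (hP''D hz).2
    · rw [← hc₂'.card_eq, hpr₂']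
  have hnorm : ∀ R₀ : Subgroup (Ω₁ × Ω₂), normalizerIn (S₁.prod S₂) R₀ ≤
      Subgroup.normalizer (((pr₁ R₀).prod (pr₂ R₀) : Subgroup (Ω₁ × Ω₂)) : Set (Ω₁ × Ω₂)) :=
    fun R₀ g hg => mem_normalizer_prod (mem_normalizer_pr₁ hg.2) (mem_normalizer_pr₂ hg.2)
  obtain ⟨fa, rc⟩ := fa_rec_of_sub hS hDr hP''D hsyl (by
      have := hnorm P''
      rwa [hpr₁, hpr₂] at this) (by
      intro R₀ f hf
      obtain ⟨f₁, f₂, i₁, i₂, e⟩ := iso_prod_decomp hE hf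
      rw [hpr₁] at i₁
      rw [hpr₂] at i₂
      exact ⟨_, _, iso_prod_prod hE i₁ i₂, le_prod_pr R₀, fun x hx => (e x hx).symm, hnorm R₀⟩) (by
      intro f hf
      obtain ⟨f₁, f₂, i₁, i₂, e⟩ := iso_prod_decomp hE hf
      rw [hpr₁] at i₁
      rw [hpr₂] at i₂
      exact ⟨_, iso_prod_prod hE i₁ i₂, fun x hx => (e x hx).symm⟩)
  exact ⟨P'', (isConj_iff E _ _).2 ⟨_, hPP'.trans hP'P''⟩, fa, rc⟩

end Cfsg.Agent.Lib.Helper87
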