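import Cfsg.Agent.Lib.Helper87.FusionMk
import Cfsg.Prelude.Def_FusionComponents

set_option autoImplicit false

namespace Cfsg.Agent.Lib.Helper87

open Cfsg Cfsg.FusionSystem

variable {Ω₁ Ω₂ : Type*} [Group Ω₁] [Group Ω₂] {S₁ : Subgroup Ω₁} {S₂ : Subgroup Ω₂}

/-- First projection of a subgroup of the product. -/
abbrev pr₁ (P : Subgroup (Ω₁ × Ω₂)) : Subgroup Ω₁ := P.map (MonoidHom.fst Ω₁ Ω₂)

/-- Second projection of a subgroup of the product. -/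
abbrev pr₂ (P : Subgroup (Ω₁ × Ω₂)) : Subgroup Ω₂ := P.map (MonoidHom.snd Ω₁ Ω₂)

theorem fst_mem_pr₁ {P : Subgroup (Ω₁ × Ω₂)} {x : Ω₁ × Ω₂} (hx : x ∈ P) : x.1 ∈ pr₁ P :=
  ⟨x, hx, rfl⟩

theorem snd_mem_pr₂ {P : Subgroup (Ω₁ × Ω₂)} {x : Ω₁ × Ω₂} (hx : x ∈ P) : x.2 ∈ pr₂ P :=
  ⟨x, hx, rfl⟩

/-- The maps of the product system, in function form. -/
def prodM (F₁ : FusionSystem S₁) (F₂ : FusionSystem S₂) (P : Subgroup (Ω₁ × Ω₂))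
    (f : Ω₁ × Ω₂ → Ω₁ × Ω₂) : Prop :=
  P ≤ S₁.prod S₂ ∧ ∃ f₁ f₂, Mor F₁ (pr₁ P) f₁ ∧ Mor F₂ (pr₂ P) f₂ ∧ ∀ x ∈ P, f x = (f₁ x.1, f₂ x.2)

theorem pr₁_le {P : Subgroup (Ω₁ × Ω₂)} (h : P ≤ S₁.prod S₂) : pr₁ P ≤ S₁ := by
  rintro _ ⟨x, hx, rfl⟩
  exact (h hx).1

theorem pr₂_le {P : Subgroup (Ω₁ × Ω₂)} (h : P ≤ S₁.prod S₂) : pr₂ P ≤ S₂ := by
  rintro _ ⟨x, hx, rfl⟩
  exact (h hx).2

/-- The product system. -/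
noncomputable def prodSystem (F₁ : FusionSystem S₁) (F₂ : FusionSystem S₂) :
    FusionSystem (S₁.prod S₂) :=
  mkSystem (S₁.prod S₂) (prodM F₁ F₂)
    (by
      rintro P f g ⟨hP, f₁, f₂, h₁, h₂, e⟩ hfg
      exact ⟨hP, f₁, f₂, h₁, h₂, fun x hx => by rw [← hfg x hx]; exact e x hx⟩)
    (fun h => h.1)
    (by
      rintro P f ⟨hP, f₁, f₂, h₁, h₂, e⟩ x hx
      rw [e x hx]
      exact ⟨h₁.mem (fst_mem_pr₁ hx), h₂.mem (snd_mem_pr₂ hx)⟩)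
    (by
      rintro P f ⟨hP, f₁, f₂, h₁, h₂, e⟩ x hx y hy hxy
      rw [e x hx, e y hy] at hxy
      exact Prod.ext (h₁.inj (fst_mem_pr₁ hx) (fst_mem_pr₁ hy) (congrArg Prod.fst hxy))
        (h₂.inj (snd_mem_pr₂ hx) (snd_mem_pr₂ hy) (congrArg Prod.snd hxy)))
    (by
      intro P g hP hg
      exact ⟨hP, _, _, mor_conj F₁ (pr₁_le hP) hg.1, mor_conj F₂ (pr₂_le hP) hg.2,
        fun x _ => rfl⟩)
    (by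
      rintro P Q f g ⟨hP, f₁, f₂, h₁, h₂, e⟩ ⟨hQ, g₁, g₂, k₁, k₂, e'⟩ hPQ
      refine ⟨hP, g₁ ∘ f₁, g₂ ∘ f₂, h₁.comp k₁ ?_, h₂.comp k₂ ?_, fun x hx => ?_⟩
      · rintro _ ⟨x, hx, rfl⟩
        have := fst_mem_pr₁ (hPQ x hx)
        rw [e x hx] at this
        exact this
      · rintro _ ⟨x, hx, rfl⟩
        have := snd_mem_pr₂ (hPQ x hx)
        rw [e x hx] at this
        exact this
      · show g (f x) = _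
        rw [e' _ (hPQ x hx), e x hx]
        rfl)
    (by
      rintro P Q f ⟨hP, f₁, f₂, h₁, h₂, e⟩ _ hQ
      have i₁ : Iso F₁ (pr₁ P) (pr₁ Q) f₁ := by
        refine ⟨h₁, fun y => ?_⟩
        constructor
        · rintro ⟨z, hz, rfl⟩
          obtain ⟨x, hx, rfl⟩ := (hQ z).1 hz
          exact ⟨x.1, fst_mem_pr₁ hx, by rw [e x hx]; rfl⟩
        · rintro ⟨_, ⟨x, hx, rfl⟩, rfl⟩
          exact ⟨f x, (hQ _).2 ⟨x, hx, rfl⟩, by rw [e x hx]; rfl⟩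
      have i₂ : Iso F₂ (pr₂ P) (pr₂ Q) f₂ := by
        refine ⟨h₂, fun y => ?_⟩
        constructor
        · rintro ⟨z, hz, rfl⟩
          obtain ⟨x, hx, rfl⟩ := (hQ z).1 hz
          exact ⟨x.2, snd_mem_pr₂ hx, by rw [e x hx]; rfl⟩
        · rintro ⟨_, ⟨x, hx, rfl⟩, rfl⟩
          exact ⟨f x, (hQ _).2 ⟨x, hx, rfl⟩, by rw [e x hx]; rfl⟩
      obtain ⟨g₁, k₁, a₁, -⟩ := i₁.symm
      obtain ⟨g₂, k₂, a₂, -⟩ := i₂.symm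
      refine ⟨fun y => (g₁ y.1, g₂ y.2), ⟨?_, g₁, g₂, k₁.1, k₂.1, fun _ _ => rfl⟩, fun x hx => ?_⟩
      · intro y hy
        obtain ⟨x, hx, rfl⟩ := (hQ y).1 hy
        rw [e x hx]
        exact ⟨h₁.mem (fst_mem_pr₁ hx), h₂.mem (snd_mem_pr₂ hx)⟩
      · rw [e x hx]
        exact Prod.ext (a₁ _ (fst_mem_pr₁ hx)) (a₂ _ (snd_mem_pr₂ hx)))

theorem prodM.map_mul {F₁ : FusionSystem S₁} {F₂ : FusionSystem S₂} {P : Subgroup (Ω₁ × Ω₂)}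
    {f : Ω₁ × Ω₂ → Ω₁ × Ω₂} (h : prodM F₁ F₂ P f) :
    ∀ x ∈ P, ∀ y ∈ P, f (x * y) = f x * f y := by
  obtain ⟨hP, f₁, f₂, h₁, h₂, e⟩ := h
  intro x hx y hy
  rw [e x hx, e y hy, e _ (P.mul_mem hx hy)]
  exact Prod.ext (h₁.map_mul (fst_mem_pr₁ hx) (fst_mem_pr₁ hy))
    (h₂.map_mul (snd_mem_pr₂ hx) (snd_mem_pr₂ hy))

/-- Function form of the defining property of a product system. -/
theorem mor_prod_iff {F₁ : FusionSystem S₁} {F₂ : FusionSystem S₂}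
    {E : FusionSystem (S₁.prod S₂)} (hE : IsProductSystem F₁ F₂ E) (P : Subgroup (Ω₁ × Ω₂))
    (f : Ω₁ × Ω₂ → Ω₁ × Ω₂) : Mor E P f ↔ prodM F₁ F₂ P f := by
  constructor
  · rintro ⟨φ, hφ, e⟩
    obtain ⟨hP, φ₁, hφ₁, φ₂, hφ₂, h⟩ := (hE P φ).1 hφ
    refine ⟨hP, ext φ₁, ext φ₂, Mor.of_hom hφ₁, Mor.of_hom hφ₂, fun x hx => ?_⟩
    rw [← e ⟨x, hx⟩, h ⟨x, hx⟩ (fst_mem_pr₁ hx) (snd_mem_pr₂ hx), ext_apply φ₁ (fst_mem_pr₁ hx),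
      ext_apply φ₂ (snd_mem_pr₂ hx)]
  · intro h
    have hmul := h.map_mul
    obtain ⟨hP, f₁, f₂, ⟨φ₁, hφ₁, e₁⟩, ⟨φ₂, hφ₂, e₂⟩, e⟩ := h
    refine ⟨homOf P f hmul, (hE P _).2 ⟨hP, φ₁, hφ₁, φ₂, hφ₂, fun x h₁ h₂ => ?_⟩, fun x => rfl⟩
    rw [homOf_apply, e x x.2, e₁, e₂]

theorem isProductSystem_prodSystem (F₁ : FusionSystem S₁) (F₂ : FusionSystem S₂) :
    IsProductSystem F₁ F₂ (prodSystem F₁ F₂) := by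
  intro P φ
  show prodM F₁ F₂ P (ext φ) ↔ _
  constructor
  · rintro ⟨hP, f₁, f₂, ⟨φ₁, hφ₁, e₁⟩, ⟨φ₂, hφ₂, e₂⟩, e⟩
    refine ⟨hP, φ₁, hφ₁, φ₂, hφ₂, fun x h₁ h₂ => ?_⟩
    rw [← ext_coe φ x, e x x.2, e₁, e₂]
  · rintro ⟨hP, φ₁, hφ₁, φ₂, hφ₂, h⟩
    refine ⟨hP, ext φ₁, ext φ₂, Mor.of_hom hφ₁, Mor.of_hom hφ₂, fun x hx => ?_⟩
    rw [ext_apply φ hx, h ⟨x, hx⟩ (fst_mem_pr₁ hx) (snd_mem_pr₂ hx), ext_apply φ₁ (fst_mem_pr₁ hx),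
      ext_apply φ₂ (snd_mem_pr₂ hx)]

end Cfsg.Agent.Lib.Helper87
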