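import Cfsg.Agent.Lib.Helper87.Solvable
import Cfsg.Agent.Lib.Helper87.SurjTools

set_option autoImplicit false

namespace Cfsg.Agent.Lib.Helper87

open Cfsg Cfsg.FusionSystem commutatorElement

variable {Ω : Type*} [Group Ω] {S T : Subgroup Ω} {Ω' : Type*} [Group Ω'] {S' : Subgroup Ω'}

/-- A subgroup of `T` strongly closed in an invariant subsystem over `T` and stable under
`Aut_F(T)` is strongly closed in `F`. -/
theorem stronglyClosed_of_invariant {E : FusionSystem T} {F : FusionSystem S}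
    (hT : F.StronglyClosed T) (hfrat : FratF E F) {U : Subgroup Ω} (hU : E.StronglyClosed U)
    (hinv : ∀ a, Iso F T T a → ∀ x ∈ U, a x ∈ U) : F.StronglyClosed U := by
  rw [stronglyClosed_iff]
  refine ⟨hU.1.trans hT.1, fun R f hf x hx hxU => ?_⟩
  obtain ⟨a, f₀, ha, hf₀, e⟩ := hfrat (R ⊓ T) f inf_le_right (hf.mono inf_le_left)
  have hxR : x ∈ R ⊓ T := ⟨hx, hU.1 hxU⟩
  rw [e x hxR]
  exact hinv a ha _ (StronglyClosed.map_mem hU hf₀ hxR hxU)

/-- One step of an `F`-strongly closed abelian chain inside a solvable invariant subsystem. -/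
theorem abStep_invariant [Finite S] {p : ℕ} [Fact p.Prime] (hS : IsPGroup p S)
    {E : FusionSystem T} {F : FusionSystem S} (hE : E.IsSaturated p) (hT : F.StronglyClosed T)
    (hsub : E.IsSubsystemOf F)
    (hinv : InvF E F) (hfrat : FratF E F) (hsol : E.IsSolvableSystem) {R : Subgroup Ω}
    (hR : F.StronglyClosed R) (hRT : R ≤ T) (hne : R ≠ T) :
    ∃ U : Subgroup Ω, F.StronglyClosed U ∧ R < U ∧ U ≤ T ∧ ⁅U, U⁆ ≤ R := by
  have hfinT : Finite T := finite_of_le hT.1
  have hpT : IsPGroup p T := hS.to_le hT.1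
  have hRE : E.StronglyClosed R := by
    rw [stronglyClosed_iff]
    exact ⟨hRT, fun P f hf x hx hxR => StronglyClosed.map_mem hR (hf.of_subsystem hsub) hx hxR⟩
  have hn := normal_subgroupOf_of_stronglyClosed hRE
  obtain ⟨E', hE'⟩ := Cfsg.Agent.S5132.result p hpT E R hRE
  have hcore := hsol R hRE hne E' hE'
  have hsm := surjMor_of (Cfsg.Agent.S5134.result p hpT E hE R hRE _ E' hE')
  have hfinT' : Finite (⊤ : Subgroup (T ⧸ R.subgroupOf T)) := hsm.finite_target
  have hpT' := hsm.isPGroup_target hpT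
  have hQn := Cfsg.Agent.Lib.Helper88.isNormal_core E'
  have hfinQ : Finite E'.core := finite_of_le hQn.1
  obtain ⟨z, hzQ, hz1, hzc⟩ := exists_central_ne_one (hpT'.to_le hQn.1) hcore
  have hZ : E'.StronglyClosed (E'.core ⊓ centralizerIn ⊤ E'.core) :=
    stronglyClosed_inf (Cfsg.Agent.Lib.Helper87.IsNormal.stronglyClosed hQn)
      (stronglyClosed_centralizerIn hQn)
  have hker : ∀ x ∈ T, tf (QuotientGroup.mk' (R.subgroupOf T)) x = 1 ↔ x ∈ R :=
    fun x hx => tf_eq_one_iff hE'.2.1 hx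
  have hUE := hsm.stronglyClosed_preimage hZ
  refine ⟨hsm.preimage _, stronglyClosed_of_invariant hT hfrat hUE ?_, lt_of_le_of_ne ?_ ?_,
    hsm.preimage_le _, ?_⟩
  · intro a ha x hx
    have h₂ := (surjMor_of_invF hinv ha).comp hsm
    obtain ⟨θ, hθ, e⟩ := hsm.factor h₂ (fun x hx h1 => by
      show tf (QuotientGroup.mk' (R.subgroupOf T)) (a x) = 1
      rw [hker _ (ha.map_mem hx)]
      exact StronglyClosed.map_mem hR ha.1 hx ((hker x hx).1 h1))
    have hinj := hθ.inj_of_endo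
    have hc := hθ.image_core_le
    -- `θ` maps the core onto itself
    have hsurj : ∀ q ∈ E'.core, ∃ q₀ ∈ E'.core, θ q₀ = q := by
      let g : E'.core → E'.core := fun q => ⟨θ q, hc q q.2⟩
      have hi : Function.Injective g := fun q q' hq =>
        Subtype.ext (hinj _ trivial _ trivial (congrArg Subtype.val hq))
      have hs := Finite.injective_iff_surjective.1 hi
      intro q hq
      obtain ⟨q₀, h0⟩ := hs ⟨q, hq⟩
      exact ⟨q₀, q₀.2, congrArg Subtype.val h0⟩
    rw [hsm.mem_preimage] at hx ⊢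
    refine ⟨ha.map_mem hx.1, ?_⟩
    have e1 := e x hx.1
    change θ _ = tf (QuotientGroup.mk' (R.subgroupOf T)) (a x) at e1
    rw [← e1]
    refine ⟨hc _ hx.2.1, trivial, Subgroup.mem_centralizer_iff.2 ?_⟩
    intro q hq
    obtain ⟨q₀, hq₀, rfl⟩ := hsurj q hq
    rw [← hθ.map_mul _ trivial _ trivial, ← hθ.map_mul _ trivial _ trivial,
      (Subgroup.mem_centralizer_iff.1 hx.2.2.2) q₀ hq₀]
  · intro x hx
    rw [hsm.mem_preimage]
    refine ⟨hRT hx, ?_⟩
    rw [(hker x (hRT hx)).2 hx]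
    exact Subgroup.one_mem _
  · intro heq
    obtain ⟨u, hu, rfl⟩ := hsm.surj z trivial
    have : u ∈ hsm.preimage (E'.core ⊓ centralizerIn ⊤ E'.core) := by
      rw [hsm.mem_preimage]
      exact ⟨hu, hzQ, trivial, Subgroup.mem_centralizer_iff.2 hzc⟩
    rw [← heq] at this
    exact hz1 ((hker u hu).2 this)
  · rw [Subgroup.commutator_le]
    intro a ha b hb
    rw [hsm.mem_preimage] at ha hb
    have hab : a * b * a⁻¹ * b⁻¹ ∈ T :=
      T.mul_mem (T.mul_mem (T.mul_mem ha.1 hb.1) (T.inv_mem ha.1)) (T.inv_mem hb.1)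
    rw [commutatorElement_def, ← hker _ hab,
      hsm.map_mul _ (T.mul_mem (T.mul_mem ha.1 hb.1) (T.inv_mem ha.1)) _ (T.inv_mem hb.1),
      hsm.map_conj ha.1 hb.1, hsm.map_inv hb.1,
      (Subgroup.mem_centralizer_iff.1 hb.2.2.2) _ ha.2.1]
    group

theorem chain_through_invariant [Finite S] {p : ℕ} [Fact p.Prime] (hS : IsPGroup p S)
    {E : FusionSystem T} {F : FusionSystem S} (hE : E.IsSaturated p) (hT : F.StronglyClosed T)
    (hsub : E.IsSubsystemOf F)
    (hinv : InvF E F) (hfrat : FratF E F) (hsol : E.IsSolvableSystem) (hch : AbChainFrom F T) :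
    ∀ (k : ℕ) (R : Subgroup Ω), F.StronglyClosed R → R ≤ T → Nat.card T - Nat.card R ≤ k →
      AbChainFrom F R := by
  have hfinT : Finite T := finite_of_le hT.1
  intro k
  induction k with
  | zero =>
    intro R hR hRT hk
    have hRS : R = T := by
      have h1 : Nat.card R ≤ Nat.card T := Subgroup.card_le_of_le hRT
      exact Subgroup.eq_of_le_of_card_ge hRT (by omega)
    rw [hRS]
    exact hch
  | succ k ih =>
    intro R hR hRT hk
    by_cases hRS : R = T
    · rw [hRS]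
      exact hch
    · obtain ⟨U, hU, hRU, hUT, hc⟩ := abStep_invariant hS hE hT hsub hinv hfrat hsol hR hRT hRS
      have : Finite U := finite_of_le hU.1
      have h1 : Nat.card R < Nat.card U := Set.Finite.card_lt_card (Set.toFinite _) hRU
      have h2 : Nat.card U ≤ Nat.card T := Subgroup.card_le_of_le hUT
      exact AbChainFrom.cons hR hRU.le hc (ih U hU hUT (by omega))

/-- The chain restricted to a subsystem. -/
theorem AbChainFrom.restrict {E : FusionSystem T} {F : FusionSystem S} (hsub : E.IsSubsystemOf F)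
    (hTS : T ≤ S) (h : AbChainFrom F ⊥) : AbChainFrom E ⊥ := by
  obtain ⟨n, X, h0, hn, hmono, hsc, hcomm⟩ := h
  refine ⟨n, fun i => X i ⊓ T, ?_, ?_, fun i => inf_le_inf_right _ (hmono i), fun i => ?_,
    fun i hi => ?_⟩
  · show X 0 ⊓ T = ⊥
    rw [h0, bot_inf_eq]
  · show X n ⊓ T = T
    rw [hn]
    exact inf_eq_right.2 hTS
  · rw [stronglyClosed_iff]
    exact ⟨inf_le_right, fun P f hf x hx hxR =>
      ⟨StronglyClosed.map_mem (hsc i) (hf.of_subsystem hsub) hx hxR.1, hf.mem hx⟩⟩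
  · refine le_inf ((Subgroup.commutator_mono inf_le_left inf_le_left).trans (hcomm i hi)) ?_
    refine (Subgroup.commutator_mono inf_le_right inf_le_right).trans ?_
    rw [Subgroup.commutator_le]
    intro a ha b hb
    rw [commutatorElement_def]
    exact T.mul_mem (T.mul_mem (T.mul_mem ha hb) (T.inv_mem ha)) (T.inv_mem hb)

/-- The image chain. -/
theorem AbChainFrom.image {F : FusionSystem S} {F' : FusionSystem S'} {θ : Ω → Ω'}
    (h : SurjMor F F' θ) (hc : AbChainFrom F ⊥) : AbChainFrom F' ⊥ := by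
  obtain ⟨n, X, h0, hn, hmono, hsc, hcomm⟩ := hc
  refine ⟨n, fun i => h.image (X i) (hsc i).1, ?_, ?_, fun i => ?_,
    fun i => h.stronglyClosed_image (hsc i), fun i hi => ?_⟩
  · rw [eq_bot_iff]
    intro y hy
    obtain ⟨x, hx, rfl⟩ := (h.mem_image _ _).1 hy
    rw [h0, Subgroup.mem_bot] at hx
    rw [hx, h.map_one]
    exact Subgroup.one_mem _
  · apply le_antisymm (h.image_le _)
    intro y hy
    obtain ⟨x, hx, rfl⟩ := h.surj y hy
    exact (h.mem_image _ _).2 ⟨x, by rw [hn]; exact hx, rfl⟩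
  · intro y hy
    obtain ⟨x, hx, rfl⟩ := (h.mem_image _ _).1 hy
    exact (h.mem_image _ _).2 ⟨x, hmono i hx, rfl⟩
  · rw [Subgroup.commutator_le]
    intro a ha b hb
    obtain ⟨x, hx, rfl⟩ := (h.mem_image _ _).1 ha
    obtain ⟨y, hy, rfl⟩ := (h.mem_image _ _).1 hb
    have hxS := (hsc (i + 1)).1 hx
    have hyS := (hsc (i + 1)).1 hy
    refine (h.mem_image _ _).2 ⟨⁅x, y⁆, hcomm i hi (Subgroup.commutator_mem_commutator hx hy), ?_⟩
    rw [commutatorElement_def, commutatorElement_def,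
      h.map_mul _ (S.mul_mem (S.mul_mem hxS hyS) (S.inv_mem hxS)) _ (S.inv_mem hyS),
      h.map_conj hxS hyS, h.map_inv hyS]

/-- The preimage chain. -/
theorem AbChainFrom.preimage {F : FusionSystem S} {F' : FusionSystem S'} {θ : Ω → Ω'}
    (h : SurjMor F F' θ) (hc : AbChainFrom F' ⊥) : AbChainFrom F h.ker := by
  obtain ⟨n, X, h0, hn, hmono, hsc, hcomm⟩ := hc
  refine ⟨n, fun i => h.preimage (X i), ?_, ?_, fun i => ?_,
    fun i => h.stronglyClosed_preimage (hsc i), fun i hi => ?_⟩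
  · ext x
    rw [h.mem_preimage, h0, Subgroup.mem_bot, h.mem_ker]
  · apply le_antisymm (h.preimage_le _)
    intro x hx
    exact (h.mem_preimage _ _).2 ⟨hx, by rw [hn]; exact h.mem x hx⟩
  · intro x hx
    rw [h.mem_preimage] at hx ⊢
    exact ⟨hx.1, hmono i hx.2⟩
  · rw [Subgroup.commutator_le]
    intro a ha b hb
    rw [h.mem_preimage] at ha hb ⊢
    have hab : a * b * a⁻¹ * b⁻¹ ∈ S :=
      S.mul_mem (S.mul_mem (S.mul_mem ha.1 hb.1) (S.inv_mem ha.1)) (S.inv_mem hb.1)
    rw [commutatorElement_def]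
    refine ⟨hab, ?_⟩
    rw [h.map_mul _ (S.mul_mem (S.mul_mem ha.1 hb.1) (S.inv_mem ha.1)) _ (S.inv_mem hb.1),
      h.map_conj ha.1 hb.1, h.map_inv hb.1, ← commutatorElement_def]
    exact hcomm i hi (Subgroup.commutator_mem_commutator ha.2 hb.2)

end Cfsg.Agent.Lib.Helper87
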